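import Mathlib
import Cfsg.Agent.H16.Prim

/-! Lines on `p ^ 2 + 1` points; linked symmetric designs of prime order; a transfer lemma. -/

set_option autoImplicit false
set_option linter.unusedSectionVars false

namespace Cfsg.Agent.H16

open MulAction Subgroup Pointwise Matrix

section
variable {G Ω : Type*} [Group G] [MulAction G Ω]

variable (G) in
/-- an equivariant system of lines -/
structure Lines (p : ℕ) (L : Ω → Ω → Set Ω) : Prop where
  eqv : ∀ (g : G) a b, L (g • a) (g • b) = g • L a b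
  left : ∀ a b, a ≠ b → a ∈ L a b
  right : ∀ a b, a ≠ b → b ∈ L a b
  cons : ∀ a b c, a ≠ b → a ≠ c → c ∈ L a b → L a c = L a b
  card : ∀ a b, a ≠ b → (L a b).ncard = p + 1

theorem Lines.not_symm [Finite Ω] {p : ℕ} {L : Ω → Ω → Set Ω} (h : Lines G p L) (hp : 2 ≤ p)
    (hΩ : Nat.card Ω = p ^ 2 + 1) (hs : ∀ a b, a ≠ b → L a b = L b a) : False := by
  classical
  have := Fintype.ofFinite Ω
  have : Nontrivial Ω := Finite.one_lt_card_iff_nontrivial.1 (by rw [hΩ]; nlinarith)
  obtain ⟨a, b, ab⟩ := exists_pair_ne Ω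
  obtain ⟨c, hc⟩ : ∃ c, c ∉ L a b := by
    by_contra! e
    have := h.card a b ab
    rw [Set.eq_univ_of_forall e, Set.ncard_univ] at this
    nlinarith
  have ne : ∀ x ∈ L a b, c ≠ x := fun x hx e => hc (e ▸ hx)
  have := Finset.card_biUnion (s := (L a b).toFinset) (t := fun x => (L c x \ {c}).toFinset)
    fun x hx y hy xy => Finset.disjoint_left.2 fun z z1 z2 => by
      simp only [Finset.mem_coe, Set.mem_toFinset, Set.mem_diff, Set.mem_singleton_iff] at hx hy z1 z2
      have e : L c x = L c y := (h.cons _ _ _ (ne x hx) (Ne.symm z1.2) z1.1).symm.trans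
        (h.cons _ _ _ (ne y hy) (Ne.symm z1.2) z2.1)
      have e1 : L x y = L x c := h.cons _ _ _ (ne x hx).symm xy
        (by rw [← hs _ _ (ne x hx), e]; exact h.right _ _ (ne y hy))
      have e2 : L x y = L a b := by
        rcases eq_or_ne a x with rfl | ax
        · exact h.cons _ _ _ ab xy hy
        · rw [← h.cons _ _ _ ab ax hx, hs _ _ ax] at hy ⊢
          exact h.cons _ _ _ ax.symm xy hy
      exact hc (e2 ▸ e1 ▸ h.right _ _ (ne x hx).symm)
  rw [Finset.sum_congr rfl (g := fun _ => p) fun x hx => by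
    have hx := ne x (by simpa using hx)
    rw [← Set.ncard_eq_toFinset_card', Set.ncard_diff_singleton_of_mem (h.left _ _ hx), h.card _ _ hx,
      Nat.add_sub_cancel], Finset.sum_const, ← Set.ncard_eq_toFinset_card', h.card _ _ ab] at this
  have l := Finset.card_le_card (show (L a b).toFinset.biUnion (fun x => (L c x \ {c}).toFinset) ⊆
    Finset.univ.erase c from fun x hx => by
      obtain ⟨y, -, hy⟩ := Finset.mem_biUnion.1 hx
      simp only [Set.mem_toFinset, Set.mem_diff, Set.mem_singleton_iff] at hy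
      simp [hy.2])
  rw [this, Finset.card_erase_of_mem (Finset.mem_univ _), Finset.card_univ, ← Nat.card_eq_fintype_card,
    hΩ, smul_eq_mul, Nat.add_sub_cancel] at l
  nlinarith

theorem no_lines2 [Finite Ω] {p : ℕ} {L M : Ω → Ω → Set Ω} (h : Lines G p L) (k : Lines G p M)
    (hp : 2 ≤ p) (hΩ : Nat.card Ω = p ^ 2 + 1) (h2 : IsMultiplyPretransitive G Ω 2) {a b : Ω}
    (ab : a ≠ b) (e : L a b = M b a) : False := by
  have e : ∀ x y, x ≠ y → L x y = M y x := fun x y xy => by
    obtain ⟨g, rfl, rfl⟩ := two_trans h2 ab xy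
    rw [h.eqv, k.eqv, e]
  obtain ⟨c, c1, c2⟩ : ∃ c ∈ L a b, c ∉ ({a, b} : Set Ω) := Set.exists_mem_notMem_of_ncard_lt_ncard
    (by rw [Set.ncard_pair ab, h.card _ _ ab]; omega)
  simp only [Set.mem_insert_iff, Set.mem_singleton_iff, not_or] at c2
  have e1 : M b c = L a b := by
    rw [e _ _ ab] at c1 ⊢; exact k.cons _ _ _ ab.symm (Ne.symm c2.2) c1
  have e2 : M c b = L a b := by
    rw [← h.cons _ _ _ ab (Ne.symm c2.1) c1, e _ _ (Ne.symm c2.1)]
    refine k.cons _ _ _ c2.1 c2.2 ?_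
    rw [← e _ _ (Ne.symm c2.1), h.cons _ _ _ ab (Ne.symm c2.1) c1]
    exact h.right _ _ ab
  refine k.not_symm hp hΩ fun x y xy => ?_
  obtain ⟨g, rfl, rfl⟩ := two_trans h2 c2.2 xy
  rw [k.eqv, k.eqv, e1, e2]

end

section
variable {K X Y W : Type*} [Group K] [MulAction K X] [MulAction K Y] [MulAction K W]
  [Fintype X] [Fintype Y] [Fintype W]

variable (K) in
/-- invariant matrices -/
def MInv (M : Matrix X Y ℤ) : Prop := ∀ (g : K) x y, M (g • x) (g • y) = M x y

theorem MInv.mul {M : Matrix X Y ℤ} {N : Matrix Y W ℤ} (h : MInv K M) (k : MInv K N) :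
    MInv K (M * N) := fun g x w => by
  rw [Matrix.mul_apply, Matrix.mul_apply, ← Equiv.sum_comp (toPerm g)]
  exact Finset.sum_congr rfl fun y _ => by rw [toPerm_apply, h, k]

theorem MInv.tr {M : Matrix X Y ℤ} (h : MInv K M) : MInv K Mᵀ := fun g x y => h g y x

theorem MInv.scalar [DecidableEq X] [Nontrivial X] (h2 : IsMultiplyPretransitive K X 2)
    {S : Matrix X X ℤ} (h : MInv K S) : ∃ u v : ℤ, (∀ x y, S x y = (if x = y then u else 0) + v) ∧
      ∀ w : X → ℤ, ∑ x, w x = 0 → w ᵥ* S = u • w := by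
  obtain ⟨a, b, ab⟩ := exists_pair_ne X
  have e : ∀ x y, S x y = (if x = y then S a a - S a b else 0) + S a b := fun x y => by
    split_ifs with e
    · obtain ⟨c, hc⟩ := exists_ne x
      obtain ⟨g, rfl, -⟩ := two_trans h2 ab hc.symm
      rw [← e, h]; ring
    · obtain ⟨g, rfl, rfl⟩ := two_trans h2 ab e
      rw [h]; ring
  generalize S a a - S a b = u at e
  generalize S a b = v at e
  refine ⟨_, _, e, fun w hw => funext fun y => ?_⟩
  simp only [vecMul, dotProduct, e, mul_add, Finset.sum_add_distrib, ← Finset.sum_mul, hw]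
  simp [mul_comm]

/-- similarity on vectors of sum zero -/
def Sim (M : Matrix X Y ℤ) (n : ℤ) : Prop := ∀ w : X → ℤ, ∑ x, w x = 0 →
  ∑ y, (w ᵥ* M) y = 0 ∧ (w ᵥ* M) ⬝ᵥ (w ᵥ* M) = n * (w ⬝ᵥ w)

theorem MInv.sim [Nontrivial X] (h2 : IsMultiplyPretransitive K X 2) {M : Matrix X Y ℤ}
    (h : MInv K M) (h01 : ∀ x y, M x y * M x y = M x y) {k : ℤ} (hr : ∀ x, ∑ y, M x y = k)
    (hc : ∀ y, ∑ x, M x y = k) :
    ∃ n l : ℤ, Sim M n ∧ n + l = k ∧ k ^ 2 = n + Fintype.card X * l := by
  classical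
  obtain ⟨n, l, e, s⟩ := (h.mul h.tr).scalar h2
  obtain ⟨a⟩ : Nonempty X := inferInstance
  refine ⟨n, l, fun w hw => ⟨?_, ?_⟩, ?_, ?_⟩
  · simp only [vecMul, dotProduct]
    rw [Finset.sum_comm]
    simp only [← Finset.mul_sum, hr, ← Finset.sum_mul, hw, zero_mul]
  · conv_lhs => rw [← mulVec_transpose M w]; enter [1]; rw [mulVec_transpose]
    rw [dotProduct_mulVec, vecMul_vecMul, s w hw, smul_dotProduct, smul_eq_mul]
  · have := e a a
    rw [if_pos rfl, Matrix.mul_apply] at this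
    simp only [transpose_apply, h01, hr] at this
    exact this.symm
  · have : ∑ y, (M * Mᵀ) a y = ∑ y, ((if a = y then n else 0) + l) :=
      Finset.sum_congr rfl fun y _ => e a y
    simp only [Matrix.mul_apply, transpose_apply] at this
    rw [Finset.sum_comm] at this
    simp only [← Finset.mul_sum, hc, ← Finset.sum_mul, hr, Finset.sum_add_distrib] at this
    simpa [pow_two] using this

theorem MInv.col [IsPretransitive K Y] (hXY : Fintype.card X = Fintype.card Y) {M : Matrix X Y ℤ}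
    (h : MInv K M) {k : ℤ} (hr : ∀ x, ∑ y, M x y = k) (y : Y) : ∑ x, M x y = k := by
  have e : ∀ z, ∑ x, M x z = ∑ x, M x y := fun z => by
    obtain ⟨g, rfl⟩ := exists_smul_eq K y z
    rw [← Equiv.sum_comp (toPerm g)]
    exact Finset.sum_congr rfl fun x _ => h g x y
  have := Finset.sum_comm (s := Finset.univ) (t := Finset.univ) (f := fun x y => M x y)
  simp only [hr, e, Finset.sum_const, Finset.card_univ, nsmul_eq_mul, hXY] at this
  have i : Nonempty Y := ⟨y⟩
  exact (mul_left_cancel₀ (by simp) this).symm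

theorem linked_arith {p m : ℕ} {s l3 : ℤ} (hp : p.Prime) (m0 : 0 < m) (mp : m < p) (t0 : 0 ≤ s)
    (e3 : s ^ 2 + l3 = m) (f3 : (m : ℤ) ^ 2 = s ^ 2 + p * l3) : m = 1 ∨ m + 1 = p := by
  have m1 : (0 : ℤ) < m := by exact_mod_cast m0
  have m2 : (m : ℤ) < p := by exact_mod_cast mp
  refine or_iff_not_imp_left.2 fun h1 => ?_
  have l0 : 0 < l3 := by
    have : (1 : ℤ) < m := by omega
    nlinarith
  have sm : s < m := by nlinarith
  rcases (Nat.prime_iff_prime_int.1 hp).dvd_or_dvd (show (p : ℤ) ∣ (m - s) * (m + s) from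
    ⟨l3, by linarith⟩) with d | ⟨c, d⟩
  · have := Int.le_of_dvd (by omega) d
    omega
  · obtain rfl : c = 1 := by
      have : 0 < c := by nlinarith
      have : c < 2 := by nlinarith
      omega
    have d : (p : ℤ) = m + s := by omega
    have e : l3 = m - s := mul_left_cancel₀ (show (p : ℤ) ≠ 0 by omega) (by rw [d] at f3 ⊢; linarith)
    have : s = 1 := mul_left_cancel₀ (show s ≠ 0 by omega) (by linarith)
    omega

/-- linked symmetric designs on a prime number of points -/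
theorem linked {p : ℕ} (hp : p.Prime) (hX : Fintype.card X = p) (hY : Fintype.card Y = p)
    (hW : Fintype.card W = p) (tX : IsMultiplyPretransitive K X 2)
    (tY : IsMultiplyPretransitive K Y 2) (tW : IsMultiplyPretransitive K W 2)
    {A : Matrix X Y ℤ} {B : Matrix Y W ℤ} {C : Matrix X W ℤ} (iA : MInv K A) (iB : MInv K B)
    (iC : MInv K C) (a1 : ∀ x y, A x y * A x y = A x y) (b1 : ∀ x y, B x y * B x y = B x y)
    (c1 : ∀ x y, C x y * C x y = C x y) {k m : ℕ} (rA : ∀ x, ∑ y, A x y = k)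
    (rB : ∀ x, ∑ y, B x y = k) (rC : ∀ x, ∑ y, C x y = m) (k0 : 0 < k) (kp : k < p) (m0 : 0 < m)
    (mp : m < p) : m = 1 ∨ m + 1 = p := by
  classical
  have := hp.one_lt
  have : Nontrivial X := Fintype.one_lt_card_iff_nontrivial.1 (by omega)
  have : Nontrivial Y := Fintype.one_lt_card_iff_nontrivial.1 (by omega)
  have : Nontrivial W := Fintype.one_lt_card_iff_nontrivial.1 (by omega)
  have := isPretransitive_of_is_two_pretransitive (G := K) (α := Y)
  have := isPretransitive_of_is_two_pretransitive (G := K) (α := W)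
  obtain ⟨n, l, s1, e1, f1⟩ := iA.sim tX a1 rA (iA.col (by omega) rA)
  obtain ⟨n', l', s2, e2, f2⟩ := iB.sim tY b1 rB (iB.col (by omega) rB)
  obtain ⟨n3, l3, s3, e3, f3⟩ := iC.tr.sim tW (fun x y => c1 y x) (iC.col (by omega) rC) rC
  rw [hX] at f1; rw [hY] at f2; rw [hW] at f3
  have p1 : (1 : ℤ) < p := by exact_mod_cast hp.one_lt
  obtain rfl : l = l' := mul_left_cancel₀ (show (p : ℤ) - 1 ≠ 0 by omega) (by linarith)
  obtain rfl : n = n' := by linarith
  have n0 : n ≠ 0 := by
    rintro rfl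
    have : (k : ℤ) = p := mul_left_cancel₀ (show (k : ℤ) ≠ 0 by omega) (by rw [← e1] at f1 ⊢; linarith)
    omega
  obtain ⟨u, v, -, s⟩ := ((iA.mul iB).mul iC.tr).scalar tX
  obtain ⟨a, b, ab⟩ := exists_pair_ne X
  let w : X → ℤ := Pi.single a 1 - Pi.single b 1
  have w0 : ∑ x, w x = 0 := by simp [w]
  have w2 : w ⬝ᵥ w = 2 := by simp [w, ab, ab.symm]
  have q1 := s1 w w0
  have q2 := s2 _ q1.1
  have q3 := (s3 _ q2.1).2
  rw [q2.2, q1.2, vecMul_vecMul, vecMul_vecMul, ← Matrix.mul_assoc, s w w0, smul_dotProduct,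
    dotProduct_smul, w2, smul_eq_mul, smul_eq_mul] at q3
  obtain ⟨t, rfl⟩ : n ∣ u := (Int.pow_dvd_pow_iff two_ne_zero).1 ⟨n3, by linarith⟩
  have ht : n3 = |t| ^ 2 := mul_left_cancel₀ (pow_ne_zero 2 n0) (by rw [sq_abs]; linarith)
  have t0 := abs_nonneg t
  generalize |t| = s at ht t0
  subst ht
  exact linked_arith hp m0 mp t0 e3 f3

end

theorem eq_one_of_central_commutator {C : Type*} [Group C] [Finite C] {p : ℕ} [Fact p.Prime]
    (P : Sylow p C) [IsMulCommutative (P : Subgroup C)] {z : C} (h1 : z ∈ (P : Subgroup C))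
    (h2 : z ∈ center C) (h3 : z ∈ commutator C) : z = 1 := by
  let _ : CommGroup (P : Subgroup C) := IsMulCommutative.instCommGroup
  have e := MonoidHom.transfer_eq_pow (MonoidHom.id (P : Subgroup C)) z fun k g _ => by
    rw [mul_assoc, ← mem_center_iff.1 (pow_mem h2 k), inv_mul_cancel_left]
  rw [(MonoidHom.mem_ker).1 (Abelianization.commutator_subset_ker _ h3)] at e
  obtain ⟨k, hk⟩ := P.isPGroup' ⟨z, h1⟩
  exact orderOf_eq_one_iff.1 (Nat.eq_one_of_dvd_coprimes
    (Nat.Coprime.pow_left k ((Nat.Prime.coprime_iff_not_dvd Fact.out).2 P.not_dvd_index))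
    (orderOf_dvd_of_pow_eq_one (congrArg Subtype.val hk))
    (orderOf_dvd_of_pow_eq_one (congrArg Subtype.val e).symm))

end Cfsg.Agent.H16
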