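import Mathlib
import Cfsg.Agent.H16.Atk1
import Cfsg.Agent.H16.Neu3
import Cfsg.Agent.H16.Zass
import Cfsg.Agent.H1.Chain

/-! Doubly transitive groups of degree `p ^ 2 + 1`: normal subgroups of the point stabiliser. -/

set_option autoImplicit false
set_option linter.unusedSectionVars false

namespace Cfsg.Agent.H16

open MulAction Subgroup Pointwise

variable {G Ω : Type*} [Group G] [MulAction G Ω]

/-- a conjugation-invariant family of subgroups with orbits of length `p` -/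
structure Fam (p : ℕ) (K : Ω → Subgroup G) : Prop where
  eqv : ∀ (g : G) x k, k ∈ K x → g * k * g⁻¹ ∈ K (g • x)
  le : ∀ x, K x ≤ stabilizer G x
  orb : ∀ x y, x ≠ y → (orbit (K x) y).ncard = p

theorem smul_orbit_fam {K : Ω → Subgroup G} (h : ∀ (g : G) x k, k ∈ K x → g * k * g⁻¹ ∈ K (g • x))
    (g : G) (x y : Ω) : orbit (K (g • x)) (g • y) = g • orbit (K x) y := by
  ext z
  refine ⟨?_, ?_⟩
  · rintro ⟨k, rfl⟩
    exact ⟨_, ⟨⟨g⁻¹ * k * g, by simpa using h g⁻¹ _ _ k.2⟩, rfl⟩, by simp [mul_smul, smul_def]⟩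
  · rintro ⟨_, ⟨k, rfl⟩, rfl⟩
    exact ⟨⟨_, h g _ _ k.2⟩, by simp [mul_smul, smul_def]⟩

theorem exists_fam {p : ℕ} (h2 : IsMultiplyPretransitive G Ω 2) {a b : Ω} (ab : a ≠ b) {N : Subgroup G}
    (h1 : N ≤ stabilizer G a) (hn : stabilizer G a ≤ normalizer (N : Set G))
    (ho : (orbit N b).ncard = p) : ∃ K : Ω → Subgroup G, Fam p K ∧ K a = N := by
  let K : Ω → Subgroup G := fun x => ⨅ h : {h : G // h • a = x}, N.comap (MulAut.conj h.1⁻¹).toMonoidHom
  have m : ∀ x k, k ∈ K x ↔ ∀ h : G, h • a = x → h⁻¹ * k * h ∈ N := fun x k => by simp [K, mem_iInf]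
  have e : ∀ (g : G) x k, k ∈ K x → g * k * g⁻¹ ∈ K (g • x) := fun g x k hk => (m _ _).2 fun h e => by
    simpa [mul_assoc] using (m _ _).1 hk (g⁻¹ * h) (by simp [mul_smul, e])
  have ea : K a = N := Subgroup.ext fun k => (m _ _).trans ⟨fun h => by simpa using h 1 (one_smul _ _),
    fun h g hg => by simpa using (mem_normalizer_iff.1 (hn (inv_mem hg)) k).1 h⟩
  refine ⟨K, ⟨e, fun x k hk => ?_, fun x y xy => ?_⟩, ea⟩
  · obtain ⟨y, hy⟩ : ∃ y, y ≠ x := (em (x = a)).elim (fun e => ⟨b, e ▸ ab.symm⟩) fun e => ⟨a, Ne.symm e⟩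
    obtain ⟨g, rfl, -⟩ := two_trans h2 ab hy.symm
    simpa [mul_smul, inv_smul_eq_iff] using h1 ((m _ _).1 hk g rfl)
  · obtain ⟨g, rfl, rfl⟩ := two_trans h2 ab xy
    rw [smul_orbit_fam e, Set.ncard_smul_set, ea, ho]

theorem notMem_orbit {M : Subgroup G} {a b : Ω} (h : M ≤ stabilizer G a) (ab : a ≠ b) :
    a ∉ orbit M b := fun ⟨g, e⟩ => ab (smul_left_cancel (g : G) ((h g.2).trans e.symm))

theorem Fam.norm [Finite G] {p : ℕ} {K : Ω → Subgroup G} (h : Fam p K) (a : Ω) :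
    stabilizer G a ≤ normalizer (K a : Set G) := fun g hg =>
  mem_normalizer_fintype fun k hk => by
    have := h.eqv g a k hk
    rwa [mem_stabilizer_iff.1 hg] at this

theorem Fam.lines [Finite Ω] {p : ℕ} {K : Ω → Subgroup G} (h : Fam p K) :
    Lines G p fun x y => insert x (orbit (K x) y) where
  eqv g a b := by rw [smul_orbit_fam h.eqv, Set.smul_set_insert]
  left a b _ := .inl rfl
  right a b _ := .inr (mem_orbit_self b)
  cons a b c _ ac hc := by rw [orbit_eq_iff.2 (hc.resolve_left ac.symm)]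
  card a b ab := by rw [Set.ncard_insert_of_notMem (notMem_orbit (h.le a) ab), h.orb _ _ ab]

variable (G Ω) in
/-- doubly transitive of degree `p ^ 2 + 1` -/
structure At (p : ℕ) : Prop where
  two : IsMultiplyPretransitive G Ω 2
  card : Nat.card Ω = p ^ 2 + 1

variable [Finite G] [Finite Ω] [FaithfulSMul G Ω] {p : ℕ} [hp : Fact p.Prime] {K : Ω → Subgroup G}
  {a b : Ω}

namespace At
variable (H : At G Ω p)
include H

theorem orbit_stab (ab : a ≠ b) : orbit (stabilizer G a) b = {a}ᶜ :=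
  Set.ext fun y => ⟨fun h e => notMem_orbit le_rfl ab (e ▸ h), fun h =>
    let ⟨g, g1, g2⟩ := two_trans H.two ab (Ne.symm h); ⟨⟨g, g1⟩, g2⟩⟩

theorem relIndex_stab (ab : a ≠ b) : (stabilizer G b).relIndex (stabilizer G a) = p ^ 2 := by
  rw [← ncard_orbit_subgroup, H.orbit_stab ab, Set.ncard_compl, H.card, Set.ncard_singleton]; rfl

theorem orbit_dvd (ab : a ≠ b) {M : Subgroup G} (h1 : St2 G a b ≤ M) (h2 : M ≤ stabilizer G a) :
    (orbit M b).ncard ∣ p ^ 2 := by
  rw [ncard_orbit_subgroup, ← H.relIndex_stab ab, ← inf_relIndex_left (stabilizer G a),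
    ← relIndex_mul_relIndex _ _ _ h1 h2, ← inf_relIndex_left M,
    show M ⊓ stabilizer G b = St2 G a b from le_antisymm (inf_le_inf_right _ h2) (le_inf h1 inf_le_right)]
  exact dvd_mul_right _ _

theorem orbit_dvd' (ab : a ≠ b) {M : Subgroup G} (h2 : M ≤ stabilizer G a)
    (h1 : stabilizer G a ≤ normalizer (M : Set G)) : (orbit M b).ncard ∣ p ^ 2 := by
  rw [ncard_orbit_subgroup, ← H.relIndex_stab ab]
  exact H1.relIndex_dvd_relIndex_of_le_normalizer _ h2 h1

theorem mem_orbit_of (ab : a ≠ b) {M : Subgroup G} (h2 : M ≤ stabilizer G a)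
    (h : (orbit M b).ncard = p ^ 2) {y : Ω} (hy : a ≠ y) : y ∈ orbit M b := by
  rw [Set.eq_of_subset_of_ncard_le (s := orbit M b) (t := {a}ᶜ)
    (fun y h e => notMem_orbit h2 ab (e ▸ h)) (by
      rw [h, Set.ncard_compl, H.card, Set.ncard_singleton]; rfl)]
  exact hy.symm

theorem eq_bot_of_fix (ab : a ≠ b) {T M : Subgroup G} (h2 : M ≤ stabilizer G a)
    (h : (orbit M b).ncard = p ^ 2) (hT : T ≤ St2 G a b) (hn : M ≤ normalizer (T : Set G)) : T = ⊥ :=
  eq_bot_iff.2 fun t ht => eq_one_of_smul_eq (α := Ω) fun y => by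
    rcases eq_or_ne a y with rfl | hy
    · exact (hT ht).1
    obtain ⟨m, rfl⟩ := H.mem_orbit_of ab h2 h hy
    simpa [mul_smul, inv_smul_eq_iff, smul_def] using
      (hT ((mem_normalizer_iff.1 (hn (inv_mem m.2)) t).1 ht)).2

theorem faith (h : Fam p K) (ab : a ≠ b) : K a ⊓ fixingSubgroup G (orbit (K a) b) = ⊥ := by
  have p2 := hp.out.two_le
  obtain ⟨c, c1, c2⟩ : ∃ c ∈ insert b (orbit (K b) a), c ∉ insert a (orbit (K a) b) :=
    Set.not_subset.1 fun s => no_lines2 h.lines h.lines p2 H.card H.two ab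
      (Set.eq_of_subset_of_ncard_le s (by rw [h.lines.card _ _ ab, h.lines.card _ _ ab.symm])).symm
  rw [Set.mem_insert_iff, not_or] at c2
  have c1 := c1.resolve_left fun e => c2.2 (e ▸ mem_orbit_self _)
  let T := fun y : Ω => K a ⊓ fixingSubgroup G (orbit (K a) y)
  have cT : ∀ g : G, g • a = a → ∀ y, ∀ k ∈ T y, g * k * g⁻¹ ∈ T (g • y) := fun g hg y k hk =>
    ⟨(mem_normalizer_iff.1 (h.norm a hg) k).1 hk.1, (mem_fixingSubgroup_iff G).2 fun z hz => by
      rw [← hg, smul_orbit_fam h.eqv, Set.mem_smul_set_iff_inv_smul_mem] at hz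
      rw [mul_smul, mul_smul, (mem_fixingSubgroup_iff G).1 hk.2 _ hz, smul_inv_smul]⟩
  have nT : ∀ y, K a ≤ normalizer (T y : Set G) := fun y g hg => mem_normalizer_fintype fun k hk => by
    have := cT g (h.le a hg) y k hk
    simp only [T] at this
    rwa [orbit_eq_iff.2 (show g • y ∈ _ from mem_orbit y (⟨g, hg⟩ : K a))] at this
  have l : T c ≤ stabilizer G b := by
    by_contra l
    have d := H1.relIndex_dvd_relIndex_of_le_normalizer (stabilizer G b) inf_le_left (nT c)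
    rw [← ncard_orbit_subgroup (K a), h.orb _ _ ab, Nat.dvd_prime hp.out, relIndex_eq_one,
      or_iff_right l, ← ncard_orbit_subgroup] at d
    have e : orbit (T c) b = orbit (K a) b := Set.eq_of_subset_of_ncard_le
      (fun _ ⟨g, e⟩ => ⟨⟨g, g.2.1⟩, e⟩) (by rw [d, h.orb _ _ ab])
    have := Set.ncard_le_ncard (s := orbit (K a) c) (t := orbit (K b) a \ {a}) fun z hz => by
      refine ⟨?_, fun e => notMem_orbit (h.le a) (Ne.symm c2.1) (e ▸ hz)⟩
      obtain ⟨k, rfl⟩ := hz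
      obtain ⟨t, ht⟩ := e ▸ mem_orbit b k
      have m : (t : G)⁻¹ * k ∈ K a := mul_mem (inv_mem t.2.1) k.2
      have := Set.smul_mem_smul_set (a := (t : G)⁻¹ * k) c1
      rw [← smul_orbit_fam h.eqv, h.le a m, show ((t : G)⁻¹ * k) • b = b from by
        rw [mul_smul, inv_smul_eq_iff]; exact ht.symm, mul_smul,
        (mem_fixingSubgroup_iff G).1 (inv_mem t.2).2 ((k : G) • c) (mem_orbit c k)] at this
      exact this
    rw [h.orb _ _ (Ne.symm c2.1), Set.ncard_diff_singleton_of_mem (mem_orbit_self a),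
      h.orb _ _ ab.symm] at this
    omega
  have l2 : T c ≤ T b := fun t ht => ⟨ht.1, (mem_fixingSubgroup_iff G).2 (by
    rintro _ ⟨k, rfl⟩
    simpa [mul_smul, inv_smul_eq_iff, smul_def] using
      l ((mem_normalizer_iff.1 (nT c (inv_mem k.2)) t).1 ht))⟩
  obtain ⟨g, g1, g2⟩ := two_trans H.two ab (Ne.symm c2.1)
  refine H.eq_bot_of_fix ab (M := stabilizer G a ⊓ normalizer (T b : Set G)) inf_le_left ?_
    (fun t ht => ⟨h.le a ht.1, (mem_fixingSubgroup_iff G).1 ht.2 b (mem_orbit_self b)⟩) inf_le_right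
  obtain ⟨j, hj, e⟩ := (Nat.dvd_prime_pow hp.out).1 (H.orbit_dvd ab
    (M := stabilizer G a ⊓ normalizer (T b : Set G)) (fun g hg => ⟨hg.1, mem_normalizer_fintype
      fun k hk => by
        have := cT g hg.1 b k hk
        rwa [mem_stabilizer_iff.1 hg.2] at this⟩) inf_le_left)
  have := Set.ncard_le_ncard (s := insert c (orbit (K a) b))
    (t := orbit ↥(stabilizer G a ⊓ normalizer (T b : Set G)) b) (by
      rintro _ (rfl | ⟨k, rfl⟩)
      · exact ⟨⟨g, g1, mem_normalizer_fintype fun k hk => l2 (g2 ▸ cT g g1 b k hk)⟩, g2⟩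
      · exact ⟨⟨k, h.le a k.2, nT b k.2⟩, rfl⟩)
  rw [Set.ncard_insert_of_notMem c2.2, h.orb _ _ ab] at this
  interval_cases j
  · rw [e, pow_zero] at this; omega
  · rw [e, pow_one] at this; omega
  · exact e

theorem faithful (h : Fam p K) (ab : a ≠ b) : FaithfulSMul (K a) (orbit (K a) b) :=
  ⟨fun {g k} e => inv_mul_eq_one.1 (Subtype.ext (mem_bot.1 (H.faith h ab ▸ ⟨(g⁻¹ * k).2,
    (mem_fixingSubgroup_iff G).2 fun y hy => by
      rw [Subgroup.coe_mul, mul_smul, InvMemClass.coe_inv, inv_smul_eq_iff]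
      exact (congrArg Subtype.val (e ⟨y, hy⟩)).symm⟩)))⟩

end At

end Cfsg.Agent.H16
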