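import Mathlib
import Cfsg.Agent.H16.Atk2

/-! Doubly transitive groups of degree `p ^ 2 + 1`: the insoluble case. -/

set_option autoImplicit false
set_option linter.unusedSectionVars false

namespace Cfsg.Agent.H16

open MulAction Subgroup Pointwise

variable {G Ω : Type*} [Group G] [MulAction G Ω]

theorem orbit_conj {S T : Subgroup G} (g : G) (h1 : ∀ k ∈ S, g * k * g⁻¹ ∈ T)
    (h2 : ∀ k ∈ T, g⁻¹ * k * g ∈ S) (y : Ω) : orbit T (g • y) = g • orbit S y := by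
  ext z
  refine ⟨?_, ?_⟩
  · rintro ⟨k, rfl⟩
    exact ⟨_, ⟨⟨g⁻¹ * k * g, h2 _ k.2⟩, rfl⟩, by simp [mul_smul, smul_def]⟩
  · rintro ⟨_, ⟨k, rfl⟩, rfl⟩
    exact ⟨⟨_, h1 _ k.2⟩, by simp [mul_smul, smul_def]⟩

open Classical in
/-- the incidence matrix of an orbit on pairs -/
noncomputable def pairM (N : Subgroup G) (y z : Ω) : Matrix (orbit N y) (orbit N z) ℤ :=
  fun u v => if ∃ k ∈ N, k • y = u ∧ k • z = v then 1 else 0

open Classical in
theorem pairM_inv (N : Subgroup G) (y z : Ω) [Fintype (orbit N y)] [Fintype (orbit N z)] :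
    MInv N (pairM N y z) := fun g u v =>
  if_congr ⟨fun ⟨k, h, a, b⟩ => ⟨g⁻¹ * k, mul_mem (inv_mem g.2) h, by
      rw [mul_smul, a]; exact inv_smul_smul (g : G) _, by rw [mul_smul, b]; exact inv_smul_smul (g : G) _⟩,
    fun ⟨k, h, a, b⟩ => ⟨g * k, mul_mem g.2 h, by rw [mul_smul, a]; rfl, by rw [mul_smul, b]; rfl⟩⟩ rfl rfl

theorem pairM_sq (N : Subgroup G) (y z : Ω) (u v) : pairM N y z u v * pairM N y z u v = pairM N y z u v := by
  unfold pairM; split_ifs <;> rfl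

theorem pairM_row (N : Subgroup G) (y z : Ω) [Fintype (orbit N z)] (u) :
    ∑ v, pairM N y z u v = (orbit ↥(N ⊓ stabilizer G y) z).ncard := by
  obtain ⟨_, g, rfl⟩ := u
  simp only [pairM, Finset.sum_boole]
  rw [← Set.ncard_smul_set (g : G), ← Set.ncard_coe_finset,
    ← Set.ncard_image_of_injective _ Subtype.val_injective]
  congr 2
  ext w
  simp only [Finset.coe_filter, Finset.mem_univ, true_and, Set.mem_image, Set.mem_setOf_eq,
    Subtype.exists, exists_and_right, exists_eq_right, exists_prop]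
  refine ⟨fun ⟨_, k, h, a, b⟩ => ⟨_, ⟨⟨g⁻¹ * k, mul_mem (N.inv_mem g.2) h,
    mem_stabilizer_iff.2 (by rw [mul_smul, a]; exact inv_smul_smul (g : G) _)⟩, rfl⟩, by
      simp [mul_smul, smul_def, b]⟩, ?_⟩
  rintro ⟨_, ⟨k, rfl⟩, rfl⟩
  exact ⟨⟨⟨g * k, mul_mem g.2 k.2.1⟩, mul_smul _ _ _⟩, g * k, mul_mem g.2 k.2.1, by
    rw [mul_smul, k.2.2]; rfl, mul_smul _ _ _⟩

variable [Finite G] [Finite Ω] [FaithfulSMul G Ω] {p : ℕ} [hp : Fact p.Prime] {K : Ω → Subgroup G}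
  {a b : Ω}

theorem Fam.stab_eq (h : Fam p K) {c : Ω} (ab : a ≠ b) (ac : a ≠ c)
    (l : K a ⊓ stabilizer G b ≤ stabilizer G c) : K a ⊓ stabilizer G b = K a ⊓ stabilizer G c := by
  have e : ∀ y, a ≠ y → Nat.card ↥(K a ⊓ stabilizer G y) * p = Nat.card (K a) := fun y ay => by
    rw [← h.orb _ _ ay, ncard_orbit_subgroup, ← inf_relIndex_left, H4.card_mul_relIndex inf_le_left]
  exact eq_of_le_of_card_ge (le_inf inf_le_left l)
    (Nat.eq_of_mul_eq_mul_right hp.out.pos ((e c ac).trans (e b ab).symm)).le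

namespace At
variable (H : At G Ω p)
include H

theorem fix_dvd (ab : a ≠ b) {V : Subgroup G} (h1 : V ≤ St2 G a b)
    (h : ∀ g : G, g • a = a → (∀ v ∈ V, v • g • b = g • b) → g ∈ normalizer (V : Set G)) :
    {z | z ≠ a ∧ ∀ v ∈ V, v • z = z}.ncard ∣ p ^ 2 := by
  convert H.orbit_dvd ab (M := stabilizer G a ⊓ normalizer (V : Set G))
    (fun g hg => ⟨hg.1, h g hg.1 fun v hv => by rw [hg.2, (h1 hv).2]⟩) inf_le_left
  ext z
  refine ⟨fun hz => ?_, fun hz => ⟨fun e => notMem_orbit inf_le_left ab (e ▸ hz), ?_⟩⟩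
  · obtain ⟨g, g1, rfl⟩ := two_trans H.two ab (Ne.symm hz.1)
    exact ⟨⟨g, g1, h g g1 hz.2⟩, rfl⟩
  · obtain ⟨m, rfl⟩ := hz
    intro v hv
    simpa [mul_smul, inv_smul_eq_iff, smul_def] using
      (h1 ((mem_normalizer_iff.1 (inv_mem m.2).2 v).1 hv)).2

theorem sylow_orbit (ab : a ≠ b) (P : Sylow p (stabilizer G a)) {c : Ω} (ac : a ≠ c) :
    ∃ u ∈ (P : Subgroup (stabilizer G a)), (u : G) • b = c := by
  have := H.two
  have := isPretransitive_of_is_two_pretransitive (G := G) (α := Ω)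
  have := is_one_pretransitive_iff.1 ((SubMulAction.ofStabilizer.isMultiplyPretransitive (a := a)).1 H.two)
  have := sylow_trans (α := SubMulAction.ofStabilizer G a) (k := 2) (by rw [card_ofStabilizer, H.card]; rfl) P
  obtain ⟨u, hu⟩ := exists_smul_eq P (⟨b, ab.symm⟩ : SubMulAction.ofStabilizer G a) ⟨c, ac.symm⟩
  exact ⟨u, u.2, congrArg Subtype.val hu⟩

theorem exists_sq (h3 : 3 ≤ p) (ab : a ≠ b) {c : Ω} (ac : a ≠ c) :
    ∃ g : G, g • a = a ∧ g • g • b = c := by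
  obtain ⟨P⟩ : Nonempty (Sylow p (stabilizer G a)) := inferInstance
  obtain ⟨u, hu, rfl⟩ := H.sylow_orbit ab P ac
  obtain ⟨k, hk⟩ := P.isPGroup' ⟨u, hu⟩
  obtain ⟨m, hm⟩ := (hp.out.odd_of_ne_two (by omega)).pow (n := k)
  have hk : u ^ p ^ k = 1 := congrArg Subtype.val hk
  refine ⟨(u ^ (m + 1) : stabilizer G a), (u ^ (m + 1)).2, ?_⟩
  rw [← mul_smul, ← Subgroup.coe_mul, ← pow_add, show m + 1 + (m + 1) = p ^ k + 1 by omega, pow_succ, hk,
    one_mul]

theorem two_of_insol (h : Fam p K) (hs : ¬ Group.IsSolvable (K a)) (ab : a ≠ b) :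
    IsMultiplyPretransitive (K a) (orbit (K a) b) 2 :=
  have := H.faithful h ab
  burnside_abs (h.orb _ _ ab) hs

theorem move (h : Fam p K) (hs : ¬ Group.IsSolvable (K a)) (ab : a ≠ b) {c d : Ω}
    (hc : c ∈ orbit (K a) b) (hd : d ∈ orbit (K a) b) (cb : c ≠ b) (db : d ≠ b) :
    ∃ u ∈ K a ⊓ stabilizer G b, u • c = d := by
  obtain ⟨g, g1, g2⟩ := two_trans (H.two_of_insol h hs ab) (a := ⟨b, mem_orbit_self b⟩) (b := ⟨c, hc⟩)
    (c := ⟨b, mem_orbit_self b⟩) (d := ⟨d, hd⟩) (fun e => cb (congrArg Subtype.val e).symm)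
    fun e => db (congrArg Subtype.val e).symm
  exact ⟨g, ⟨g.2, congrArg Subtype.val g1⟩, congrArg Subtype.val g2⟩

theorem exists_fix (h : Fam p K) (h3 : 3 ≤ p) (hs : ¬ Group.IsSolvable (K a)) (ab : a ≠ b) {w : Ω}
    (aw : a ≠ w) : ∃ z ∈ orbit (K a) w, ∀ u ∈ K a ⊓ stabilizer G b, u • z = z := by
  obtain ⟨g, g1, rfl⟩ := H.exists_sq h3 ab aw
  have ag : a ≠ g • b := fun e => ab (smul_left_cancel g (g1.trans e))
  have sub : ∀ y z : Ω, orbit ↥(K a ⊓ stabilizer G y) z ⊆ orbit (K a) z :=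
    fun y z _ ⟨k, e⟩ => ⟨⟨k, k.2.1⟩, e⟩
  have pos : ∀ y z : Ω, 0 < (orbit ↥(K a ⊓ stabilizer G y) z).ncard := fun y z =>
    (Set.ncard_pos (Set.toFinite _)).2 ⟨z, mem_orbit_self z⟩
  have lt : ∀ z : Ω, a ≠ z → (orbit ↥(K a ⊓ stabilizer G b) z).ncard < p := fun z az => by
    refine ((Set.ncard_le_ncard (sub b z)).trans (h.orb _ _ az).le).lt_of_ne fun e => ?_
    have := H.faithful h ab
    refine not_sq_dvd_card (G := K a) (h.orb _ _ ab) ?_
    rw [← H4.card_mul_relIndex (inf_le_left : K a ⊓ stabilizer G b ≤ _), inf_relIndex_left,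
      ← ncard_orbit_subgroup, h.orb _ _ ab, pow_two]
    exact Nat.mul_dvd_mul_right (e ▸ ncard_orbit_dvd z) _
  have f : ∀ y : Ω, Fintype (orbit (K a) y) := fun _ => Fintype.ofFinite _
  have c : ∀ y, a ≠ y → Fintype.card (orbit (K a) y) = p := fun y ay => by
    rw [← Nat.card_eq_fintype_card]; exact h.orb _ _ ay
  have n := mem_normalizer_iff.1 (h.norm a g1)
  rcases linked hp.out (c _ ab) (c _ ag) (c _ aw) (H.two_of_insol h hs ab) (H.two_of_insol h hs ag)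
    (H.two_of_insol h hs aw) (pairM_inv _ _ _) (pairM_inv _ _ _) (pairM_inv _ _ _) (pairM_sq _ _ _)
    (pairM_sq _ _ _) (pairM_sq _ _ _) (pairM_row _ _ _) (fun u => by
      rw [pairM_row, orbit_conj (S := K a ⊓ stabilizer G b) (T := K a ⊓ stabilizer G (g • b)) g
        (fun k hk => ⟨(n k).1 hk.1, mem_stabilizer_conj.2 hk.2⟩)
        fun k hk => ⟨(n _).2 (by simpa [mul_assoc] using hk.1), by
          simpa [mul_smul, inv_smul_eq_iff] using hk.2⟩, Set.ncard_smul_set])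
    (pairM_row _ _ _) (pos _ _) (lt _ ag) (pos _ _) (lt _ aw) with e | e
  · obtain ⟨x, hx⟩ := Set.ncard_eq_one.1 e
    exact ⟨_, mem_orbit_self _, fun u hu => (hx ▸ mem_orbit _ (⟨u, hu⟩ : ↥(K a ⊓ stabilizer G b)) :
      _ ∈ ({x} : Set Ω)).trans (hx ▸ mem_orbit_self _ : _ ∈ ({x} : Set Ω)).symm⟩
  · obtain ⟨x, hx⟩ := Set.ncard_eq_one.1 (show (orbit (K a) (g • g • b) \
      orbit ↥(K a ⊓ stabilizer G b) (g • g • b)).ncard = 1 by
        rw [Set.ncard_diff (sub _ _), h.orb _ _ aw]; omega)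
    have x1 := hx.ge rfl
    exact ⟨x, x1.1, fun u hu => hx.le ⟨mem_orbit_of_mem_orbit (⟨u, hu.1⟩ : K a) x1.1, fun m => x1.2 (by
      simpa [smul_def] using mem_orbit_of_mem_orbit (⟨u, hu⟩ : ↥(K a ⊓ stabilizer G b))⁻¹ m)⟩⟩

theorem sol (h : Fam p K) (h3 : 3 ≤ p) (a : Ω) : Group.IsSolvable (K a) := by
  by_contra hs
  have : Nontrivial Ω := Finite.one_lt_card_iff_nontrivial.1 (by rw [H.card]; nlinarith)
  obtain ⟨b, ab⟩ := exists_ne a
  have ab := ab.symm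
  let L : Ω → Ω → Set Ω := fun x y => {z | ∀ v ∈ K x ⊓ stabilizer G y, v • z = z}
  have e : ∀ (g : G) x y z, z ∈ L x y → g • z ∈ L (g • x) (g • y) := fun g x y z hz v hv => by
    simpa [mul_smul, inv_smul_eq_iff] using hz (g⁻¹ * v * g)
      ⟨by simpa using h.eqv g⁻¹ _ _ hv.1, by simpa [mul_smul, inv_smul_eq_iff] using hv.2⟩
  have eq : ∀ (g : G) x y, L (g • x) (g • y) = g • L x y := fun g x y => Set.ext fun z =>
    ⟨fun hz => ⟨_, by simpa using e g⁻¹ _ _ _ hz, smul_inv_smul _ _⟩, by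
      rintro ⟨z, hz, rfl⟩; exact e g x y z hz⟩
  have uq : ∀ z ∈ L a b, a ≠ z → ∀ y ∈ orbit (K a) z, y ≠ z → y ∉ L a b := fun z hz az y hy yz m => by
    obtain ⟨d, d1, d2⟩ := Set.exists_mem_notMem_of_ncard_lt_ncard (s := {y, z}) (t := orbit (K a) z)
      (by rw [Set.ncard_pair yz, h.orb _ _ az]; omega)
    simp only [Set.mem_insert_iff, Set.mem_singleton_iff, not_or] at d2
    obtain ⟨u, hu, e⟩ := H.move h hs az hy d1 yz d2.2
    exact d2.1 (e.symm.trans (m u (h.stab_eq ab az hz ▸ hu)))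
  have big : ∃ c, a ≠ c ∧ c ∉ orbit (K a) b := by
    obtain ⟨c, -, hc⟩ := Set.exists_mem_notMem_of_ncard_lt_ncard (s := insert a (orbit (K a) b))
      (t := Set.univ) (by rw [h.lines.card _ _ ab, Set.ncard_univ, H.card]; nlinarith)
    exact ⟨c, fun e => hc (.inl e.symm), fun m => hc (.inr m)⟩
  have sz : ∀ S : Set Ω, S.ncard ∣ p ^ 2 → S ⊆ L a b \ {a} → b ∈ S → (∃ z ∈ S, z ≠ b) → S.ncard = p := by
    rintro S d s1 s2 ⟨z, s3, zb⟩
    obtain ⟨j, hj, e⟩ := (Nat.dvd_prime_pow hp.out).1 d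
    interval_cases j
    · have := Set.ncard_le_ncard (show {z, b} ⊆ S by rintro _ (rfl | rfl) <;> assumption)
      rw [Set.ncard_pair zb, e] at this
      simp at this
    · simpa using e
    · obtain ⟨y, y1, y2⟩ := Set.exists_ne_of_one_lt_ncard (s := orbit (K a) b)
        (by rw [h.orb _ _ ab]; omega) b
      have := Set.eq_of_subset_of_ncard_le (s := S) (t := {a}ᶜ) (fun x hx => (s1 hx).2) (by
        rw [e, Set.ncard_compl, H.card, Set.ncard_singleton]; rfl)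
      exact absurd (s1 (this.ge fun (e : y = a) => notMem_orbit (h.le a) ab (by rwa [e] at y1))).1
        (uq b (fun v hv => hv.2) ab y y1 y2)
  have c0 : (L a b \ {a}).ncard = p := by
    refine sz _ ?_ le_rfl ⟨fun v hv => hv.2, ab.symm⟩ ?_
    · convert H.fix_dvd ab (V := K a ⊓ stabilizer G b) (inf_le_inf_right _ (h.le a))
        fun g g1 g2 => mem_normalizer_fintype fun k hk => ?_ using 2
      · exact Set.ext fun _ => and_comm
      · rw [SetLike.mem_coe, h.stab_eq ab (fun e => ab (smul_left_cancel g (g1.trans e))) g2]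
        exact ⟨(mem_normalizer_iff.1 (h.norm a g1) k).1 hk.1, mem_stabilizer_conj.2 hk.2⟩
    · obtain ⟨c, ac, hc⟩ := big
      obtain ⟨z, z1, z2⟩ := H.exists_fix h h3 hs ab ac
      exact ⟨z, ⟨z2, fun e => notMem_orbit (h.le a) ac (e ▸ z1)⟩, fun e => hc (mem_orbit_symm.1 (e ▸ z1))⟩
  have hL : Lines G p L := ⟨eq, fun x y _ v hv => h.le x hv.1, fun x y _ v hv => hv.2,
    fun x y z xy xz hz => by simp only [L, h.stab_eq xy xz hz], fun x y xy => by
      obtain ⟨g, rfl, rfl⟩ := two_trans H.two ab xy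
      rw [eq, Set.ncard_smul_set, ← c0, Set.ncard_diff_singleton_add_one
        (show a ∈ L a b from fun v hv => h.le a hv.1)]⟩
  have iv : ∀ g ∈ St2 G a b, ∀ z ∈ L b a, g • z ∈ L b a := fun g hg z hz => by
    have := e g _ _ _ hz
    rwa [hg.1, hg.2] at this
  obtain ⟨c, c1, c2⟩ : ∃ c ∈ L b a, c ∉ L a b :=
    Set.not_subset.1 fun s => no_lines2 hL hL (by omega) H.card H.two ab
      (Set.eq_of_subset_of_ncard_le s (by rw [hL.card _ _ ab, hL.card _ _ ab.symm])).symm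
  have ac : a ≠ c := fun e => c2 (e ▸ hL.left _ _ ab)
  obtain ⟨w, w1, w2⟩ := H.exists_fix h h3 hs ab ac
  have aw : a ≠ w := fun e => notMem_orbit (h.le a) ac (e ▸ w1)
  have cw : c ≠ w := fun e => c2 (e ▸ w2)
  have e1 : orbit (K a) w \ {w} = L b a \ {a, b} := Set.eq_of_subset_of_ncard_le (fun d hd => by
    obtain ⟨u, hu, rfl⟩ := H.move h hs aw (mem_orbit_symm.1 w1) hd.1 cw hd.2
    rw [← h.stab_eq ab aw w2] at hu
    refine ⟨iv u ⟨h.le a hu.1, hu.2⟩ c c1, ?_⟩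
    rintro (e | e)
    · exact notMem_orbit (h.le a) aw (e ▸ hd.1)
    · exact uq w w2 aw _ hd.1 hd.2 (by rw [show u • c = b from e]; exact hL.right _ _ ab)) (by
      rw [Set.ncard_diff_singleton_of_mem (mem_orbit_self w), h.orb _ _ aw, Set.ncard_diff (by
        rintro _ (rfl | rfl)
        exacts [hL.right _ _ ab.symm, hL.left _ _ ab.symm]), hL.card _ _ ab.symm, Set.ncard_pair ab]
      omega)
  rcases eq_or_ne w b with rfl | wb
  · refine no_lines2 h.lines hL (by omega) H.card H.two ab (Set.eq_of_subset_of_ncard_le ?_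
      (by rw [hL.card _ _ ab.symm, h.lines.card _ _ ab]))
    rintro d (rfl | hd)
    · exact hL.right _ _ ab.symm
    · exact (em (d = w)).elim (fun e => by rw [e]; exact hL.left _ _ ab.symm) fun e => (e1.le ⟨hd, e⟩).1
  have fw : St2 G a b ≤ stabilizer G w := fun g hg => by_contra fun n => by
    have m1 := e g _ _ _ w2
    rw [hg.1, hg.2] at m1
    have c3 := e1.le ⟨mem_orbit_symm.1 w1, cw⟩
    have m2 := (e1.ge ⟨iv g hg c c1, by
      rintro (e | e)
      · exact c3.2 (.inl (smul_left_cancel g (e.trans hg.1.symm)))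
      · exact c3.2 (.inr (smul_left_cancel g (e.trans hg.2.symm)))⟩).1
    have m3 := Set.smul_mem_smul_set (a := g) w1
    rw [← smul_orbit_fam h.eqv, hg.1, orbit_eq_iff.2 m2] at m3
    exact uq w w2 aw _ m3 n m1
  have s1 : {z | z ≠ a ∧ ∀ v ∈ St2 G a b, v • z = z} ⊆ L a b \ {a} := fun z hz =>
    ⟨fun v hv => hz.2 v ⟨h.le a hv.1, hv.2⟩, hz.1⟩
  have e2 := Set.eq_of_subset_of_ncard_le s1 (by
    rw [c0, sz _ (H.fix_dvd ab le_rfl fun g g1 g2 => ?_) s1 ⟨ab.symm, fun v hv => hv.2⟩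
      ⟨w, ⟨aw.symm, fw⟩, wb⟩]
    refine inv_mem_iff.1 (mem_normalizer_fintype fun k hk => ⟨?_, ?_⟩)
    · simpa [mul_smul, g1, inv_smul_eq_iff] using hk.1
    · simpa [mul_smul, inv_smul_eq_iff] using g2 k hk)
  refine no_lines2 hL hL (by omega) H.card H.two ab (Set.eq_of_subset_of_ncard_le (fun d hd => ?_)
    (by rw [hL.card _ _ ab, hL.card _ _ ab.symm]))
  exact (em (d = a)).elim (fun e => by rw [e]; exact hL.right _ _ ab.symm) fun n v hv =>
    (e2.ge ⟨hd, n⟩).2 v ⟨hv.2, h.le b hv.1⟩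

end At

end Cfsg.Agent.H16
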