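import Mathlib
import Cfsg.Agent.H16.Atk3
import Cfsg.Agent.H16.ZClass

/-! Doubly transitive groups of degree `p ^ 2 + 1`: the soluble case. -/

set_option autoImplicit false
set_option linter.unusedSectionVars false

namespace Cfsg.Agent.H16

open MulAction Subgroup Pointwise

variable {G Ω : Type*} [Group G] [MulAction G Ω]
variable [Finite G] [Finite Ω] [FaithfulSMul G Ω] {p : ℕ} [hp : Fact p.Prime] {K : Ω → Subgroup G}
  {a b : Ω}

theorem le_or_inf_bot {A : Subgroup G} (h : Nat.card A = p) (E : Subgroup G) : A ≤ E ∨ A ⊓ E = ⊥ := by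
  rcases (Nat.dvd_prime hp.out).1 (h ▸ card_dvd_of_le (inf_le_left : A ⊓ E ≤ A)) with e | e
  · exact .inr (card_eq_one.1 e)
  · exact .inl (inf_eq_left.1 (eq_of_le_of_card_ge inf_le_left (h.trans e.symm).le))

theorem sup_eq_of_sq {A E P : Subgroup G} (hA : Nat.card A = p) (hE : Nat.card E = p)
    (hP : Nat.card P = p ^ 2) (h1 : A ≤ P) (h2 : E ≤ P) (h : A ≠ E) : A ⊔ E = P := by
  obtain ⟨j, hj, e⟩ := (Nat.dvd_prime_pow hp.out).1 (hP ▸ card_dvd_of_le (sup_le h1 h2))
  have := card_le_of_le (le_sup_left : A ≤ A ⊔ E)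
  have := hp.out.one_lt
  interval_cases j
  · rw [pow_zero] at e; omega
  · exact absurd ((eq_of_le_of_card_ge le_sup_left (by rw [e, hA, pow_one])).trans
      (eq_of_le_of_card_ge le_sup_right (by rw [e, hE, pow_one])).symm) h
  · exact eq_of_le_of_card_ge (sup_le h1 h2) (by rw [e, hP])

theorem mem_sylow_of_normal (Q : Sylow p G) (hQ : (Q : Subgroup G).Normal) {x : G} {k : ℕ}
    (hx : x ^ p ^ k = 1) : x ∈ (Q : Subgroup G) := by
  obtain ⟨R, hR⟩ := (show IsPGroup p (zpowers x) from IsPGroup.of_card_dvd_pow (n := k)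
    (by rw [Nat.card_zpowers]; exact orderOf_dvd_of_pow_eq_one hx)).exists_le_sylow
  have := Sylow.unique_of_normal Q hQ
  exact Subsingleton.elim R Q ▸ hR (mem_zpowers x)

theorem norm_sylow {N S : Subgroup G} (h : S ≤ normalizer (N : Set G)) (Q : Sylow p N)
    (hQ : (Q : Subgroup N).Normal) : S ≤ normalizer ((Q : Subgroup N).map N.subtype : Set G) :=
  fun g hg => mem_normalizer_fintype (by
    rintro _ ⟨x, hx, rfl⟩
    obtain ⟨k, hk⟩ := Q.isPGroup' ⟨x, hx⟩
    exact ⟨⟨_, (mem_normalizer_iff.1 (h hg) _).1 x.2⟩, mem_sylow_of_normal Q hQ (k := k)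
      (Subtype.ext (by simp [conj_pow, show (x : G) ^ p ^ k = 1 from congr(($hk).1.1)])), rfl⟩)

namespace At
variable (H : At G Ω p)
include H

theorem sylA (h : Fam p K) (h3 : 3 ≤ p) (ab : a ≠ b) :
    ∃ A ≤ K a, Nat.card A = p ∧ stabilizer G a ≤ normalizer (A : Set G) := by
  have := H.faithful h ab
  obtain ⟨Q⟩ : Nonempty (Sylow p (K a)) := inferInstance
  have c : Nat.card (orbit (K a) b) = p := h.orb _ _ ab
  exact ⟨_, map_subtype_le _, by rw [card_map_of_injective (subtype_injective _), card_sylow_prime_deg c],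
    norm_sylow (h.norm a) Q (normal_of_sol_prime_deg c (H.sol h h3 a) Q)⟩

theorem no_reg (h3 : 3 ≤ p) (N : Subgroup G) [N.Normal] [IsPretransitive N Ω] (a : Ω) :
    stabilizer N a ≠ ⊥ := fun h => by
  obtain ⟨-, r, hr, e⟩ := elemAb_of_two_trans H.two N h
  obtain ⟨j, hj⟩ := card_eq_pow_of_exponent hr e
  rw [card_eq_of_regular a h, H.card] at hj
  obtain ⟨m, rfl⟩ := hp.out.odd_of_ne_two (by omega)
  obtain rfl : r = 2 := ((Nat.prime_dvd_prime_iff_eq Nat.prime_two hr).1
    (Nat.prime_two.dvd_of_dvd_pow (n := j) (by rw [← hj]; exact ⟨2 * m ^ 2 + 2 * m + 1, by ring⟩))).symm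
  rcases j with _ | _ | j
  · nlinarith
  · norm_num at hj; nlinarith
  · rw [show (2 * m + 1) ^ 2 + 1 = 4 * (m ^ 2 + m) + 2 by ring, pow_succ, pow_succ] at hj
    omega

theorem split (h3 : 3 ≤ p) (ab : a ≠ b) {P A : Subgroup G} (hP : P ≤ stabilizer G a)
    (nP : stabilizer G a ≤ normalizer (P : Set G)) (cP : Nat.card P = p ^ 2)
    (tP : ∀ c, a ≠ c → ∃ u ∈ P, u • b = c) (hA : A ≤ P) (cA : Nat.card A = p)
    (nA : stabilizer G a ≤ normalizer (A : Set G)) (co : ¬ p ∣ Nat.card (St2 G a b)) : False := by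
  have := IsPGroup.isMulCommutative_of_card_eq_prime_sq cP
  have cm : ∀ u ∈ P, ∀ v ∈ P, u * v = v * u := fun u hu v hv => P.mul_comm_of_mem_isMulCommutative hu hv
  have reg : ∀ u ∈ P, ∀ c, a ≠ c → u • c = c → u = 1 := fun u hu c ac e =>
    eq_one_of_smul_eq (α := Ω) fun y => by
      rcases eq_or_ne a y with rfl | ay
      · exact hP hu
      obtain ⟨v, hv, rfl⟩ := tP c ac
      obtain ⟨w, hw, rfl⟩ := tP y ay
      rw [← mul_smul, cm u hu v hv, mul_smul, smul_left_cancel_iff] at e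
      rw [← mul_smul, cm u hu w hw, mul_smul, e]
  have co' : ∀ E ≤ P, (orbit E b).ncard = Nat.card E := fun E h => by
    rw [card_eq_orbit_mul_stabilizer (G := E) b, show stabilizer E b = ⊥ from eq_bot_iff.2 fun u hu =>
      Subtype.ext (reg _ (h u.2) b ab hu), card_bot, mul_one]
  have key : ∀ h ∈ St2 G a b, h ≠ 1 → ∀ c, c ≠ a → c ≠ b → h • c = c → ∃ K : Ω → Subgroup G,
      Fam p K ∧ insert a (orbit (K a) b) = {z | h • z = z} := fun h hh h1 c ca cb hc => by
    let E := P ⊓ centralizer {h}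
    have fx : ∀ u ∈ P, h • u • b = u • b ↔ u ∈ E := fun u hu => by
      refine ⟨fun e => ⟨hu, mem_centralizer_singleton_iff.2 ?_⟩, fun e => by
        rw [← mul_smul, ← mem_centralizer_singleton_iff.1 e.2, mul_smul, hh.2]⟩
      have := reg _ (mul_mem (inv_mem hu) ((mem_normalizer_iff.1 (nP hh.1) u).1 hu)) b ab (by
        rw [mul_smul, mul_smul, mul_smul, inv_smul_eq_iff.2 hh.2.symm, e, inv_smul_smul])
      rw [inv_mul_eq_one, eq_mul_inv_iff_mul_eq] at this
      exact this
    have cE : Nat.card E = p := by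
      obtain ⟨j, hj, e⟩ := (Nat.dvd_prime_pow hp.out).1 (cP ▸ card_dvd_of_le (inf_le_left : E ≤ P))
      interval_cases j
      · obtain ⟨u, hu, rfl⟩ := tP c ca.symm
        have := (card_eq_one.1 e).le ((fx u hu).1 hc)
        exact absurd (by rw [mem_bot.1 this, one_smul]) cb
      · rwa [pow_one] at e
      · refine absurd (eq_one_of_smul_eq (α := Ω) fun y => ?_) h1
        rcases eq_or_ne a y with rfl | ay
        · exact hh.1
        obtain ⟨u, hu, rfl⟩ := tP y ay
        exact (fx u hu).2 ((eq_of_le_of_card_ge (inf_le_left : E ≤ P) (by rw [e, cP])).ge hu)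
    have nE : stabilizer G a ≤ normalizer (E : Set G) := by
      rcases eq_or_ne A E with e | e
      · exact e ▸ nA
      have sp := coe_mul_of_right_le_normalizer_left A E ((inf_le_left.trans hP).trans nA)
      rw [sup_eq_of_sq cA cE cP hA inf_le_left e] at sp
      refine fun g hg => mem_normalizer_fintype fun e he => ?_
      obtain ⟨u, hu, e1⟩ := tP (g • b) fun e => ab (smul_left_cancel g (hg.trans e))
      obtain ⟨k, rfl⟩ : ∃ k, g = u * k := ⟨u⁻¹ * g, by group⟩
      have hk : k ∈ St2 G a b := ⟨(mul_mem_cancel_left (hP hu)).1 hg, by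
        rw [mul_smul, smul_left_cancel_iff] at e1; exact e1.symm⟩
      have m := (mem_normalizer_iff.1 (nP hk.1) e).1 he.1
      rw [show u * k * e * (u * k)⁻¹ = u * (k * e * k⁻¹) * u⁻¹ by group, cm u hu _ m, mul_inv_cancel_right]
      obtain ⟨x, hx, y, hy, e2⟩ := sp.le m
      have cj : ∀ {g z}, g ∈ St2 G a b → z ∈ A → g * z * g⁻¹ ∈ A := fun g z =>
        (mem_normalizer_iff.1 (nA g.1) _).1 z
      let t := (k * h)⁻¹ * (h * k)
      have ht : t ∈ St2 G a b := mul_mem (inv_mem (mul_mem hk hh)) (mul_mem hh hk)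
      let w := (k * h)⁻¹ * (h * x * h⁻¹ * x⁻¹) * (k * h)⁻¹⁻¹
      have hw : w ∈ A := cj (inv_mem (mul_mem hk hh)) (mul_mem (cj hh hx) (inv_mem hx))
      have tw : Commute t w := by
        rcases eq_or_ne w 1 with e | e
        · exact e ▸ Commute.one_right t
        have : zpowers w = A := eq_of_le_of_card_ge (zpowers_le.2 hw) (by
          rw [cA, Nat.card_zpowers, orderOf_eq_prime (p := p) (by
            rw [← cA]; exact congrArg Subtype.val (pow_card_eq_one' (x := (⟨w, hw⟩ : A)))) e])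
        exact commute_of_normalizer_zpowers (this ▸ nA hh.1) (this ▸ nA hk.1)
      have ye : y * h = h * y := mem_centralizer_singleton_iff.1 hy.2
      have ee : e * h = h * e := mem_centralizer_singleton_iff.1 he.2
      have te : t * e = w * e * t := by
        have e2 : x * y = k * e * k⁻¹ := e2
        calc t * e = (k * h)⁻¹ * h * (k * e * k⁻¹) * k := by simp only [t]; group
          _ = (k * h)⁻¹ * (h * x * h⁻¹) * (h * y) * k := by rw [← e2]; group
          _ = (k * h)⁻¹ * (h * x * h⁻¹ * x⁻¹) * (x * y) * h * k := by rw [← ye]; group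
          _ = (k * h)⁻¹ * (h * x * h⁻¹ * x⁻¹) * k * (e * h) * (h⁻¹ * k⁻¹ * h * k) := by rw [e2]; group
          _ = _ := by rw [ee]; simp only [t, w]; group
      have pw : ∀ n : ℕ, t ^ n * e = w ^ n * e * t ^ n := fun n => by
        induction n with
        | zero => simp
        | succ n ih => rw [pow_succ, mul_assoc, te, mul_assoc w, ← mul_assoc, (tw.pow_left n).eq, mul_assoc,
            ← mul_assoc (t ^ n), ih, pow_succ' w]; group
      have w1 := pw (Nat.card (St2 G a b))
      rw [show t ^ _ = 1 from congrArg Subtype.val (pow_card_eq_one' (x := (⟨t, ht⟩ : St2 G a b))),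
        one_mul, mul_one, eq_comm, mul_eq_right] at w1
      have w1 : w = 1 := orderOf_eq_one_iff.1 (Nat.eq_one_of_dvd_coprimes
        ((Nat.Prime.coprime_iff_not_dvd hp.out).2 co) (cA ▸ A.orderOf_dvd_natCard hw)
        (orderOf_dvd_of_pow_eq_one w1))
      have x1 : x * h = h * x := by
        rw [conj_eq_one_iff, mul_inv_eq_one, mul_inv_eq_iff_eq_mul] at w1; exact w1.symm
      exact ⟨m, e2 ▸ mul_mem (mem_centralizer_singleton_iff.2 x1) hy.2⟩
    obtain ⟨K, hK, e⟩ := exists_fam H.two ab (inf_le_left.trans hP) nE ((co' E inf_le_left).trans cE)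
    refine ⟨K, hK, Set.ext fun z => ⟨?_, fun hz => or_iff_not_imp_left.2 fun za => ?_⟩⟩
    · rw [e]
      rintro (rfl | ⟨u, rfl⟩)
      · exact hh.1
      · exact (fx u u.2.1).2 u.2
    · obtain ⟨u, hu, rfl⟩ := tP z (Ne.symm za)
      exact e ▸ ⟨⟨u, (fx u hu).1 hz⟩, rfl⟩
  have z : Z3 G Ω := ⟨inferInstance, H.two, fun g x y c xy yc xc gx gy gc => by_contra fun g1 => by
    obtain ⟨r, rfl, rfl⟩ := two_trans H.two ab xy
    obtain ⟨s, s1, s2⟩ := two_trans H.two ab xy.symm
    obtain ⟨K, hK, e⟩ := key (r⁻¹ * g * r) ⟨by simp [mul_smul, gx], by simp [mul_smul, gy]⟩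
      (by simpa [mul_assoc, inv_mul_eq_one] using g1) (r⁻¹ • c) (by simpa [inv_smul_eq_iff] using xc.symm)
      (by simpa [inv_smul_eq_iff] using yc.symm) (by simp [mul_smul, gc])
    obtain ⟨K', hK', e'⟩ := key (s⁻¹ * g * s) ⟨by simp [mul_smul, s1, gy, inv_smul_eq_iff],
      by simp [mul_smul, s2, gx, inv_smul_eq_iff]⟩
      (by simpa [mul_assoc, inv_mul_eq_one] using g1) (s⁻¹ • c)
      (by simpa [inv_smul_eq_iff, s1] using yc.symm) (by simpa [inv_smul_eq_iff, s2] using xc.symm)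
      (by simp [mul_smul, gc])
    refine no_lines2 hK.lines hK'.lines (by omega) H.card H.two xy ?_
    conv_rhs => rw [← s1, ← s2]
    rw [hK.lines.eqv, hK'.lines.eqv, e, e']
    ext z
    simp [Set.mem_smul_set_iff_inv_smul_mem, mul_smul]⟩
  have p9 : 9 ≤ p ^ 2 := by nlinarith
  have n3 : 3 ≤ Nat.card Ω := by rw [H.card]; omega
  have : Nontrivial Ω := ⟨_, _, ab⟩
  have := z.trans
  have hZ : IsZassenhausGroup G Ω := ⟨z.faith, z.two, z.fix3, by
    by_contra! h
    obtain ⟨N, _, -, _, e⟩ := exists_frob_kernel (G := G) (α := Ω) fun g x y xy gx gy =>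
      by_contra fun g1 => h g g1 x y xy gx gy
    exact H.no_reg h3 N a (e a), fun N _ _ => ⟨a, H.no_reg h3 N a⟩⟩
  have e := z.eq_zker_of_card n3 hP (by rw [cP, H.card]) fun u hu u1 c e =>
    by_contra fun ca => u1 (reg u hu c (Ne.symm ca) e)
  have d := z.card_dvd ab _ le_rfl (orbit A b \ {b}) (fun h => notMem_orbit (hA.trans hP) ab h.1)
    (fun h => h.2 rfl) fun k hk x hx => ⟨by
      have n := mem_normalizer_iff.1 (nA hk.1)
      have := Set.smul_mem_smul_set (a := k) hx.1
      rwa [← orbit_conj k (fun z => (n z).1) fun z hz => (n _).2 (by simpa [mul_assoc] using hz),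
        hk.2] at this, fun e => hx.2 (smul_left_cancel k (e.trans hk.2.symm))⟩
  rw [Set.ncard_diff_singleton_of_mem (mem_orbit_self b), co' A hA, cA] at d
  have := Nat.le_of_dvd (by omega) d
  have : 3 * p ≤ p ^ 2 := by nlinarith
  rcases zass_ab hZ ab (e ▸ inferInstance) with h | ⟨h, -⟩ <;> rw [H.card] at h <;> omega

theorem no_fam (h3 : 3 ≤ p) (h : Fam p K) (ab : a ≠ b) (hc : ¬ p ^ 3 ∣ Nat.card (stabilizer G a)) :
    False := by
  obtain ⟨A, lA, cA, nA⟩ := H.sylA h h3 ab
  replace lA := lA.trans (h.le a)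
  have cS : Nat.card (stabilizer G a) = p ^ 2 * Nat.card (St2 G a b) := by
    rw [← H.relIndex_stab ab, ← inf_relIndex_left, relIndex, ← card_mul_index
      ((stabilizer G a ⊓ stabilizer G b).subgroupOf (stabilizer G a)), mul_comm,
      Nat.card_congr (subgroupOfEquivOfLe inf_le_left).toEquiv]
  have co : ¬ p ∣ Nat.card (St2 G a b) := fun d => hc (by
    rw [cS, pow_succ]; exact Nat.mul_dvd_mul_left _ d)
  obtain ⟨P0⟩ : Nonempty (Sylow p (stabilizer G a)) := inferInstance
  let P := (P0 : Subgroup (stabilizer G a)).map (stabilizer G a).subtype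
  have hP : P ≤ stabilizer G a := map_subtype_le _
  have f2 : (Nat.card (stabilizer G a)).factorization p = 2 := by
    rw [cS, Nat.factorization_mul (pow_ne_zero _ hp.out.ne_zero) Nat.card_pos.ne', Finsupp.add_apply,
      Nat.factorization_pow_self hp.out, Nat.factorization_eq_zero_of_not_dvd co]
  have cP : Nat.card P = p ^ 2 := by
    rw [card_map_of_injective (subtype_injective _), P0.card_eq_multiplicity, f2]
  have tP : ∀ c, a ≠ c → ∃ u ∈ P, u • b = c := fun c ac =>
    let ⟨u, hu, e⟩ := H.sylow_orbit ab P0 ac; ⟨u, ⟨u, hu, rfl⟩, e⟩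
  have inP : ∀ (P0 : Sylow p (stabilizer G a)), ∀ B ≤ stabilizer G a, Nat.card B = p →
      stabilizer G a ≤ normalizer (B : Set G) → B ≤ P0.1.map (stabilizer G a).subtype :=
    fun P0 B h1 h2 h3 => by
    have : (B.subgroupOf (stabilizer G a)).Normal := (normal_subgroupOf_iff_le_normalizer h1).2 h3
    have := (IsPGroup.of_card (G := B.subgroupOf (stabilizer G a)) (p := p) (n := 1) (by
      rw [Nat.card_congr (subgroupOfEquivOfLe h1).toEquiv, h2, pow_one])).le_sylow_of_normal P0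
    exact fun x hx => ⟨⟨x, h1 hx⟩, this hx, rfl⟩
  have hA : A ≤ P := inP P0 A lA cA nA
  refine H.split h3 ab hP ?_ cP tP hA cA nA co
  have := IsPGroup.isMulCommutative_of_card_eq_prime_sq cP
  let C := centralizer (A : Set G) ⊓ stabilizer G a
  have PC : P ≤ C := le_inf (fun u hu => mem_centralizer_iff.2 fun v hv =>
    P.mul_comm_of_mem_isMulCommutative (hA hv) hu) hP
  have nC : stabilizer G a ≤ normalizer (C : Set G) := fun g hg => mem_normalizer_fintype fun k hk =>
    ⟨mem_centralizer_iff.2 fun v hv => by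
      have := mem_centralizer_iff.1 hk.1 _ ((mem_normalizer_iff.1 (nA (inv_mem hg)) v).1 hv)
      calc v * (g * k * g⁻¹) = g * (g⁻¹ * v * g⁻¹⁻¹ * k) * g⁻¹ := by group
        _ = _ := by rw [this]; group, (stabilizer G a).mul_mem (mul_mem hg hk.2) (inv_mem hg)⟩
  have nD : stabilizer G a ≤ normalizer ((⁅C, C⁆ : Subgroup G) : Set G) := fun g hg => by
    rw [mem_normalizer_iff_map_conj_eq, map_commutator, mem_normalizer_iff_map_conj_eq.1 (nC hg)]
  have DC : ⁅C, C⁆ ≤ C := commutator_le_self C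
  let Q : Sylow p C := Sylow.ofCard (P.subgroupOf C) (by
    rw [Nat.card_congr (subgroupOfEquivOfLe PC).toEquiv, cP]
    refine congrArg _ (le_antisymm ?_ ?_)
    · exact (hp.out.pow_dvd_iff_le_factorization Nat.card_pos.ne').1 (cP ▸ card_dvd_of_le PC)
    · by_contra! l
      exact hc (((hp.out.pow_dvd_iff_le_factorization Nat.card_pos.ne').2 l).trans
        (card_dvd_of_le inf_le_right)))
  have mQ : (Q : Subgroup C).map C.subtype = P := map_subgroupOf_eq_of_le PC
  have cQ : IsMulCommutative (Q : Subgroup C) := ⟨⟨fun u v => Subtype.ext (Subtype.ext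
    (P.mul_comm_of_mem_isMulCommutative u.2 v.2))⟩⟩
  have AD : ∀ z ∈ A, z ∈ ⁅C, C⁆ → z = 1 := fun z h1 h2 => congrArg Subtype.val
    (eq_one_of_central_commutator Q (z := ⟨z, PC (hA h1)⟩) (hA h1)
      (mem_center_iff.2 fun g => Subtype.ext (mem_centralizer_iff.1 g.2.1 z h1).symm) (by
        rw [← map_subtype_commutator] at h2
        obtain ⟨w, hw, rfl⟩ := h2
        exact hw))
  have nA1 : ¬ A ≤ ⁅C, C⁆ := fun l => hp.out.one_lt.ne' (cA ▸ card_eq_one.2 (eq_bot_iff.2 fun z hz =>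
    AD z hz (l hz)))
  have lD : ⁅C, C⁆ ≤ stabilizer G a := DC.trans inf_le_right
  obtain ⟨j, hj, e⟩ := (Nat.dvd_prime_pow hp.out).1 (H.orbit_dvd' ab lD nD)
  interval_cases j
  · have : ⁅C, C⁆ = ⊥ := H.eq_bot_of_fix ab le_rfl (by
      rw [H.orbit_stab ab, Set.ncard_compl, H.card, Set.ncard_singleton]; rfl) (le_inf lD (by
        rwa [pow_zero, ncard_orbit_subgroup, relIndex_eq_one] at e)) nD
    have : IsMulCommutative C := ⟨⟨fun u v => Subtype.ext (commutatorElement_eq_one_iff_mul_comm.1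
      (mem_bot.1 (this ▸ commutator_mem_commutator u.2 v.2)))⟩⟩
    exact mQ ▸ norm_sylow nC Q (normal_of_isMulCommutative _)
  · obtain ⟨K', hK', e'⟩ := exists_fam H.two ab lD nD (e.trans (pow_one p))
    obtain ⟨B, lB, cB, nB⟩ := H.sylA hK' h3 ab
    rw [e'] at lB
    rw [← sup_eq_of_sq cA cB cP hA (inP P0 B (lB.trans lD) cB nB) fun e => nA1 (e ▸ lB)]
    exact (le_inf nA nB).trans (normalizer_inf_normalizer_le_normalizer_sup A B)
  · obtain ⟨R, hR⟩ := Sylow.exists_subgroup_card_pow_prime p (G := ↥⁅C, C⁆) (n := 2)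
      (e ▸ card_eq_orbit_mul_stabilizer (G := ↥⁅C, C⁆) b ▸ dvd_mul_right _ _)
    have l := (map_subtype_le R).trans lD
    exact absurd ((inP (Sylow.ofCard ((R.map (Subgroup.subtype _)).subgroupOf _) (by
      rw [Nat.card_congr (subgroupOfEquivOfLe l).toEquiv, f2,
        card_map_of_injective (subtype_injective _), hR])) A lA cA nA).trans
      ((map_subgroupOf_eq_of_le l).le.trans (map_subtype_le R))) nA1

end At

end Cfsg.Agent.H16
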