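import Mathlib
import Cfsg.Agent.H19.Gt0

/-! Passing from the normaliser of the torus to a Sylow `2`-subgroup. -/

set_option autoImplicit false
set_option linter.unusedSectionVars false

namespace Cfsg.Agent.H16.GtS

open Subgroup Cfsg.Agent.H19.Gt

theorem relIndex_eq {R : Type*} [Group R] {T H L : Subgroup R} (hT : T ≤ H)
    (h : ∀ x ∈ H, ∃ t ∈ T, t⁻¹ * x ∈ L) : L.relIndex T = L.relIndex H := by
  refine Nat.card_congr (Equiv.ofBijective (quotientSubgroupOfEmbeddingOfLE L hT)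
    ⟨(quotientSubgroupOfEmbeddingOfLE L hT).injective, fun q => ?_⟩)
  obtain ⟨x, rfl⟩ := QuotientGroup.mk_surjective q
  obtain ⟨t, ht, e⟩ := h x x.2
  refine ⟨QuotientGroup.mk ⟨t, ht⟩, ?_⟩
  rw [quotientSubgroupOfEmbeddingOfLE_apply_mk, QuotientGroup.eq]
  exact e

theorem transport {R K G : Type*} [Group R] [CommGroup K] [Group G] {H : Subgroup R}
    {τ : K × K →* R} {u v : R} (h : Gs H τ u v) {S : Subgroup G} (e : H ≃* S) :
    ∃ (τ' : K × K →* G) (u' v' : G), Gs S τ' u' v' := by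
  have hτ : ∀ x, τ x ∈ H := fun x => (h.mem _).2 ⟨x.1, x.2, Or.inl rfl⟩
  have h1 : τ (1, 1) = 1 := map_one τ
  have hu : u ∈ H := (h.mem _).2 ⟨1, 1, Or.inr (Or.inl (by rw [h1, one_mul]))⟩
  have hv : v ∈ H := (h.mem _).2 ⟨1, 1, Or.inr (Or.inr (Or.inl (by rw [h1, one_mul])))⟩
  let ι : H →* G := S.subtype.comp e.toMonoidHom
  have hι : Function.Injective ι := Subtype.val_injective.comp e.injective
  let t : K × K →* H := τ.codRestrict H hτ
  refine ⟨ι.comp t, ι ⟨u, hu⟩, ι ⟨v, hv⟩, h.cyc, h.four,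
    hι.comp fun a b hab => h.inj (congrArg Subtype.val hab), ?_, ?_, ?_, fun a b => ?_,
    fun a b => ?_, fun g => ⟨fun hg => ?_, ?_⟩⟩
  · rw [← map_mul, ← map_one ι]; exact congrArg ι (Subtype.ext h.uu)
  · rw [← map_mul, ← map_one ι]; exact congrArg ι (Subtype.ext h.vv)
  · rw [← map_mul, ← map_mul]; exact congrArg ι (Subtype.ext h.uv)
  · simp only [MonoidHom.comp_apply]
    rw [← map_mul, ← map_mul]; exact congrArg ι (Subtype.ext (h.ut a b))
  · simp only [MonoidHom.comp_apply]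
    rw [← map_mul, ← map_mul]; exact congrArg ι (Subtype.ext (h.vt a b))
  · obtain ⟨x, hx⟩ := e.surjective ⟨g, hg⟩
    have hg' : g = ι x := (congrArg Subtype.val hx).symm
    obtain ⟨a, b, hab⟩ := (h.mem x).1 x.2
    refine ⟨a, b, ?_⟩
    simp only [MonoidHom.comp_apply, ← map_mul, hg']
    rcases hab with k | k | k | k
    · exact Or.inl (congrArg ι (Subtype.ext k))
    · exact Or.inr (Or.inl (congrArg ι (Subtype.ext k)))
    · exact Or.inr (Or.inr (Or.inl (congrArg ι (Subtype.ext k))))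
    · exact Or.inr (Or.inr (Or.inr (congrArg ι (Subtype.ext k))))
  · rintro ⟨a, b, hab⟩
    simp only [MonoidHom.comp_apply, ← map_mul] at hab
    rcases hab with k | k | k | k <;> rw [k] <;> exact (e _).2

theorem gS {R K : Type*} [Group R] [Finite R] [CommGroup K] [Finite K] {H : Subgroup R}
    {τ : K × K →* R} {u v : R} (h : Gs H τ u v) (ho : ¬ 2 ∣ H.index) {G : Type*} [Group G]
    [Finite G] (S : Sylow 2 G) (P : Sylow 2 R) (e : (S : Subgroup G) ≃* (P : Subgroup R)) :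
    ∃ (K' : Subgroup K) (τ' : K' × K' →* G) (u' v' : G),
      IsPGroup 2 K' ∧ Gs (S : Subgroup G) τ' u' v' := by
  obtain ⟨Q⟩ : Nonempty (Sylow 2 K) := inferInstance
  let K' : Subgroup K := Q
  let σ : K' × K' →* R := τ.comp (K'.subtype.prodMap K'.subtype)
  have ut : ∀ x : K' × K', u * σ x = σ x⁻¹ * u := fun x => h.ut x.1 x.2
  have vt : ∀ x : K' × K', v * σ x = σ x.swap * v := fun x => h.vt x.1 x.2
  let W : R → Prop := fun w => w = 1 ∨ w = u ∨ w = v ∨ w = u * v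
  have W2 : ∀ w, W w → w * w = 1 := by
    rintro w (rfl | rfl | rfl | rfl)
    · exact one_mul 1
    · exact h.uu
    · exact h.vv
    · rw [mul_assoc, ← mul_assoc v, ← h.uv, mul_assoc, h.vv, mul_one, h.uu]
  have Wm : ∀ w w', W w → W w' → W (w * w') := by
    have e1 : ∀ x, u * (u * x) = x := fun x => by rw [← mul_assoc, h.uu, one_mul]
    have e2 : ∀ x, v * (u * x) = u * (v * x) := fun x => by rw [← mul_assoc, ← h.uv, mul_assoc]
    rintro w w' (rfl | rfl | rfl | rfl) (rfl | rfl | rfl | rfl) <;>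
      simp [W, e1, e2, h.uu, h.vv, ← h.uv, mul_assoc]
  have Wt : ∀ w, W w → ∀ x, ∃ y, w * σ x = σ y * w := by
    rintro w (rfl | rfl | rfl | rfl) x
    · exact ⟨x, by simp⟩
    · exact ⟨_, ut x⟩
    · exact ⟨_, vt x⟩
    · exact ⟨_, by rw [mul_assoc, vt, ← mul_assoc, ut, mul_assoc]⟩
  let L : Subgroup R :=
    { carrier := {g | ∃ x w, W w ∧ g = σ x * w}
      one_mem' := ⟨1, 1, Or.inl rfl, by simp⟩
      mul_mem' := by
        rintro _ _ ⟨x, w, hw, rfl⟩ ⟨x', w', hw', rfl⟩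
        obtain ⟨y, hy⟩ := Wt w hw x'
        exact ⟨x * y, w * w', Wm _ _ hw hw', by
          rw [map_mul, mul_assoc, ← mul_assoc w, hy]; simp only [mul_assoc]⟩
      inv_mem' := by
        rintro _ ⟨x, w, hw, rfl⟩
        obtain ⟨y, hy⟩ := Wt w hw x⁻¹
        exact ⟨y, w, hw, by
          rw [← hy, mul_inv_rev, map_inv, inv_eq_of_mul_eq_one_right (W2 w hw)]⟩ }
  have hL : Gs L σ u v := by
    haveI := h.cyc
    refine ⟨inferInstance, ?_, fun a b hab => ?_, h.uu, h.vv, h.uv, fun a b => ut (a, b),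
      fun a b => vt (a, b), fun g => ⟨?_, ?_⟩⟩
    · exact Q.pow_dvd_card_of_pow_dvd_card (n := 2) h.four
    · have := h.inj hab
      exact Prod.ext (Subtype.ext (congrArg Prod.fst this)) (Subtype.ext (congrArg Prod.snd this))
    · rintro ⟨x, w, hw | hw | hw | hw, rfl⟩ <;> refine ⟨x.1, x.2, ?_⟩ <;> simp [hw]
    · rintro ⟨a, b, k | k | k | k⟩
      · exact ⟨(a, b), 1, Or.inl rfl, by rw [k, mul_one]⟩
      · exact ⟨(a, b), u, Or.inr (Or.inl rfl), k⟩
      · exact ⟨(a, b), v, Or.inr (Or.inr (Or.inl rfl)), k⟩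
      · exact ⟨(a, b), u * v, Or.inr (Or.inr (Or.inr rfl)), k⟩
  have hp : IsPGroup 2 L := by
    rintro ⟨_, x, w, hw, rfl⟩
    obtain ⟨y, hy⟩ := Wt w hw x
    obtain ⟨k, hk⟩ := Q.isPGroup' (x * y).1
    obtain ⟨l, hl⟩ := Q.isPGroup' (x * y).2
    refine ⟨k + l + 1, Subtype.ext ?_⟩
    have e1 : (σ x * w) ^ 2 = σ (x * y) := by
      rw [pow_two, mul_assoc, ← mul_assoc w, hy, mul_assoc, W2 w hw, mul_one, map_mul]
    have e2 : (x * y) ^ 2 ^ (k + l) = 1 := Prod.ext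
      (by rw [Prod.pow_fst, pow_add, pow_mul, hk, one_pow]; rfl)
      (by rw [Prod.pow_snd, add_comm, pow_add, pow_mul, hl, one_pow]; rfl)
    change (σ x * w) ^ 2 ^ (k + l + 1) = 1
    rw [pow_succ', pow_mul, e1, ← map_pow, e2, map_one]
  have hLH : L ≤ H := fun g hg => by
    obtain ⟨a, b, k⟩ := (hL.mem g).1 hg
    exact (h.mem g).2 ⟨a, b, k⟩
  have hi : ¬ 2 ∣ L.index := by
    rw [← relIndex_mul_index hLH, ← relIndex_eq (T := τ.range) (by
      rintro _ ⟨x, rfl⟩; exact (h.mem _).2 ⟨x.1, x.2, Or.inl rfl⟩) (fun g hg => by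
      obtain ⟨a, b, k⟩ := (h.mem g).1 hg
      refine ⟨τ (a, b), ⟨_, rfl⟩, 1, ?_⟩
      rcases k with k | k | k | k <;> rw [k]
      · exact ⟨1, Or.inl rfl, by simp⟩
      · exact ⟨u, Or.inr (Or.inl rfl), by simp⟩
      · exact ⟨v, Or.inr (Or.inr (Or.inl rfl)), by simp⟩
      · exact ⟨u * v, Or.inr (Or.inr (Or.inr rfl)), by simp⟩), Nat.prime_two.dvd_mul]
    refine not_or.2 ⟨fun hd => ?_, ho⟩
    rw [← index_comap] at hd
    have h2 : K'.prod K' ≤ L.comap τ := fun x hx =>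
      ⟨(⟨x.1, hx.1⟩, ⟨x.2, hx.2⟩), 1, Or.inl rfl, (mul_one _).symm⟩
    have h3 := hd.trans (index_dvd_of_le h2)
    rw [index_prod, Nat.prime_two.dvd_mul, or_self] at h3
    exact Q.not_dvd_index h3
  obtain ⟨τ', u', v', hG⟩ := transport hL (S := (S : Subgroup G))
    ((Sylow.equiv (hp.toSylow hi) P).trans e.symm)
  exact ⟨K', τ', u', v', Q.isPGroup', hG⟩

end Cfsg.Agent.H16.GtS
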