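import Mathlib
import Cfsg.Agent.H16.Supp
import Cfsg.Agent.GW.Base
import Cfsg.Agent.AC.Base

/-! M. Hall's theorem on quadruply transitive groups with four-point stabilisers of odd order. -/

set_option autoImplicit false
set_option linter.unusedSectionVars false

namespace Cfsg.Agent.H16

open MulAction Subgroup Cfsg.Agent.FT Cfsg.Agent.GW
open scoped commutatorElement Pointwise

variable {G α : Type*} [Group G] [MulAction G α] [Finite G] [Finite α] {s t u v : G}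
  {a b c d p q : α}

theorem cen_invo {X : Subgroup G} (ht : t * t = 1) (hn : t ∈ N(X)) (h2 : 2 ∣ #X) :
    ∃ s ∈ X, Invo s ∧ t * s = s * t := by
  have := ncard_modEq_of_pelt (G := ConjAct G) (α := G) (k := 1) (g := ConjAct.toConjAct t)
    Nat.prime_two (by rw [← map_pow, pow_one, sq, ht, map_one]) (X : Set G) (Set.toFinite _)
    fun x hx => (mem_normalizer_iff.1 hn x).1 hx
  obtain ⟨s, hs, h⟩ := exists_invo (H := X ⊓ C[t]) (by
    have e : {x ∈ (X : Set G) | ConjAct.toConjAct t • x = x} = ↑(X ⊓ C[t]) := by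
      ext x
      simp only [ConjAct.smul_def, ConjAct.ofConjAct_toConjAct, mul_inv_eq_iff_eq_mul,
        Set.mem_ofPred_eq, SetLike.mem_coe, mem_inf, mem_cen1, @eq_comm _ (t * x)]
    rw [e] at this
    exact (Nat.modEq_zero_iff_dvd.1 (this.symm.trans (Nat.modEq_zero_iff_dvd.2 h2)) :))
  exact ⟨s, hs.1, h, (mem_cen1.1 hs.2).symm⟩

theorem smul_fix (h : s * t = t * s) (ha : t • a = a) : t • s • a = s • a := by
  rw [← mul_smul, ← h, mul_smul, ha]

theorem inv_smul (ht : Invo t) (a : α) : t • t • a = a := by rw [← mul_smul, ht.sq, one_smul]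

theorem fix_of_sq (h : Odd (orderOf s)) (ha : s • s • a = a) : s • a = a :=
  mem_of_sq_mem (H := stabilizer G a) h ((mul_smul s s a).trans ha)

theorem ncard_four (a b c d : α) : ({a, b, c, d} : Set α).ncard ≤ 4 :=
  (Set.ncard_insert_le _ _).trans (Nat.succ_le_succ ((Set.ncard_insert_le _ _).trans
    (Nat.succ_le_succ ((Set.ncard_insert_le _ _).trans (by simp)))))

variable (G α) in
/-- faithful, quadruply transitive, and no involution fixes four points -/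
structure Hall4 : Prop where
  ft : FaithfulSMul G α
  tr : IsMultiplyPretransitive G α 4
  nf : ∀ t : G, Invo t → ∀ a b c d : α, a ≠ b → a ≠ c → a ≠ d → b ≠ c → b ≠ d → c ≠ d →
    t • a = a → t • b = b → t • c = c → t • d ≠ d

namespace Hall4
variable (h : Hall4 G α)
include h

theorem le3 (ht : Invo t) : {x : α | t • x = x}.ncard ≤ 3 := by
  by_contra! hn
  obtain ⟨a, b, c, d, ha, hb, hc, hd, h1, h2, h3, h4, h5, h6⟩ :=
    (Set.three_lt_ncard_iff (Set.toFinite _)).1 hn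
  exact h.nf t ht a b c d h1 h2 h3 h4 h5 h6 ha hb hc hd

theorem odd4 (h1 : a ≠ b) (h2 : a ≠ c) (h3 : a ≠ d) (h4 : b ≠ c) (h5 : b ≠ d) (h6 : c ≠ d) :
    Odd #(stabilizer G a ⊓ stabilizer G b ⊓ stabilizer G c ⊓ stabilizer G d) :=
  odd_of_no_invo fun u hu e => h.nf u e a b c d h1 h2 h3 h4 h5 h6 hu.1.1.1 hu.1.1.2 hu.1.2 hu.2

theorem ex_s (ht : Invo t) (hab : a ≠ b) (ha : t • a = a) (hb : t • b = b) (hc : t • c ≠ c) :
    ∃ s, Fr t s ∧ s • a = b ∧ s • b = a ∧ s • c = c ∧ s • t • c = t • c := by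
  have ac : a ≠ c := fun e => hc (e ▸ ha)
  have bc : b ≠ c := fun e => hc (e ▸ hb)
  have ad : a ≠ t • c := fun e => ac (smul_left_cancel t (ha.trans e))
  have bd : b ≠ t • c := fun e => bc (smul_left_cancel t (hb.trans e))
  let X : Subgroup G := stabilizer G c ⊓ stabilizer G (t • c) ⊓ stabilizer G ({a, b} : Set α)
  have mX : ∀ g, g ∈ X ↔ g • c = c ∧ g • t • c = t • c ∧
      (g • a = a ∧ g • b = b ∨ g • a = b ∧ g • b = a) := fun g => by
    simp only [X, mem_inf, mem_stabilizer_iff, and_assoc, Set.smul_set_insert,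
      Set.smul_set_singleton, Set.pair_eq_pair_iff]
  obtain ⟨g, g1, g2, g3, g4⟩ := four_trans h.tr hab ac ad bc bd hc.symm hab.symm bc bd ac ad hc.symm
  obtain ⟨s, hs, s2, e⟩ := cen_invo (X := X) ht.sq (mem_normalizer_fintype fun x hx => by
      obtain ⟨x1, x2, x3⟩ := (mX x).1 hx
      simp only [SetLike.mem_coe, mX, ht.inv, mul_smul, x2, inv_smul ht, x1, ha, hb, true_and]
      rcases x3 with ⟨e, e'⟩ | ⟨e, e'⟩ <;> simp [e, e', ha, hb]) (by
    by_contra ho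
    have := fix_of_sq (a := a) (odd_orderOf (Nat.odd_iff.2 (by omega))
      ((mX g).2 ⟨g3, g4, .inr ⟨g1, g2⟩⟩)) (by rw [g1, g2])
    exact hab (this.symm.trans g1))
  obtain ⟨x1, x2, ⟨e1, e2⟩ | ⟨e1, e2⟩⟩ := (mX s).1 hs
  · exact absurd x2 (h.nf s s2 a b c _ hab ac ad bc bd hc.symm e1 e2 x1)
  · exact ⟨s, ⟨ht, s2, e, fun e => hc (e ▸ x1)⟩, e1, e2, x1, x2⟩

omit h in
theorem reg (hf : Fr u v) (h1 : u • a ≠ a) (h2 : v • a ≠ a) (h3 : u • v • a ≠ a) :
    a ≠ u • a ∧ a ≠ v • a ∧ a ≠ u • v • a ∧ u • a ≠ v • a ∧ u • a ≠ u • v • a ∧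
      v • a ≠ u • v • a :=
  ⟨h1.symm, h2.symm, h3.symm, fun e => h3 (by rw [← e, inv_smul hf.l]),
    fun e => h2 (smul_left_cancel u e).symm,
    fun e => h1 (smul_left_cancel v (by rw [← mul_smul, ← hf.comm, mul_smul, ← e]))⟩

theorem four_conj (hf : Fr u v) (hf' : Fr s t) (h1 : u • a ≠ a) (h2 : v • a ≠ a)
    (h3 : u • v • a ≠ a) (e1 : s • a = u • a) (e2 : t • a = v • a) (e3 : s • t • a = u • v • a) :
    ∃ g, cj g (⟪s⟫ ⊔ ⟪t⟫) ≤ ⟪u⟫ ⊔ ⟪v⟫ := by
  obtain ⟨r1, r2, r3, r4, r5, r6⟩ := reg hf h1 h2 h3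
  have ho := h.odd4 r1 r2 r3 r4 r5 r6
  set D := stabilizer G a ⊓ stabilizer G (u • a) ⊓ stabilizer G (v • a) ⊓ stabilizer G (u • v • a)
  have mD : ∀ g, g ∈ D ↔ g • a = a ∧ g • u • a = u • a ∧ g • v • a = v • a ∧
      g • u • v • a = u • v • a := fun g => by simp only [D, mem_inf, mem_stabilizer_iff, and_assoc]
  have cm : ∀ x : α, v • u • x = u • v • x := fun x => by rw [← mul_smul, ← hf.comm, mul_smul]
  have cm' : ∀ x : α, t • s • x = s • t • x := fun x => by rw [← mul_smul, ← hf'.comm, mul_smul]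
  have nrm : ⟪u⟫ ⊔ ⟪v⟫ ≤ N(D) := hf.V_le
    (mem_normalizer_fintype fun x hx => by
      obtain ⟨x1, x2, x3, x4⟩ := (mD x).1 hx
      simp only [SetLike.mem_coe, mD, hf.l.inv, mul_smul, inv_smul hf.l, x1, x2, x3, x4, and_self])
    (mem_normalizer_fintype fun x hx => by
      obtain ⟨x1, x2, x3, x4⟩ := (mD x).1 hx
      simp only [SetLike.mem_coe, mD, hf.r.inv, mul_smul, inv_smul hf.r, cm, x1, x2, x3, x4,
        and_self])
  have sy : Syl 2 (⟪u⟫ ⊔ ⟪v⟫) (D ⊔ (⟪u⟫ ⊔ ⟪v⟫)) :=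
    SD.hall_right' ⟨nrm, rfl, (odd_iff_p'.1 ho).inf_eq_bot' hf.pGrp⟩ (odd_iff_p'.1 ho) hf.pGrp
  obtain ⟨g, -, hg⟩ := sy.syl_Jsub hf'.pGrp (hf'.V_le
    (by
      rw [← hf.l.cancel' s]
      refine mul_mem (mem_sup_left ((mD _).2 ?_)) (mem_sup_right hf.l_mem)
      simp only [mul_smul, inv_smul hf.l]
      exact ⟨by rw [← e1, inv_smul hf'.l], e1, by rw [← e3, inv_smul hf'.l, e2], by rw [← e2, e3, e2]⟩)
    (by
      rw [← hf.r.cancel' t]
      refine mul_mem (mem_sup_left ((mD _).2 ?_)) (mem_sup_right hf.r_mem)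
      simp only [mul_smul, cm, inv_smul hf.r]
      exact ⟨by rw [← e2, inv_smul hf'.r], by rw [← e3, cm', inv_smul hf'.r, e1], e2,
        by rw [← e1, cm', e3]⟩))
  exact ⟨g, hg⟩

theorem no4 (hn : 8 ≤ Nat.card α) (hf : Fr u v) (hpq : p ≠ q) (u1 : u • p = p) (u2 : u • q = q)
    (v1 : v • p = p) (v2 : v • q = q) : False := by
  have := h.ft
  obtain ⟨x, hx⟩ := exists_smul_ne (α := α) hf.l.ne
  have key : ∀ w : G, Invo w → u * w = w * u → w • p = p → w • q = q → w • x ≠ x :=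
    fun w hw e w1 w2 w3 => h.nf w hw p q x (u • x) hpq (fun e => hx (e ▸ u1))
      (fun e => hx (by rw [← e]; exact (smul_left_cancel u (u1.trans e)) ▸ rfl))
      (fun e => hx (e ▸ u2))
      (fun e => hx (by rw [← e]; exact (smul_left_cancel u (u2.trans e)) ▸ rfl))
      hx.symm w1 w2 w3 (smul_fix e w3)
  have x2 := key v hf.r hf.comm v1 v2
  have x3 := key _ hf.mul hf.left.comm (by rw [mul_smul, v1, u1]) (by rw [mul_smul, v2, u2])
  rw [mul_smul] at x3
  obtain ⟨s, hs, s1, s2, s3, s4⟩ := h.ex_s hf.l hpq u1 u2 hx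
  obtain ⟨y, hy⟩ : ∃ y, y ∉ ({p, q, x, u • x} ∪ {z | (u * s) • z = z} : Set α) := by
    by_contra! hy
    have := (Set.ncard_union_le _ _).trans (add_le_add (ncard_four p q x (u • x)) (h.le3 hs.mul))
    rw [Set.eq_univ_of_forall hy, Set.ncard_univ] at this
    omega
  simp only [Set.mem_union, Set.mem_insert_iff, Set.mem_singleton_iff, Set.mem_ofPred_eq, not_or,
    mul_smul] at hy
  obtain ⟨⟨y1, y2, y3, y4⟩, y5⟩ := hy
  have y6 : u • y ≠ y := fun e => h.nf u hf.l p q y (s • y) hpq (Ne.symm y1)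
    (fun e => y2 (smul_left_cancel s (e.symm.trans s2.symm))) (Ne.symm y2)
    (fun e => y1 (smul_left_cancel s (e.symm.trans s1.symm)))
    (fun e' => y5 (by rw [← e', e])) u1 u2 e (smul_fix hs.comm.symm e)
  have y7 : s • y ≠ y := fun e => h.nf s hs.r x (u • x) y (u • y) hx.symm (Ne.symm y3)
    (fun e => y4 (by rw [e, inv_smul hf.l])) (Ne.symm y4)
    (fun e => y3 (smul_left_cancel u e.symm)) y6.symm s3 s4 e (smul_fix hs.comm e)
  obtain ⟨r1, r2, r3, r4, r5, r6⟩ := reg hf hx x2 x3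
  obtain ⟨r1', r2', r3', r4', r5', r6'⟩ := reg hs y6 y7 y5
  obtain ⟨g, g1, g2, g3, g4⟩ := four_trans h.tr r1' r2' r3' r4' r5' r6' r1 r2 r3 r4 r5 r6
  obtain ⟨k, hk⟩ := h.four_conj hf (hs.cj g) hx x2 x3
    (by rw [← g2, ← g1]; simp [mul_smul]) (by rw [← g3, ← g1]; simp [mul_smul])
    (by rw [← g4, ← g1]; simp [mul_smul])
  have fx : ∀ w ∈ ⟪u⟫ ⊔ ⟪s⟫, ∀ z : α, u • z = z → v • z = z →
      w • (k * g)⁻¹ • z = (k * g)⁻¹ • z := fun w hw z z1 z2 => by
    have : (k * g) * w * (k * g)⁻¹ ∈ stabilizer G z :=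
      hf.V_le (H := stabilizer G z) z1 z2 (hk (by
        rw [← hs.cj_V, cj_cj]; exact conj_mem_cj.2 hw))
    rw [mem_stabilizer_iff, mul_smul, mul_smul] at this
    exact eq_inv_smul_iff.2 this
  have n1 : ∀ z : α, s • z = z → p ≠ z ∧ q ≠ z :=
    fun z hz => ⟨fun e => hpq (by rw [← s1, e, hz]), fun e => hpq (by rw [← s2, e, hz])⟩
  exact h.nf u hf.l p q _ _ hpq (n1 _ (fx s hs.r_mem p u1 v1)).1 (n1 _ (fx s hs.r_mem q u2 v2)).1
    (n1 _ (fx s hs.r_mem p u1 v1)).2 (n1 _ (fx s hs.r_mem q u2 v2)).2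
    (fun e => hpq (smul_left_cancel _ e)) u1 u2 (fx u hs.l_mem p u1 v1) (fx u hs.l_mem q u2 v2)

theorem exN (hn : 8 ≤ Nat.card α) (ht : Invo t) (hab : a ≠ b) (ha : t • a = a) (hb : t • b = b) :
    ∃ (N : Subgroup G) (c : α), N ≤ stabilizer G a ⊓ stabilizer G b ∧
      N(stabilizer G a ⊓ stabilizer G b) ≤ N(N) ∧ Ab N ∧ Odd #N ∧ a ≠ c ∧ b ≠ c ∧ t • c = c ∧
      (∀ x, a ≠ x → b ≠ x → ∃ n ∈ N, n • c = x) ∧ (∀ n ∈ N, n • c = c → n = 1) ∧ Inverts t N ∧
      #N + 2 = Nat.card α := by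
  classical
  have := h.ft
  set M := stabilizer G a ⊓ stabilizer G b
  have out : ∀ g ∈ M, ∀ x, a ≠ x → b ≠ x → a ≠ g • x ∧ b ≠ g • x := fun g hg x h1 h2 =>
    ⟨fun e => h1 (smul_left_cancel g (hg.1.trans e)), fun e => h2 (smul_left_cancel g (hg.2.trans e))⟩
  have mv : ∀ g ∈ M, ∀ x, g • x ≠ x → a ≠ x ∧ b ≠ x :=
    fun g hg x hx => ⟨fun e => hx (e ▸ hg.1), fun e => hx (e ▸ hg.2)⟩
  have tM : t ∈ M := ⟨ha, hb⟩
  obtain ⟨x, hx⟩ := exists_smul_ne (α := α) ht.ne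
  obtain ⟨xa, xb⟩ := mv t tM x hx
  have hO : O[{2}ᶜ](M) ≠ ⊥ := fun e => by
    obtain ⟨y, hy⟩ := exists_notMem_of_card_lt ({a, b, x, t • x} : Finset α)
      (Finset.card_le_four.trans_lt (by omega))
    simp only [Finset.mem_insert, Finset.mem_singleton, not_or] at hy
    obtain ⟨g, g1, g2, g3, g4⟩ := four_trans h.tr hab xa (out t tM x xa xb).1 xb (out t tM x xa xb).2
      hx.symm hab xa (Ne.symm hy.1) xb (Ne.symm hy.2.1) (Ne.symm hy.2.2.1)
    have := AC.zstar_sub tM ht (fun k hk e => by_contra fun hne =>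
      h.no4 hn ⟨ht, ht.conj k, e, hne⟩ hab ha hb (mul_mem (mul_mem hk tM) (inv_mem hk)).1
        (mul_mem (mul_mem hk tM) (inv_mem hk)).2) (show g ∈ M from ⟨g1, g2⟩)
    rw [e, mem_bot, commutatorElement_eq_one_iff_mul_comm] at this
    exact hy.2.2.2 (by rw [← g4, ← mul_smul, this, mul_smul, g3])
  obtain ⟨N, hN, mn⟩ := exists_minNml hO (nrm_le_nrm_pcore _ M)
  have NM := hN.trans (pcore_le _ _)
  have ho : Odd #N := odd_iff_p'.2 ((pcore_pi _ _).mono hN)
  have ab := mn.ab (sol_odd ho)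
  have cN : ∀ g ∈ M, ∀ n ∈ N, g * n * g⁻¹ ∈ N :=
    fun g hg n hn => (mem_normalizer_iff.1 (mn.nrm (le_normalizer hg)) n).1 hn
  have tr : ∀ y z, a ≠ y → b ≠ y → a ≠ z → b ≠ z → ∃ n ∈ N, n • y = z := by
    intro y z y1 y2 z1 z2
    by_cases e : y = z
    · exact ⟨1, one_mem _, by rw [one_smul, e]⟩
    obtain ⟨n, hn, n1⟩ := exists_ne_one mn.ne
    obtain ⟨w, hw⟩ := exists_smul_ne (α := α) n1
    obtain ⟨wa, wb⟩ := mv n (NM hn) w hw
    obtain ⟨g, g1, g2, g3, g4⟩ := four_trans h.tr hab wa (out n (NM hn) w wa wb).1 wb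
      (out n (NM hn) w wa wb).2 hw.symm hab y1 z1 y2 z2 e
    exact ⟨_, cN g ⟨g1, g2⟩ n hn, by rw [← g3, ← g4]; simp [mul_smul]⟩
  have rg : ∀ y, a ≠ y → b ≠ y → ∀ n ∈ N, n • y = y → n = 1 := fun y y1 y2 n hn e =>
    eq_one_of_smul_eq (α := α) fun z => by
      by_cases z1 : a = z
      · exact z1 ▸ (NM hn).1
      by_cases z2 : b = z
      · exact z2 ▸ (NM hn).2
      obtain ⟨m, hm, rfl⟩ := tr y z y1 y2 z1 z2
      exact smul_fix (ab.comm hm hn) e
  have cd : #N = ({a, b}ᶜ : Set α).ncard := Nat.card_congr (Equiv.ofBijective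
    (fun n => ⟨n.1 • x, by simpa [eq_comm] using out n (NM n.2) x xa xb⟩)
    ⟨fun n m e => Subtype.ext (by
      have := rg x xa xb _ (mul_mem (inv_mem m.2) n.2)
        (by rw [mul_smul, inv_smul_eq_iff]; exact congrArg Subtype.val e)
      exact (inv_mul_eq_one.1 this).symm), fun ⟨z, hz⟩ => by
      simp only [Set.mem_compl_iff, Set.mem_insert_iff, Set.mem_singleton_iff, not_or] at hz
      obtain ⟨n, hn, e⟩ := tr x z xa xb (Ne.symm hz.1) (Ne.symm hz.2)
      exact ⟨⟨n, hn⟩, Subtype.ext e⟩⟩)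
  obtain ⟨c, hc, tc⟩ := exists_fixed_of_pelt (k := 1) (g := t) Nat.prime_two
    (by rw [pow_one, sq, ht.sq]) ({a, b}ᶜ : Set α) (Set.toFinite _)
    (fun z hz => by
      simp only [Set.mem_compl_iff, Set.mem_insert_iff, Set.mem_singleton_iff, not_or] at hz ⊢
      simpa [eq_comm] using out t tM z (Ne.symm hz.1) (Ne.symm hz.2))
    (cd ▸ ho.not_two_dvd_nat)
  simp only [Set.mem_compl_iff, Set.mem_insert_iff, Set.mem_singleton_iff, not_or] at hc
  have ca := Ne.symm hc.1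
  have cb := Ne.symm hc.2
  refine ⟨N, c, NM, mn.nrm, ab, ho, ca, cb, tc, fun z => tr c z ca cb, rg c ca cb, fun n hn => ?_,
    by rw [cd, Set.ncard_compl, Set.ncard_pair hab]; omega⟩
  have hm := mul_mem (cN t tM n hn) hn
  refine eq_inv_of_mul_eq_one_left (rg c ca cb _ hm (by_contra fun hne => ?_))
  refine h.nf t ht a b c _ hab ca (out _ (NM hm) c ca cb).1 cb (out _ (NM hm) c ca cb).2
    (Ne.symm hne) ha hb tc (smul_fix ?_ tc)
  rw [ab.comm (cN t tM n hn) hn]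
  nth_rw 2 [ab.comm hn (cN t tM n hn)]
  simp only [ht.inv, mul_assoc, ht.cancel, ht.sq, mul_one]

theorem cenZ (hn : 8 ≤ Nat.card α) (ht : Invo t) (hab : a ≠ b) (hac : a ≠ c) (hbc : b ≠ c)
    (ha : t • a = a) (hb : t • b = b) (hc : t • c = c) (sa : s • a = a) (sb : s • b = b)
    (sc : s • c = c) : s * t = t * s := by
  have := h.ft
  obtain ⟨N, c', NM, nr, -, -, ca, cb, tc, tr, -, iv, -⟩ := h.exN hn ht hab ha hb
  obtain rfl : c = c' := by_contra fun e => h.nf t ht a b c c' hab hac ca hbc cb e ha hb hc tc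
  refine eq_of_smul_eq_smul (α := α) fun z => ?_
  rw [mul_smul, mul_smul]
  by_cases z1 : a = z
  · rw [← z1, ha, sa, ha]
  by_cases z2 : b = z
  · rw [← z2, hb, sb, hb]
  obtain ⟨n, hn, rfl⟩ := tr z z1 z2
  have := iv _ ((mem_normalizer_iff.1 (nr (le_normalizer ⟨sa, sb⟩)) n).1 hn)
  rw [← conj_smul_of_fix hc, ← conj_smul_of_fix sc, ← conj_smul_of_fix sc, ← conj_smul_of_fix hc,
    this, iv n hn, conj_inv]

theorem core (hn : 8 ≤ Nat.card α) (hf : Fr t s) (hab : a ≠ b) (ha : t • a = a) (hb : t • b = b)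
    (sa : s • a = b) (sb : s • b = a) :
    Nat.card α = 11 ∧ 3 ≤ {x : α | (t * s) • x = x}.ncard := by
  obtain ⟨N, c, NM, nr, ab, ho, ca, cb, tc, -, rg, iv, cd⟩ := h.exN hn hf.l hab ha hb
  have sN : s ∈ N(N) := nr (mem_normalizer_fintype fun x hx => by
    have h1 : x • a = a := hx.1
    have h2 : x • b = b := hx.2
    exact ⟨by simp [hf.r.inv, mul_smul, sa, sb, h2], by simp [hf.r.inv, mul_smul, sa, sb, h1]⟩)
  have sc : s • c = c := by_contra fun e => h.nf t hf.l a b c _ hab ca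
    (fun e => cb (smul_left_cancel s (sb.trans e))) cb
    (fun e => ca (smul_left_cancel s (sa.trans e))) (Ne.symm e) ha hb tc (smul_fix hf.comm.symm tc)
  have le : ∀ w : G, w • c = c → #(N ⊓ C[w]) ≤ {x : α | w • x = x}.ncard := fun w hw =>
    Nat.card_le_card_of_injective (fun n => ⟨n.1 • c, smul_fix (mem_cen1.1 n.2.2) hw⟩)
      fun n m e => Subtype.ext (inv_mul_eq_one.1 (rg _ (mul_mem (inv_mem m.2.1) n.2.1)
        (by rw [mul_smul, inv_smul_eq_iff]; exact congrArg Subtype.val e))).symm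
  have gen : N ≤ N ⊓ C[s] ⊔ N ⊓ C[t * s] := hf.gen4 ho (iv.nrm le_rfl) sN
    (fun n hn => by
      rw [eq_one_of_inv_comm (odd_orderOf ho hn.1) (iv n hn.1) (mem_cen1.1 hn.2).symm]
      exact one_mem _) le_sup_left le_sup_right
  have dv := (card_dvd gen).trans (card_sup_dvd (inf_le_left.trans
    (ab.le_cen.trans ((cen_anti inf_le_left).trans (cen_le_nrm _)))))
  have l1 := (le s sc).trans (h.le3 hf.r)
  have l2 := le (t * s) (by rw [mul_smul, sc, tc])
  have l3 := h.le3 hf.mul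
  have o1 := Nat.odd_iff.1 (odd_of_le (inf_le_left : N ⊓ C[s] ≤ N) ho)
  have o2 := Nat.odd_iff.1 (odd_of_le (inf_le_left : N ⊓ C[t * s] ≤ N) ho)
  have := Nat.le_of_dvd (Nat.mul_pos (FT.card_pos _) (FT.card_pos _)) dv
  generalize #(N ⊓ C[s]) = i at *
  generalize #(N ⊓ C[t * s]) = j at *
  obtain rfl | rfl : i = 1 ∨ i = 3 := by omega
  · omega
  obtain rfl | rfl : j = 1 ∨ j = 3 := by omega
  · omega
  refine ⟨?_, l2⟩
  generalize #N = m at *
  have : 6 ≤ m := by omega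
  interval_cases m <;> omega

theorem ex_invo (hab : a ≠ b) (hn : 4 ≤ Nat.card α) : ∃ t : G, Invo t ∧ t • a = a ∧ t • b = b := by
  classical
  obtain ⟨c, ca, cb⟩ := exists_ne_ne (by omega) a b
  obtain ⟨d, hd⟩ := exists_notMem_of_card_lt ({a, b, c} : Finset α)
    (Finset.card_le_three.trans_lt hn)
  simp only [Finset.mem_insert, Finset.mem_singleton, not_or] at hd
  obtain ⟨g, g1, g2, g3, g4⟩ := four_trans h.tr hab ca.symm (Ne.symm hd.1) cb.symm (Ne.symm hd.2.1)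
    (Ne.symm hd.2.2) hab (Ne.symm hd.1) ca.symm (Ne.symm hd.2.1) cb.symm hd.2.2
  obtain ⟨t, ht, e⟩ := exists_invo (H := stabilizer G a ⊓ stabilizer G b) (by
    by_contra ho
    exact hd.2.2 (g3.symm.trans (fix_of_sq (odd_orderOf (Nat.odd_iff.2 (by omega))
      (show g ∈ stabilizer G a ⊓ stabilizer G b from ⟨g1, g2⟩)) (by rw [g3, g4]))))
  exact ⟨t, e, ht.1, ht.2⟩

theorem ex_invo3 (hn : 8 ≤ Nat.card α) (hab : a ≠ b) (hac : a ≠ c) (hbc : b ≠ c) :
    ∃ t : G, Invo t ∧ t • a = a ∧ t • b = b ∧ t • c = c := by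
  obtain ⟨t, ht, ha, hb⟩ := h.ex_invo hab (by omega)
  obtain ⟨-, c', -, -, -, -, ca, cb, tc, -⟩ := h.exN hn ht hab ha hb
  obtain ⟨g, g1, g2, g3⟩ := three_trans (mtrans_mono h.tr (by omega) (by omega)) hab ca cb hab hac hbc
  exact ⟨_, ht.conj g, g1 ▸ mem_stabilizer_conj.2 ha, g2 ▸ mem_stabilizer_conj.2 hb,
    g3 ▸ mem_stabilizer_conj.2 tc⟩

theorem eleven (hn : 8 ≤ Nat.card α) : Nat.card α = 11 := by
  have := h.ft
  have : Nontrivial α := Finite.one_lt_card_iff_nontrivial.1 (by omega)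
  obtain ⟨a, b, hab⟩ := exists_pair_ne α
  obtain ⟨t, ht, ha, hb⟩ := h.ex_invo hab (by omega)
  obtain ⟨x, hx⟩ := exists_smul_ne (α := α) ht.ne
  obtain ⟨s, hs, s1, s2, -⟩ := h.ex_s ht hab ha hb hx
  exact (h.core hn hs hab ha hb s1 s2).1

theorem six (hn : 8 ≤ Nat.card α) (hab : a ≠ b) (hac : a ≠ c) (had : a ≠ d) (hbc : b ≠ c)
    (hbd : b ≠ d) (hcd : c ≠ d) (ua : u • a = a) (ub : u • b = b) (uc : u • c = c)
    (ud : u • d = d) : 6 ≤ {x : α | u • x = x}.ncard := by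
  by_contra! hlt
  have ho := odd_orderOf (h.odd4 hab hac had hbc hbd hcd) (x := u) ⟨⟨⟨ua, ub⟩, uc⟩, ud⟩
  obtain ⟨r, hr, ra, rb, rc⟩ := h.ex_invo3 hn hab hac hbc
  have uy := smul_fix (h.cenZ hn hr hab hac hbc ra rb rc ua ub uc).symm ud
  have ya : a ≠ r • d := fun e => had (smul_left_cancel r (ra.trans e))
  have yb : b ≠ r • d := fun e => hbd (smul_left_cancel r (rb.trans e))
  have yc : c ≠ r • d := fun e => hcd (smul_left_cancel r (rc.trans e))
  have yd := (h.nf r hr a b c d hab hac had hbc hbd hcd ra rb rc).symm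
  generalize r • d = y at *
  have F : ∀ z, u • z = z → z = a ∨ z = b ∨ z = c ∨ z = d ∨ z = y := fun z hz => by
    have := Set.eq_of_subset_of_ncard_le (s := {a, b, c, d, y}) (t := {x : α | u • x = x})
      (by simp [Set.insert_subset_iff, *]) (by
        rw [Set.ncard_insert_of_notMem (by simp [*]), Set.ncard_insert_of_notMem (by simp [*]),
          Set.ncard_insert_of_notMem (by simp [*]), Set.ncard_pair yd]
        omega)
    exact this.ge hz
  obtain ⟨t, ht, ta, tb, ty⟩ := h.ex_invo3 hn hab ya yb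
  have ut := h.cenZ hn ht hab ya yb ta tb ty ua ub uy
  have tc := h.nf t ht a b y c hab ya hac yb hbc yc.symm ta tb ty
  have td : t • c = d := by
    rcases F _ (smul_fix ut.symm uc) with e | e | e | e | e
    exacts [absurd (smul_left_cancel t (ta.trans e.symm)) hac,
      absurd (smul_left_cancel t (tb.trans e.symm)) hbc, absurd e tc, e,
      absurd (smul_left_cancel t (e.trans ty.symm)) yc]
  obtain ⟨s, hs, sa, sb, sc, sd⟩ := h.ex_s ht hab ta tb tc
  rw [td] at sd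
  have sy : s • y = y := by_contra fun e => h.nf t ht a b y _ hab ya
    (fun e => yb (smul_left_cancel s (sb.trans e))) yb
    (fun e => ya (smul_left_cancel s (sa.trans e))) (Ne.symm e) ta tb ty (smul_fix hs.comm.symm ty)
  have us := h.cenZ hn hs.r hcd yc yd sc sd sy uc ud uy
  have uz : u * (t * s) = t * s * u := by rw [← mul_assoc, ut, mul_assoc, us, mul_assoc]
  have zy : (t * s) • y = y := by rw [mul_smul, sy, ty]
  obtain ⟨i, hi, iy⟩ := Set.exists_ne_of_one_lt_ncard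
    (lt_of_lt_of_le (by omega) (h.core hn hs hab ta tb sa sb).2) y
  have ny : ∀ z, y ≠ z → y ≠ u • z := fun z hz e => hz (smul_left_cancel u (uy.trans e))
  have ui : u • i = i := by_contra fun e => e (fix_of_sq ho (by_contra fun e' =>
    h.nf _ hs.mul y i (u • i) (u • u • i) iy.symm (ny _ iy.symm) (ny _ (ny _ iy.symm)) (Ne.symm e)
      (Ne.symm e') (fun e'' => e (smul_left_cancel u e'').symm) zy hi (smul_fix uz hi)
      (smul_fix uz (smul_fix uz hi))))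
  have hi' : t • s • i = i := (mul_smul t s i).symm.trans hi
  rcases F i ui with rfl | rfl | rfl | rfl | rfl
  · exact hab (by rw [← hi', sa, tb])
  · exact hab (by rw [← hi', sb, ta])
  · exact tc (by rw [← sc, hi', sc])
  · exact hcd (by rw [← hi', sd, ← td, inv_smul ht])
  · exact iy rfl

end Hall4

end Cfsg.Agent.H16
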