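import Mathlib
import Cfsg.Agent.H16.Hall4

/-! Groups induced on subsets by multiply transitive groups. -/

set_option autoImplicit false
set_option linter.unusedSectionVars false

namespace Cfsg.Agent.H16

open MulAction Subgroup Equiv Cfsg.Agent.FT Cfsg.Agent.GW
open scoped Pointwise

section
variable {G α : Type*} [Group G] [MulAction G α] [Finite G] [Finite α] [DecidableEq α] {j k : ℕ}
  {D : Finset α}

variable (G α) in
/-- involutions fix at most `j` points -/
def NF (j : ℕ) : Prop := ∀ t : G, Invo t → {x : α | t • x = x}.ncard ≤ j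

variable (G) in
/-- every transposition of `D` is induced -/
def Sw (D : Finset α) : Prop :=
  ∀ u ∈ D, ∀ v ∈ D, u ≠ v → ∃ g : G, ∀ x ∈ D, g • x = swap u v x

variable (G) in
/-- every product of two transpositions of `D` is induced -/
def Sw2 (D : Finset α) : Prop := ∀ a ∈ D, ∀ b ∈ D, ∀ c ∈ D, ∀ d ∈ D, a ≠ b → c ≠ d →
  ∃ g : G, ∀ x ∈ D, g • x = swap a b (swap c d x)

theorem NF.le (h : NF G α j) {t : G} (ht : Invo t) {s : Finset α} (hs : ∀ x ∈ s, t • x = x) :
    s.card ≤ j :=
  (Set.ncard_coe_finset s).ge.trans ((Set.ncard_le_ncard (s := (s : Set α)) (t := {x : α | t • x = x})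
    fun x hx => hs x hx).trans (h t ht))

theorem swap_mem {a b x : α} (ha : a ∈ D) (hb : b ∈ D) (hx : x ∈ D) : swap a b x ∈ D := by
  rw [swap_apply_def]; split_ifs <;> assumption

theorem Sw.mono (h : Sw G D) {E : Finset α} (hE : E ⊆ D) : Sw G E := fun u hu v hv huv =>
  (h u (hE hu) v (hE hv) huv).imp fun _ hg x hx => hg x (hE hx)

theorem Sw.two (h : Sw G D) : Sw2 G D := fun a ha b hb c hc d hd hab hcd => by
  obtain ⟨g, hg⟩ := h a ha b hb hab
  obtain ⟨g', hg'⟩ := h c hc d hd hcd
  exact ⟨g * g', fun x hx => by rw [mul_smul, hg' x hx, hg _ (swap_mem hc hd hx)]⟩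

theorem Sw.ind (h : Sw G D) (σ : Perm D) : ∃ g : G, ∀ x : D, g • (x : α) = σ x := by
  induction σ using Perm.swap_induction_on with
  | one => exact ⟨1, fun x => one_smul _ _⟩
  | swap_mul f u v huv ih =>
    obtain ⟨g, hg⟩ := ih
    obtain ⟨g', hg'⟩ := h u u.2 v v.2 fun e => huv (Subtype.ext e)
    exact ⟨g' * g, fun x => by
      rw [mul_smul, hg, hg' _ (f x).2, Perm.mul_apply, Subtype.val_injective.map_swap]⟩

theorem Sw2.ind (h : Sw2 G D) (σ : Perm D) (hσ : Perm.sign σ = 1) :
    ∃ g : G, ∀ x : D, g • (x : α) = σ x := by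
  suffices (Perm.sign σ = 1 → ∃ g : G, ∀ x : D, g • (x : α) = σ x) ∧ (Perm.sign σ = -1 →
    ∀ u v : D, u ≠ v → ∃ g : G, ∀ x : D, g • (x : α) = (swap u v * σ) x) from this.1 hσ
  clear hσ
  induction σ using Perm.swap_induction_on with
  | one => exact ⟨fun _ => ⟨1, fun x => one_smul _ _⟩, fun e => by simp at e⟩
  | swap_mul f u v huv ih =>
    rw [map_mul, Perm.sign_swap huv]
    refine ⟨fun e => ih.2 (by rw [← neg_neg (Perm.sign f), ← e]; simp) u v huv, fun e a b hab => ?_⟩
    obtain ⟨g, hg⟩ := ih.1 (by simpa using e)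
    obtain ⟨g', hg'⟩ := h a a.2 b b.2 u u.2 v v.2 (fun e => hab (Subtype.ext e))
      fun e => huv (Subtype.ext e)
    exact ⟨g' * g, fun x => by
      rw [mul_smul, hg, hg' _ (f x).2, Perm.mul_apply, Perm.mul_apply,
        Subtype.val_injective.map_swap, Subtype.val_injective.map_swap]⟩

theorem Sw.mtrans (h : Sw G D) (hD : D.card = k) (hh : IsPretransitive G (Set.powersetCard α k)) :
    IsMultiplyPretransitive G α k := by
  have mv : ∀ x : Fin k → α, Function.Injective x →
      ∃ (g : G) (e : Fin k ≃ D), ∀ i, g • x i = e i := fun x hx => by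
    obtain ⟨g, hg⟩ := homog_iff.1 hh (Finset.univ.image x) D
      (by simp [Finset.card_image_of_injective _ hx]) hD
    exact ⟨g, Equiv.ofBijective
      (fun i => ⟨g • x i, hg ▸ Finset.smul_mem_smul_finset (by simp)⟩)
      ((Fintype.bijective_iff_injective_and_card _).2
        ⟨fun i j e => hx (smul_left_cancel g (congrArg Subtype.val e)), by simp [hD]⟩),
      fun _ => rfl⟩
  refine mtrans_iff.2 fun x y hx hy => ?_
  obtain ⟨g, e, he⟩ := mv x hx
  obtain ⟨g', e', he'⟩ := mv y hy
  obtain ⟨l, hl⟩ := h.ind (e.symm.trans e')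
  exact ⟨g'⁻¹ * l * g, fun i => by
    rw [mul_smul, mul_smul, he, hl, inv_smul_eq_iff, he']; simp⟩

theorem swap_of_invo {z : G} (hz : Invo z) {u v : α} (e : z • u = v)
    (h : ∀ x ∈ D, x ≠ u → x ≠ v → z • x = x) : ∀ x ∈ D, z • x = swap u v x := fun x hx => by
  rw [swap_apply_def]
  split_ifs with h1 h2
  · rw [h1, e]
  · rw [h2, ← e, inv_smul hz]
  · exact h x hx h1 h2

theorem sw_of_nf [FaithfulSMul G α] (hj : 3 ≤ j) (hn : j ≤ Nat.card α) (h : NF G α j)
    (he : ∀ s : Finset α, s.card = j → 2 ∣ #(fixingSubgroup G (s : Set α))) :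
    ∃ D : Finset α, D.card = j + 2 ∧ Sw G D := by
  have := Fintype.ofFinite α
  obtain ⟨s, -, hs⟩ := Finset.exists_subset_card_eq (s := Finset.univ) (n := j) (by simpa using hn)
  obtain ⟨z, hz, z2⟩ := exists_invo (he s hs)
  replace hz := mem_fixing.1 hz
  obtain ⟨a, ha⟩ := exists_smul_ne (α := α) z2.ne
  have as : a ∉ s := fun e => ha (hz a e)
  have bs : z • a ∉ s := fun e => ha (by rw [← hz _ e, inv_smul z2])
  set D := insert a (insert (z • a) s)
  have hD : D.card = j + 2 := by
    rw [Finset.card_insert_of_notMem (by simp [as, ha.symm]), Finset.card_insert_of_notMem bs, hs]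
  let T : α → α → Prop := fun u v =>
    ∃ z : G, Invo z ∧ z • u = v ∧ ∀ x ∈ D, x ≠ u → x ≠ v → z • x = x
  have cd : ∀ u ∈ D, ∀ v ∈ D, u ≠ v → (D \ {u, v}).card = j := fun u hu v hv huv => by
    rw [Finset.card_sdiff_of_subset (by simp [Finset.insert_subset_iff, hu, hv]), hD,
      Finset.card_pair huv]; rfl
  have step : ∀ a ∈ D, ∀ b ∈ D, ∀ u ∈ D, ∀ v ∈ D, a ≠ b → u ≠ v → u ≠ a → u ≠ b → v ≠ a → v ≠ b →
      T a b → T u v := by
    rintro a ha _ hb u hu v hv hab huv ua ub va vb ⟨z, z2, rfl, hz⟩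
    obtain ⟨y, hy, y2, e⟩ := cen_invo z2.sq (X := fixingSubgroup G ((D \ {u, v} : Finset α) : Set α))
      (mem_normalizer_fintype fun x hx => mem_fixing.2 fun w hw => by
        have : z • w ∈ D \ {u, v} := by
          by_cases e1 : w = a
          · simp [e1, hb, ub.symm, vb.symm]
          by_cases e2 : w = z • a
          · simp [e2, inv_smul z2, ha, ua.symm, va.symm]
          · rwa [hz w (Finset.mem_sdiff.1 hw).1 e1 e2]
        rw [z2.inv, mul_smul, mul_smul, mem_fixing.1 hx _ this, inv_smul z2]) (he _ (cd u hu v hv huv))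
    replace hy := mem_fixing.1 hy
    refine ⟨y, y2, ?_, fun x hx h1 h2 => hy x (by simp [*])⟩
    have h1 : y • u ∈ D \ {a, z • a} := by
      by_contra hn
      have := h.le z2 (s := insert (y • u) (D \ {a, z • a})) fun x hx => by
        rcases Finset.mem_insert.1 hx with rfl | hx
        · exact smul_fix e.symm (hz u hu ua ub)
        · simp only [Finset.mem_sdiff, Finset.mem_insert, Finset.mem_singleton, not_or] at hx
          exact hz x hx.1 hx.2.1 hx.2.2
      rw [Finset.card_insert_of_notMem hn, cd a ha _ hb hab] at this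
      omega
    have h2 : y • u ≠ u := fun e' => by
      have := h.le y2 (s := insert u (D \ {u, v})) fun x hx => by
        rcases Finset.mem_insert.1 hx with rfl | hx
        exacts [e', hy x hx]
      rw [Finset.card_insert_of_notMem (by simp), cd u hu v hv huv] at this
      omega
    by_contra h3
    exact h2 (by rw [← hy (y • u) (by simp [h2, h3, (Finset.mem_sdiff.1 h1).1]), inv_smul y2])
  have aD : a ∈ D := by simp [D]
  have bD : z • a ∈ D := by simp [D]
  have T0 : T a (z • a) := ⟨z, z2, rfl, fun x hx h1 h2 => hz x (by simpa [D, h1, h2] using hx)⟩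
  refine ⟨D, hD, fun u hu v hv huv => ?_⟩
  obtain ⟨y, y2, e, hy⟩ : T u v := by
    by_cases hc : u ≠ a ∧ u ≠ z • a ∧ v ≠ a ∧ v ≠ z • a
    · exact step a aD _ bD u hu v hv ha.symm huv hc.1 hc.2.1 hc.2.2.1 hc.2.2.2 T0
    have : ({a, z • a, u, v} : Finset α).card ≤ 3 := by
      refine le_trans (Finset.card_le_card ?_) (Finset.card_le_three (a := a) (b := z • a)
        (c := if u = a ∨ u = z • a then v else u))
      intro x
      simp only [Finset.mem_insert, Finset.mem_singleton]
      split_ifs <;> grind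
    obtain ⟨c, hc, d, hd, hcd⟩ := Finset.one_lt_card.1 (lt_of_lt_of_le (by omega)
      (Finset.le_card_sdiff {a, z • a, u, v} D))
    simp only [Finset.mem_sdiff, Finset.mem_insert, Finset.mem_singleton, not_or] at hc hd
    exact step c hc.1 d hd.1 u hu v hv hcd huv (Ne.symm hc.2.2.2.1) (Ne.symm hd.2.2.2.1)
      (Ne.symm hc.2.2.2.2) (Ne.symm hd.2.2.2.2)
      (step a aD _ bD c hc.1 d hd.1 ha.symm hcd hc.2.1 hc.2.2.1 hd.2.1 hd.2.2.1 T0)
  exact ⟨y, swap_of_invo y2 e hy⟩

theorem even_fixing (hG : IsMultiplyPretransitive G α j) {t : G} (ht : Invo t)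
    (h : j ≤ {x : α | t • x = x}.ncard) (s : Finset α) (hs : s.card = j) :
    2 ∣ #(fixingSubgroup G (s : Set α)) := by
  obtain ⟨r, hr, e⟩ := Set.exists_subset_card_eq h
  lift r to Finset α using Set.toFinite r
  rw [card_fixing_eq hG hs (Set.ncard_coe_finset r ▸ e)]
  exact ht.two_dvd (mem_fixing.2 hr)

theorem deg_of_nf [FaithfulSMul G α] (hG : IsMultiplyPretransitive G α k) (hk : 4 ≤ k)
    (hn : k < Nat.card α) (h : NF G α (k - 2)) : Nat.card α = k + 2 := by
  obtain ⟨s, -, hs⟩ := Set.exists_subset_card_eq (s := (Set.univ : Set α)) (n := k - 4)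
    (by rw [Set.ncard_univ]; omega)
  have c := card_ofFixingSubgroup (G := G) s
  rw [Set.ncard_compl, hs] at c
  have n3 : ∀ t : fixingSubgroup G s, Invo t → ∀ a b c : SubMulAction.ofFixingSubgroup G s, a ≠ b →
      a ≠ c → b ≠ c → t • a = a → t • b = b → t • c ≠ c := fun t ht a b c h1 h2 h3 ha hb hc => by
    have := (Set.ncard_le_ncard (s := s ∪ {a.1, b.1, c.1}) (by
      rintro x (hx | rfl | rfl | rfl)
      exacts [(mem_fixingSubgroup_iff G).1 t.2 x hx, congrArg Subtype.val ha,
        congrArg Subtype.val hb, congrArg Subtype.val hc])).trans (h t (by simpa [Invo] using ht))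
    rw [Set.ncard_union_eq (Set.disjoint_right.2 (by
      rintro x (rfl | rfl | rfl); exacts [a.2, b.2, c.2])), hs,
      Set.ncard_eq_three.2 ⟨_, _, _, Subtype.coe_ne_coe.2 h1, Subtype.coe_ne_coe.2 h2,
        Subtype.coe_ne_coe.2 h3, rfl⟩] at this
    omega
  have H : Hall4 (fixingSubgroup G s) (SubMulAction.ofFixingSubgroup G s) :=
    ⟨faithful_ofFixingSubgroup s,
      SubMulAction.ofFixingSubgroup.isMultiplyPretransitive G (n := k) s (by omega),
      fun t ht a b c _ h1 h2 _ h4 _ _ ha hb hc => absurd hc (n3 t ht a b c h1 h2 h4 ha hb)⟩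
  have : Nontrivial (SubMulAction.ofFixingSubgroup G s) :=
    Finite.one_lt_card_iff_nontrivial.1 (by omega)
  obtain ⟨a, b, hab⟩ := exists_pair_ne (SubMulAction.ofFixingSubgroup G s)
  have h8 : ¬ 8 ≤ Nat.card (SubMulAction.ofFixingSubgroup G s) := fun h8 => by
    have := H.eleven h8
    obtain ⟨c, ca, cb⟩ := exists_ne_ne (by omega) a b
    obtain ⟨t, ht, ha, hb, hc⟩ := H.ex_invo3 h8 hab ca.symm cb.symm
    exact n3 t ht a b c hab ca.symm cb.symm ha hb hc
  obtain ⟨t, ht, ha, hb⟩ := H.ex_invo hab (by omega)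
  by_contra hne
  obtain ⟨c, hc, tc⟩ := exists_fixed_of_pelt (k := 1) (g := t) Nat.prime_two
    (by rw [pow_one, sq, ht.sq]) {a, b}ᶜ (Set.toFinite _)
    (fun z hz => by
      simp only [Set.mem_compl_iff, Set.mem_insert_iff, Set.mem_singleton_iff, not_or] at hz ⊢
      exact ⟨fun e => hz.1 (smul_left_cancel t (e.trans ha.symm)),
        fun e => hz.2 (smul_left_cancel t (e.trans hb.symm))⟩)
    (by rw [Set.ncard_compl, Set.ncard_pair hab]; omega)
  simp only [Set.mem_compl_iff, Set.mem_insert_iff, Set.mem_singleton_iff, not_or] at hc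
  exact n3 t ht a b c hab (Ne.symm hc.1) (Ne.symm hc.2) ha hb tc

end

section
variable {α : Type*} [Fintype α] [DecidableEq α] {G : Subgroup (Perm α)} {k : ℕ}

theorem eq_alt_of_le [Nontrivial α] (h : alternatingGroup α ≤ G) (hne : G ≠ ⊤) :
    G = alternatingGroup α := by
  have := index_dvd_of_le h
  rw [alternatingGroup.index_eq_two, Nat.dvd_prime Nat.prime_two, index_eq_one] at this
  exact Perm.eq_alternatingGroup_of_index_eq_two (this.resolve_left hne)

theorem ncard_fix (g : Perm α) : {x | g x = x}.ncard + g.support.card = Fintype.card α := by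
  rw [← Finset.card_compl_add_card g.support, ← Set.ncard_coe_finset g.supportᶜ]
  congr 2
  ext x; simp

end

universe v in
theorem exists_sw2 {k : ℕ} (hk : 4 ≤ k) (n : ℕ) : ∀ (α : Type v) [Fintype α] [DecidableEq α]
    (G : Subgroup (Perm α)), Nat.card α = n → k < n → IsMultiplyPretransitive G α k →
    ∃ D : Finset α, D.card = k + 1 ∧ Sw2 G D := by
  induction n using Nat.strong_induction_on with | _ n ih =>
  intro α _ _ G hn hkn hG
  obtain ⟨Q, ⟨hQ, hF⟩, mx⟩ := Set.Finite.exists_maximal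
    (s := {Q : Subgroup G | IsPGroup 2 Q ∧ k < (fixedPoints Q α).ncard}) (Set.toFinite _)
    ⟨⊥, IsPGroup.of_bot, by
      rw [Set.eq_univ_of_forall (s := fixedPoints _ α) fun x g => by
        rw [Subsingleton.elim g 1, one_smul], Set.ncard_univ]; omega⟩
  have mF : ∀ (R : Subgroup G) x, x ∈ fixedPoints R α ↔ ∀ g ∈ R, g • x = x :=
    fun R x => ⟨fun h g hg => h ⟨g, hg⟩, fun h g => h g g.2⟩
  by_cases h0 : Q = ⊥
  · subst h0
    have nk : NF G α k := fun t ht => by
      by_contra! hlt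
      refine ht.ne (mem_bot.1 (mx (y := ⟪t⟫) ⟨ht.pGrp.isPGroup, hlt.trans_le (Set.ncard_le_ncard
        fun x hx => (mF _ _).2 (zpowers_le (H := stabilizer G x).2 hx))⟩ bot_le (mem_zpowers t)))
    by_cases h1 : NF G α (k - 1)
    swap
    · simp only [NF, not_forall, not_le] at h1
      obtain ⟨t, ht, h1⟩ := h1
      obtain ⟨D, hD, h⟩ := sw_of_nf (by omega) (by omega) nk (even_fixing hG ht (by omega))
      obtain ⟨E, hE, e⟩ := Finset.exists_subset_card_eq (s := D) (n := k + 1) (by omega)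
      exact ⟨E, e, (h.mono hE).two⟩
    by_cases h2 : NF G α (k - 2)
    swap
    · simp only [NF, not_forall, not_le] at h2
      obtain ⟨t, ht, h2⟩ := h2
      obtain ⟨D, hD, h⟩ := sw_of_nf (by omega) (by omega) h1
        (even_fixing (mtrans_mono hG (by omega) (by omega)) ht (by omega))
      exact ⟨D, by omega, h.two⟩
    have := deg_of_nf hG hk (by omega) h2
    have A := IsMultiplyPretransitive.alternatingGroup_le α G (by rwa [this])
    obtain ⟨D, -, hD⟩ := Finset.exists_subset_card_eq (s := (Finset.univ : Finset α)) (n := k + 1)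
      (by rw [Finset.card_univ, ← Nat.card_eq_fintype_card]; omega)
    exact ⟨D, hD, fun a _ b _ c _ d _ hab hcd =>
      ⟨⟨swap a b * swap c d, A (by simp [hab, hcd])⟩, fun _ _ => rfl⟩⟩
  classical
  let F : SubMulAction N(Q) α := ⟨fixedPoints Q α, fun g x hx => (mF _ _).2 fun q hq => by
    have := (mF _ _).1 hx _ ((mem_normalizer_iff.1 (inv_mem g.2) q).1 hq)
    rwa [inv_inv, mul_smul, mul_smul, inv_smul_eq_iff] at this⟩
  have cF : Nat.card F = (fixedPoints Q α).ncard := rfl
  have tr : IsMultiplyPretransitive N(Q) F k := by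
    by_cases hS : ∃ s : Finset F, s.card = k ∧
      H4.IsSylowIn 2 Q (fixingSubgroup G (Subtype.val '' (s : Set F)))
    · obtain ⟨s, hs, hS⟩ := hS
      obtain ⟨e⟩ : Nonempty (Fin k ≃ s) := ⟨(s.equivFinOfCardEq hs).symm⟩
      have mv : ∀ x : Fin k → F, Function.Injective x → ∃ g : N(Q), ∀ i, g • (e i : F) = x i := by
        intro x hx
        obtain ⟨y, hy⟩ := mtrans_iff.1 hG (fun i => (e i : F)) (fun i => x i)
          (Subtype.val_injective.comp (Subtype.val_injective.comp e.injective))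
          (Subtype.val_injective.comp hx)
        obtain ⟨z, hz, h⟩ := witt_fixing hS y (by
          rintro q hq _ ⟨w, hw, rfl⟩
          obtain ⟨i, hi⟩ := e.surjective ⟨w, hw⟩
          rw [show w = e i from by rw [hi], hy]
          exact (mF _ _).1 (x i).2 q hq)
        exact ⟨⟨z, hz⟩, fun i => Subtype.ext ((h _ ⟨_, (e i).2, rfl⟩).trans (hy i))⟩
      refine mtrans_iff.2 fun x y hx hy => ?_
      obtain ⟨g, hg⟩ := mv x hx
      obtain ⟨g', hg'⟩ := mv y hy
      exact ⟨g' * g⁻¹, fun i => by rw [mul_smul, ← hg, inv_smul_smul, hg']⟩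
    push Not at hS
    refine gleason Nat.prime_two (cF ▸ hF) fun s hs => ?_
    have le : Q ≤ fixingSubgroup G (Subtype.val '' (s : Set F)) := fun q hq =>
      (mem_fixingSubgroup_iff G).2 (by rintro _ ⟨w, -, rfl⟩; exact (mF _ _).1 w.2 q hq)
    obtain ⟨P, hP, QP⟩ := H4.IsSylowIn.exists_le hQ le
    have lt := H4.lt_inf_normalizer_of_isPGroup hP.isPGroup
      (lt_of_le_of_ne QP fun e => hS s hs (e ▸ hP))
    have pR := hP.isPGroup.to_le (inf_le_left : P ⊓ N(Q) ≤ P)
    have fx : ∀ g ∈ P ⊓ N(Q), ∀ w ∈ s, g • (w : α) = w :=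
      fun g hg w hw => (mem_fixingSubgroup_iff G).1 (hP.le hg.1) _ ⟨w, hw, rfl⟩
    refine ⟨(P ⊓ N(Q)).subgroupOf N(Q), pR.comap_subtype, fun x => ⟨fun hx => by_contra fun hs' =>
      lt.not_ge (mx ⟨pR, ?_⟩ lt.le), fun hx g hg => Subtype.ext (fx g hg x hx)⟩⟩
    refine lt_of_lt_of_le ?_ (Set.ncard_le_ncard (s := Subtype.val '' (↑(insert x s) : Set F)) ?_)
    · rw [Set.ncard_image_of_injective _ Subtype.val_injective, Set.ncard_coe_finset,
        Finset.card_insert_of_notMem hs']; omega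
    · rintro _ ⟨w, hw, rfl⟩
      refine (mF _ _).2 fun g hg => ?_
      rcases Finset.mem_insert.1 hw with rfl | hw
      · exact congrArg Subtype.val (hx ⟨g, hg.2⟩ hg)
      · exact fx g hg w hw
  have := Fintype.ofFinite F
  obtain ⟨D, hD, h⟩ := ih (Nat.card F) (by
    obtain ⟨q, hq, q1⟩ := exists_ne_one h0
    obtain ⟨x, hx⟩ := exists_smul_ne (α := α) q1
    rw [cF, ← hn, ← Set.ncard_univ]
    exact Set.ncard_lt_ncard (Set.ssubset_univ_iff.2 fun e =>
      hx ((mF _ _).1 (e ▸ Set.mem_univ x) q hq))) F (toPermHom N(Q) F).range rfl (cF ▸ hF)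
    (mtrans_range_iff.2 tr)
  refine ⟨D.map ⟨_, Subtype.val_injective⟩, by simpa using hD, ?_⟩
  simp only [Sw2, Finset.forall_mem_map, Function.Embedding.coeFn_mk]
  intro a ha b hb c hc d hd hab hcd
  obtain ⟨⟨_, g, rfl⟩, hg⟩ := h a ha b hb c hc d hd (fun e => hab (e ▸ rfl)) fun e => hcd (e ▸ rfl)
  exact ⟨g, fun x hx => by
    rw [← Subtype.val_injective.map_swap, ← Subtype.val_injective.map_swap, ← hg x hx]; rfl⟩

theorem deg_of_homog {α : Type*} [Fintype α] [DecidableEq α] {G : Subgroup (Perm α)} {k : ℕ}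
    (hk : 4 ≤ k) (hn : k < Nat.card α) (hG : IsMultiplyPretransitive G α k)
    (hh : IsPretransitive G (Set.powersetCard α (k + 1)))
    (h : ¬ IsMultiplyPretransitive G α (k + 1)) : Nat.card α = k + 2 := by
  refine deg_of_nf hG hk hn fun t ht => by_contra fun hlt => h ?_
  obtain ⟨D, hD, h2⟩ := exists_sw2 hk _ α G rfl hn hG
  obtain ⟨s, hs, e⟩ := Set.exists_subset_card_eq (show k - 1 ≤ {x : α | t • x = x}.ncard by omega)
  lift s to Finset α using Set.toFinite s
  rw [Set.ncard_coe_finset] at e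
  obtain ⟨a, ha⟩ := exists_smul_ne (α := α) ht.ne
  have as : a ∉ s := fun e => ha (hs e)
  have bs : t • a ∉ s := fun e => ha (by rw [← hs e, inv_smul ht])
  obtain ⟨g, hg⟩ := homog_iff.1 hh (insert a (insert (t • a) s)) D (by
    rw [Finset.card_insert_of_notMem (by simp [as, ha.symm]), Finset.card_insert_of_notMem bs]
    omega) hD
  have aD : g • a ∈ D := hg ▸ Finset.smul_mem_smul_finset (by simp)
  have bD : g • t • a ∈ D := hg ▸ Finset.smul_mem_smul_finset (by simp)
  have sw := swap_of_invo (D := D) (ht.conj g) (u := g • a) (v := g • t • a) (by simp [mul_smul])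
    fun x hx h1 h2 => by
      obtain ⟨y, hy, rfl⟩ := Finset.mem_smul_finset.1 (hg ▸ hx)
      have y1 : y ≠ a := fun e => h1 (by rw [e])
      have y2 : y ≠ t • a := fun e => h2 (by rw [e])
      exact mem_stabilizer_conj.2 (hs (by simpa [y1, y2] using hy))
  refine Sw.mtrans (fun u hu v hv huv => ?_) hD hh
  obtain ⟨l, hl⟩ := h2 u hu v hv _ aD _ bD huv fun e => ha (smul_left_cancel g e).symm
  exact ⟨l * (g * t * g⁻¹), fun x hx => by
    rw [mul_smul, sw x hx, hl _ (swap_mem aD bD hx), swap_apply_self]⟩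

end Cfsg.Agent.H16
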