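import Mathlib
import Cfsg.Agent.H10.AutPSL2
import Cfsg.Agent.H10.SL2b
import Cfsg.Agent.H16.Basic

/-!
# Automorphisms and Sylow subgroups of `SL₂(p)`
-/

set_option autoImplicit false

namespace Cfsg.Agent.H16.SwE

open Matrix MulAction Cfsg.Agent.H10
open scoped MatrixGroups

theorem syl_two_trans {G : Type*} [Group G] [Finite G] {p : ℕ} [hp : Fact p.Prime]
    (h : Nat.card (Sylow p G) = p + 1) : IsMultiplyPretransitive G (Sylow p G) 2 := by
  obtain ⟨P⟩ : Nonempty (Sylow p G) := inferInstance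
  refine two_trans_of_one inferInstance P fun c d hc hd => ?_
  have hsub : orbit (P : Subgroup G) c ⊆ {P}ᶜ := by
    rintro _ ⟨g, rfl⟩ e
    refine hc ?_
    have e1 : (g : G) • c = P := e
    have e2 : (g : G) • P = P := Sylow.smul_eq_iff_mem_normalizer.mpr (Subgroup.le_normalizer g.2)
    exact smul_left_cancel (g : G) (e1.trans e2.symm)
  have hcard : ({P}ᶜ : Set (Sylow p G)).ncard = p := by
    have := Set.ncard_add_ncard_compl ({P} : Set (Sylow p G))
    rw [Set.ncard_singleton, h] at this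
    omega
  obtain ⟨k, hk⟩ := P.isPGroup'.card_orbit c
  have hk0 : k ≠ 0 := by
    rintro rfl
    have hfix : c ∈ fixedPoints (P : Subgroup G) (Sylow p G) := fun g => by
      rw [pow_zero] at hk
      have := (Nat.card_eq_one_iff_unique.mp hk).1
      exact congrArg Subtype.val
        (Subsingleton.elim (⟨_, mem_orbit c g⟩ : orbit (P : Subgroup G) c) ⟨_, mem_orbit_self c⟩)
    exact hc (Sylow.ext (P.is_maximal' c.isPGroup'
      (P.isPGroup'.sylow_mem_fixedPoints_iff.mp hfix)))
  have heq : orbit (P : Subgroup G) c = {P}ᶜ := by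
    refine Set.eq_of_subset_of_ncard_le hsub ?_
    rw [hcard, ← Nat.card_coe_set_eq, hk]
    exact Nat.le_self_pow hk0 p
  obtain ⟨g, hg⟩ : d ∈ orbit (P : Subgroup G) c := heq ▸ hd
  exact ⟨g, Sylow.smul_eq_iff_mem_normalizer.mpr (Subgroup.le_normalizer g.2), hg⟩

variable {F : Type*} [Field F]

theorem xT_zero : xT (0 : F) = 1 := Subtype.ext (by rw [xT_val]; exact (one_fin_two).symm)

theorem yT_zero : yT (0 : F) = 1 := Subtype.ext (by rw [yT_val]; exact (one_fin_two).symm)

theorem xT_pow (t : F) (k : ℕ) : xT t ^ k = xT (k * t) := by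
  induction k with
  | zero => simp [xT_zero]
  | succ k ih => rw [pow_succ, ih, ← xT_add, Nat.cast_succ, add_mul, one_mul]

theorem yT_pow (t : F) (k : ℕ) : yT t ^ k = yT (k * t) := by
  induction k with
  | zero => simp [yT_zero]
  | succ k ih => rw [pow_succ, ih, ← yT_add, Nat.cast_succ, add_mul, one_mul]

theorem sl_ind (P : SL(2, F) → Prop) (hx : ∀ t, P (xT t)) (hy : ∀ t, P (yT t))
    (hmul : ∀ A B, P A → P B → P (A * B)) (A : SL(2, F)) : P A := by
  refine SL_transvection_induction P (xT_zero (F := F) ▸ hx 0) (fun i j hij a => ?_) hmul A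
  have key : ∀ A B : SL(2, F), A.1 = B.1 → P B → P A := fun A B h h' => by rwa [Subtype.ext h]
  fin_cases i <;> fin_cases j
  · exact (hij rfl).elim
  · refine key _ _ ?_ (hx a)
    rw [xT_val]; ext i j; fin_cases i <;> fin_cases j <;>
      simp [SpecialLinearGroup.transvection, Matrix.transvection]
  · refine key _ _ ?_ (hy a)
    rw [yT_val]; ext i j; fin_cases i <;> fin_cases j <;>
      simp [SpecialLinearGroup.transvection, Matrix.transvection]
  · exact (hij rfl).elim

theorem center_sq {c : SL(2, F)} (hc : c ∈ Subgroup.center SL(2, F)) : c ^ 2 = 1 := by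
  obtain ⟨r, hr, e⟩ := Matrix.SpecialLinearGroup.mem_center_iff.mp hc
  refine Subtype.ext ?_
  rw [Matrix.SpecialLinearGroup.coe_pow, ← e, ← map_pow]
  rw [Fintype.card_fin] at hr
  rw [hr, map_one]; rfl

theorem aut_sl2 [Fintype F] {p : ℕ} [hp : Fact p.Prime] [CharP F p] (h2 : p ≠ 2)
    (hF : Fintype.card F = p) (β : MulAut SL(2, F)) : ∃ M : GL (Fin 2) F, β = slDiag M := by
  obtain ⟨M, τ, h⟩ := aut_PSL2 (autBar _ β)
  have hτ : τ = 1 := by
    have := (ringAut_cyclic_card (F := F) (p := p) (f := 1) (by rw [hF, pow_one])).2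
    exact (Nat.card_eq_one_iff_unique.mp this).1.elim _ _
  rw [hτ, map_one, mul_one] at h
  have key : ∀ g : SL(2, F), g ^ p = 1 → β g = slDiag M g := fun g hg => by
    have hc := QuotientGroup.eq.1 (show (QuotientGroup.mk (β g) : PSL(2, F)) =
      QuotientGroup.mk (slDiag M g) from DFunLike.congr_fun h (QuotientGroup.mk g))
    set c := (β g)⁻¹ * slDiag M g with hcd
    have e : slDiag M g = β g * c := by rw [hcd, mul_inv_cancel_left]
    have e2 := congrArg (· ^ p) e
    simp only [← map_pow, hg, map_one] at e2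
    rw [Commute.mul_pow (Subgroup.mem_center_iff.1 hc _), ← map_pow, hg, map_one, one_mul] at e2
    obtain ⟨k, hk⟩ := hp.out.odd_of_ne_two h2
    rw [hk, pow_succ, pow_mul, center_sq hc, one_pow, one_mul] at e2
    rw [e, ← e2, mul_one]
  refine ⟨M, MulEquiv.ext (sl_ind _ (fun t => key _ ?_) (fun t => key _ ?_)
    fun a b ha hb => by rw [map_mul, map_mul, ha, hb])⟩
  · rw [xT_pow, CharP.cast_eq_zero, zero_mul, xT_zero]
  · rw [yT_pow, CharP.cast_eq_zero, zero_mul, yT_zero]

theorem two_ne_zero_of {p : ℕ} [hp : Fact p.Prime] [CharP F p] (h2 : p ≠ 2) : (2 : F) ≠ 0 :=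
  fun e => h2 ((Nat.prime_dvd_prime_iff_eq hp.out Nat.prime_two).mp
    ((CharP.cast_eq_zero_iff F p 2).mp (by simpa using e)))

theorem card_syl [Fintype F] {p : ℕ} [hp : Fact p.Prime] [CharP F p] (h2 : p ≠ 2)
    (hF : Fintype.card F = p) : Nat.card (Sylow p SL(2, F)) = p + 1 := by
  have hle : Nat.card (Sylow p SL(2, F)) ≤ p + 1 := by
    choose f hf using fun P : Sylow p SL(2, F) => exists_sylow_eq_USL P
    have : Finite (PL F) := Nat.finite_of_card_ne_zero (by rw [card_PL]; omega)
    have := Nat.card_le_card_of_injective f fun P Q e => Sylow.ext (by rw [hf, hf, e])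
    rwa [card_PL, Nat.card_eq_fintype_card (α := F), hF] at this
  have hne : Nat.card (Sylow p SL(2, F)) ≠ 1 := fun h1 => by
    have hs := (Nat.card_eq_one_iff_unique.mp h1).1
    obtain ⟨P⟩ : Nonempty (Sylow p SL(2, F)) := inferInstance
    have key : ∀ g : SL(2, F), g ^ p = 1 → g ∈ P := fun g hg => by
      have : IsPGroup p (Subgroup.zpowers g) := by
        rintro ⟨_, k, rfl⟩
        refine ⟨1, Subtype.ext ?_⟩
        change (g ^ k) ^ p ^ 1 = 1
        rw [pow_one, ← zpow_natCast, ← _root_.zpow_mul, mul_comm, _root_.zpow_mul, zpow_natCast, hg,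
          _root_.one_zpow]
      obtain ⟨Q, hQ⟩ := this.exists_le_sylow
      rw [hs.elim P Q]
      exact hQ (Subgroup.mem_zpowers g)
    have hall : ∀ g, g ∈ P := sl_ind _
      (fun t => key _ (by rw [xT_pow, CharP.cast_eq_zero, zero_mul, xT_zero]))
      (fun t => key _ (by rw [yT_pow, CharP.cast_eq_zero, zero_mul, yT_zero]))
      fun a b ha hb => (P : Subgroup SL(2, F)).mul_mem ha hb
    obtain ⟨k, hk⟩ := P.isPGroup' ⟨-1, hall _⟩
    have e : (-1 : SL(2, F)) ^ p ^ k = 1 := congrArg Subtype.val hk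
    rw [((hp.out.odd_of_ne_two h2).pow).neg_one_pow] at e
    have e2 := congrFun (congrFun (congrArg Subtype.val e) 0) 0
    refine two_ne_zero_of (F := F) h2 ?_
    simp at e2
    linear_combination -e2
  have hmod := card_sylow_modEq_one p SL(2, F)
  have hpos : 0 < Nat.card (Sylow p SL(2, F)) := Nat.card_pos
  have hd := (Nat.modEq_iff_dvd' hpos).mp hmod.symm
  have := Nat.le_of_dvd (by omega) hd
  omega

theorem card_conic [Finite F] (h2 : (2 : F) ≠ 0) {c : F} (hc : c ≠ 0) :
    Nat.card {v : F × F // v.1 ^ 2 - c * v.2 ^ 2 = 1} ≤ Nat.card F + 1 := by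
  classical
  rw [← Finite.card_option]
  refine Nat.card_le_card_of_injective
    (fun v => if v.1.1 = -1 then none else some (v.1.2 / (v.1.1 + 1))) ?_
  have k0 : ∀ x y : F, x ^ 2 - c * y ^ 2 = 1 → x = -1 → y = 0 := fun x y h e => by
    rw [e] at h
    have : c * y ^ 2 = 0 := by linear_combination -h
    exact pow_eq_zero_iff two_ne_zero |>.mp ((mul_eq_zero.mp this).resolve_left hc)
  have k1 : ∀ x y t : F, x ^ 2 - c * y ^ 2 = 1 → x + 1 ≠ 0 → y = t * (x + 1) →
      x * (1 - c * t ^ 2) = 1 + c * t ^ 2 := fun x y t h e e' => by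
    refine mul_left_cancel₀ e ?_
    rw [e'] at h
    linear_combination h
  rintro ⟨⟨x, y⟩, h⟩ ⟨⟨x', y'⟩, h'⟩ e
  simp only at e h h'
  by_cases h1 : x = -1 <;> by_cases h1' : x' = -1
  · exact Subtype.ext (Prod.ext (h1.trans h1'.symm) ((k0 x y h h1).trans (k0 x' y' h' h1').symm))
  · simp [h1, h1'] at e
  · simp [h1, h1'] at e
  · rw [if_neg h1, if_neg h1', Option.some_inj] at e
    have n1 : x + 1 ≠ 0 := fun e => h1 (by linear_combination e)
    have n2 : x' + 1 ≠ 0 := fun e => h1' (by linear_combination e)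
    have a1 : y = y / (x + 1) * (x + 1) := by field_simp
    have a2 : y' = y / (x + 1) * (x' + 1) := by rw [e]; field_simp
    generalize y / (x + 1) = t at a1 a2
    have b1 := k1 x y t h n1 a1
    have b2 := k1 x' y' t h' n2 a2
    have n3 : 1 - c * t ^ 2 ≠ 0 := fun e => h2 (by
      rw [e, mul_zero] at b1
      linear_combination e - b1)
    have hx : x = x' := mul_right_cancel₀ n3 (b1.trans b2.symm)
    exact Subtype.ext (Prod.ext hx (by simp only; rw [a1, a2, hx]))

theorem card_fix_le [Finite F] (h2 : (2 : F) ≠ 0) (M : GL (Fin 2) F) (h1 : slDiag M ≠ 1)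
    (hM : slDiag M * slDiag M = 1) (T : Subgroup SL(2, F)) (hT : ∀ g ∈ T, slDiag M g = g) :
    Nat.card T ≤ Nat.card F + 1 := by
  obtain ⟨s, hs⟩ : ∃ s : F, (M * M).1 = s • 1 := by
    refine (pDiag_eq_one_iff (by simp)).mp ?_
    change autBar _ (slDiag (M * M)) = 1
    rw [map_mul, hM, map_one]
  have hns : ¬ (M.1 0 1 = 0 ∧ M.1 1 0 = 0 ∧ M.1 0 0 = M.1 1 1) := fun ⟨e1, e2, e3⟩ => h1 (by
    refine MulEquiv.ext fun g => Subtype.ext ?_
    have : M.1 * g.1 = g.1 * M.1 := by
      ext i j
      fin_cases i <;> fin_cases j <;> simp [Matrix.mul_apply, Fin.sum_univ_two, e1, e2, e3, mul_comm]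
    rw [slDiag_val, this, mul_assoc, Units.mul_inv, mul_one]; rfl)
  have e00 := congrFun (congrFun hs 0) 0
  have e01 := congrFun (congrFun hs 0) 1
  have e10 := congrFun (congrFun hs 1) 0
  have e11 := congrFun (congrFun hs 1) 1
  simp [Matrix.mul_apply, Fin.sum_univ_two] at e00 e01 e10 e11
  have hdet : M.1 0 0 * M.1 1 1 - M.1 0 1 * M.1 1 0 ≠ 0 := by
    rw [← Matrix.det_fin_two]
    exact (Matrix.isUnits_det_units M).ne_zero
  generalize hα : M.1 0 0 = α at *
  generalize hβ : M.1 0 1 = β at *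
  generalize hγ : M.1 1 0 = γ at *
  generalize hδ : M.1 1 1 = δ at *
  have htr : δ = -α := by
    by_contra hne
    have n : α + δ ≠ 0 := fun e => hne (by linear_combination e)
    refine hns ⟨mul_left_cancel₀ n (by linear_combination e01),
      mul_left_cancel₀ n (by linear_combination e10),
      mul_left_cancel₀ n (by linear_combination e00 - e11)⟩
  subst htr
  have hc : α * α + β * γ ≠ 0 := fun e => hdet (by linear_combination -e)
  have key : ∀ g : T, ∃ v : {v : F × F // v.1 ^ 2 - (α * α + β * γ) * v.2 ^ 2 = 1},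
      g.1.1 = !![v.1.1 + v.1.2 * α, v.1.2 * β; v.1.2 * γ, v.1.1 - v.1.2 * α] := fun g => by
    have hg : M.1 * g.1.1 = g.1.1 * M.1 := by
      have := congrArg Subtype.val (hT g g.2)
      rw [slDiag_val] at this
      conv_rhs => rw [← this]
      rw [mul_assoc, Units.inv_mul, mul_one]
    have f00 := congrFun (congrFun hg 0) 0
    have f01 := congrFun (congrFun hg 0) 1
    have f10 := congrFun (congrFun hg 1) 0
    simp only [Matrix.mul_apply, Fin.sum_univ_two, hα, hβ, hγ, hδ] at f00 f01 f10
    have hd := g.1.2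
    rw [Matrix.det_fin_two] at hd
    have hg' := Matrix.eta_fin_two g.1.1
    generalize g.1.1 0 0 = a at *
    generalize g.1.1 0 1 = b at *
    generalize g.1.1 1 0 = c at *
    generalize g.1.1 1 1 = d at *
    obtain ⟨y, y1, y2, y3⟩ : ∃ y, b = y * β ∧ c = y * γ ∧ a - d = y * (2 * α) := by
      by_cases n1 : β = 0
      · by_cases n2 : γ = 0
        · have n3 : 2 * α ≠ 0 := fun e => hns ⟨n1, n2, by linear_combination e⟩
          refine ⟨(a - d) / (2 * α), mul_left_cancel₀ n3 ?_, mul_left_cancel₀ n3 ?_,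
            (div_mul_cancel₀ _ n3).symm⟩
          · rw [n1] at f01 ⊢; linear_combination f01
          · rw [n2] at f10 ⊢; linear_combination -f10
        · refine ⟨c / γ, mul_left_cancel₀ n2 ?_, by field_simp, mul_left_cancel₀ n2 ?_⟩
          · field_simp; linear_combination -f00
          · field_simp; linear_combination f10
      · refine ⟨b / β, by field_simp, mul_left_cancel₀ n1 ?_, mul_left_cancel₀ n1 ?_⟩
        · field_simp; linear_combination f00
        · field_simp; linear_combination -f01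
    refine ⟨⟨(a - y * α, y), ?_⟩, ?_⟩
    · have : d = a - y * (2 * α) := by linear_combination -y3
      rw [y1, y2, this] at hd
      simp only
      linear_combination hd
    · rw [hg']
      change !![a, b; c, d] = !![a - y * α + y * α, y * β; y * γ, a - y * α - y * α]
      rw [← y1, ← y2, sub_add_cancel, show a - y * α - y * α = d by linear_combination y3]
  choose f hf using key
  exact (Nat.card_le_card_of_injective f fun g g' e =>
    Subtype.ext (Subtype.ext (by rw [hf, hf, e]))).trans (card_conic h2 hc)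

end Cfsg.Agent.H16.SwE
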