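import Mathlib

/-!
# The degree arithmetic of the semidihedral case
-/

set_option autoImplicit false

namespace Cfsg.Agent.H16.SwG

theorem abs_cases_three {m N : ℕ} (h0 : m ≠ 0) (hm : m ∣ N)
    (h : ∀ r : ℕ, r.Prime → r ∣ m → r = 3 ∧ ¬ 9 ∣ N) : m = 1 ∨ m = 3 := by
  by_cases h1 : m = 1
  · exact Or.inl h1
  obtain ⟨r, hr, hrm⟩ := Nat.exists_prime_and_dvd h1
  obtain ⟨rfl, h9⟩ := h r hr hrm
  obtain ⟨k, rfl⟩ := hrm
  by_cases h2 : k = 1
  · exact Or.inr (by rw [h2])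
  obtain ⟨s, hs, hsk⟩ := Nat.exists_prime_and_dvd h2
  obtain ⟨rfl, -⟩ := h s hs (hsk.mul_left 3)
  exact absurd ((Nat.mul_dvd_mul_left 3 hsk).trans hm) h9

theorem arith {N c n p : ℕ} {q Y Z W : ℤ} (hp : p.Prime) (hp2 : p ≠ 2) (hq : q = p ∨ q = -p)
    (h4q : 4 ∣ q + 1) (h4c : 4 ∣ c) (hN : Odd N) (hpc : p ∣ c) (hcn : c ∣ n) (hxn : q - 1 ∣ n)
    (hall : ∀ r : ℕ, r.Prime → r ≠ 2 → r ∣ n → r ∣ N → r = 3 ∧ ¬ 9 ∣ N ∧ ¬ 3 ∣ c)
    (hb : p * (p - 1) ≤ c) (hY : Y ≠ 0) (hX : Y + 1 ≠ 0) (r0 : 1 + Y = Z + W)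
    (r2 : W * Y = q ^ 2 * Z) (r1 : N * (Y + q) ^ 2 * q = c ^ 2 * (q - 1) * (Y + 1) * Y)
    (dZ : Z ∣ N) (dY : Y ∣ N * q) (dW : W ∣ N * q) :
    q = -5 ∧ N = 357 ∧ c = 20 ∧ Y = -35 ∧ W = 85 ∧ Z = -119 := by
  have hp3 : 3 ≤ p := by have := hp.two_le; omega
  have hne2 : ∀ r : ℕ, r ∣ N → r ≠ 2 := by
    rintro _ hr rfl
    exact (Nat.not_even_iff_odd.mpr hN) (even_iff_two_dvd.mpr hr)
  have hcN : c.Coprime N := Nat.coprime_of_dvd fun r hr h1 h2 => by
    obtain ⟨rfl, -, h3⟩ := hall r hr (hne2 r h2) (h1.trans hcn) h2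
    exact h3 h1
  have hq0 : q ≠ 0 := by omega
  have hqp : Prime q := by
    rcases hq with rfl | rfl
    · exact Nat.prime_iff_prime_int.mp hp
    · exact (Nat.prime_iff_prime_int.mp hp).neg
  have hqN : ¬ q ∣ N := fun h => by
    have h1 : (p : ℤ) ∣ N := by
      rcases hq with rfl | rfl
      · exact h
      · exact (neg_dvd).mp h
    have := Nat.dvd_gcd hpc (Int.natCast_dvd_natCast.mp h1)
    rw [hcN, Nat.dvd_one] at this
    omega
  have key : ∀ A B : ℤ, A * B = q ^ 2 * Z → A ∣ N * q → q ∣ B := fun A B h1 h2 => by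
    by_contra h3
    have h4 : q ^ 2 ∣ A := hqp.pow_dvd_of_dvd_mul_right 2 h3 ⟨Z, h1⟩
    have h5 := h4.trans h2
    rw [sq] at h5
    exact hqN ((mul_dvd_mul_iff_right hq0).mp h5)
  obtain ⟨b', hb'⟩ := key W Y r2 dW
  obtain ⟨a, rfl⟩ := key Y W (by rw [mul_comm, r2]) dY
  obtain ⟨d, rfl⟩ : ∃ d, b' = -(d + 1) := ⟨-b' - 1, by ring⟩
  subst hb'
  have hZ : Z = -(a * (d + 1)) := mul_left_cancel₀ (pow_ne_zero 2 hq0) (by linear_combination -r2)
  subst hZ
  obtain ⟨c', rfl⟩ := hpc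
  have hcc : ((p * c' : ℕ) : ℤ) ^ 2 = q ^ 2 * c' ^ 2 := by
    rcases hq with rfl | rfl <;> push_cast <;> ring
  rw [hcc] at r1
  have hx0 : q - 1 ≠ 0 := by omega
  obtain ⟨g, d1, x1, hg, hcop, hd, hx⟩ := Int.exists_gcd_one' (Int.gcd_pos_of_ne_zero_right d hx0)
  have hg0 : (g : ℤ) ≠ 0 := by omega
  have hcop' : IsCoprime d1 x1 := Int.isCoprime_iff_gcd_eq_one.mpr hcop
  have e1 : N * d1 ^ 2 = c' ^ 2 * (x1 * (d + 1) * (q * d1 + x1)) := by
    refine mul_left_cancel₀ (mul_ne_zero (pow_ne_zero 3 hq0) (pow_ne_zero 2 hg0)) ?_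
    have e2 : q * d + (q - 1) = g * (q * d1 + x1) := by rw [hx]; conv_lhs => rw [hd]
                                                        ring
    have e3 : (N : ℤ) * d ^ 2 * q ^ 3 = q ^ 3 * c' ^ 2 * (q - 1) * (d + 1) * (q * d + (q - 1)) := by
      linear_combination r1
    rw [e2, hx] at e3
    have e4 : d ^ 2 = d1 ^ 2 * g ^ 2 := by rw [hd]; ring
    rw [e4] at e3
    linear_combination e3
  have hx10 : x1 ≠ 0 := fun h => hx0 (by rw [hx, h, zero_mul])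
  have hx1N : x1 ∣ N := (hcop'.symm.pow_right (n := 2)).dvd_of_dvd_mul_right
    ⟨c' ^ 2 * (d + 1) * (q * d1 + x1), by rw [e1]; ring⟩
  have hx1n : x1 ∣ n := (Dvd.intro _ hx.symm).trans hxn
  have hx13 := abs_cases_three (m := x1.natAbs) (N := N) (by omega) (Int.natAbs_dvd_natAbs.mpr hx1N)
    fun r hr h1 => by
      have h2 := h1.trans (Int.natAbs_dvd_natAbs.mpr hx1N)
      have h3 := h1.trans (Int.natAbs_dvd_natAbs.mpr hx1n)
      rw [Int.natAbs_natCast] at h2 h3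
      have := hall r hr (hne2 r h2) h3 h2
      exact ⟨this.1, this.2.1⟩
  have hc' : p - 1 ≤ c' := Nat.le_of_mul_le_mul_left hb hp.pos
  have h4c' : 4 ∣ c' := by
    have : (2 ^ 2).Coprime p := Nat.Coprime.pow_left 2
      ((Nat.coprime_primes Nat.prime_two hp).mpr hp2.symm)
    exact this.dvd_of_dvd_mul_left h4c
  have hc'd : (c' : ℤ) ∣ d1 := by
    have h1 : IsCoprime ((c' : ℤ) ^ 2) N :=
      (Nat.isCoprime_iff_coprime.mpr (Nat.Coprime.coprime_mul_left hcN)).pow_left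
    exact (Int.pow_dvd_pow_iff two_ne_zero).mp (h1.dvd_of_dvd_mul_left ⟨_, e1⟩)
  have hd10 : d1 ≠ 0 := by
    rintro rfl
    have h1 : (c' : ℤ) ≠ 0 := by omega
    have h2 : d + 1 ≠ 0 := by rw [hd]; simp
    have := mul_ne_zero (pow_ne_zero 2 h1) (mul_ne_zero (mul_ne_zero hx10 h2) hx10)
    exact this (by linear_combination -e1)
  have hle : (c' : ℤ) ≤ |d1| := Int.le_of_dvd (abs_pos.mpr hd10) ((dvd_abs _ _).mpr hc'd)
  obtain ⟨w, hw⟩ := h4q
  have hdw : d1 - x1 ∣ w := by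
    have h1 : d1 - x1 ∣ x1 * (4 * w) := by
      refine ⟨a - q, mul_left_cancel₀ hg0 ?_⟩
      rw [← hw]
      have e5 : (d - (q - 1)) * (a - q) = (q - 1) * (q + 1) := by linear_combination r0
      rw [hx] at e5
      rw [hd] at e5
      linear_combination -e5
    have h2 : IsCoprime (d1 - x1) x1 := by
      have := hcop'.add_mul_left_left (-1)
      rwa [mul_neg_one, ← sub_eq_add_neg] at this
    have h3 : IsCoprime (d1 - x1) (2 ^ 2) := by
      refine IsCoprime.pow_right (Int.isCoprime_two_right.mpr ?_)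
      have : (4 : ℤ) ∣ d1 := (Int.natCast_dvd_natCast.mpr h4c').trans hc'd
      rw [Int.odd_iff]
      omega
    exact h3.dvd_of_dvd_mul_left (by simpa using h2.dvd_of_dvd_mul_left h1)
  have hw0 : w ≠ 0 := by omega
  have hle2 : |d1 - x1| ≤ |w| := Int.le_of_dvd (abs_pos.mpr hw0) ((abs_dvd_abs _ _).mpr hdw)
  have hp5 : p ≤ 5 := by
    rcases abs_cases d1 with h | h <;> rcases abs_cases (d1 - x1) with h' | h' <;>
      rcases abs_cases w with h'' | h'' <;> omega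
  have hp4 : p ≠ 4 := by rintro rfl; norm_num at hp
  have hx3 : x1 = 3 ∨ x1 = -3 := by
    rcases abs_cases d1 with h | h <;> rcases abs_cases (d1 - x1) with h' | h' <;>
      rcases abs_cases w with h'' | h'' <;> omega
  have hq5 : q = -5 := by rcases hx3 with rfl | rfl <;> omega
  subst hq5
  have hx3' : x1 = -3 := by rcases hx3 with rfl | rfl <;> omega
  subst hx3'
  have hg2 : (g : ℤ) = 2 := by omega
  have hd4 : d1 = -4 := by
    rcases abs_cases d1 with h | h <;> rcases abs_cases (d1 - -3) with h' | h' <;>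
      rcases abs_cases w with h'' | h'' <;> omega
  subst hd4
  have hp5' : p = 5 := by omega
  have hc4 : c' = 4 := by
    rw [show |(-4 : ℤ)| = 4 by norm_num] at hle
    omega
  have hd8 : d = -8 := by omega
  subst hd8 hc4 hp5'
  norm_num at e1
  omega

end Cfsg.Agent.H16.SwG
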