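import Mathlib
import Cfsg.Agent.H7.BR6

/-!
A character of degree `p - 1` of a simple group with Sylow normalizer of order `2 p` is not
symplectic.
-/

set_option autoImplicit false
set_option linter.unusedSectionVars false
set_option linter.unusedVariables false
set_option linter.style.haveILetI false

namespace Cfsg.Agent.H16.TpG

open Cfsg Subgroup MulAction Finset Cfsg.Agent.H24.D1 Cfsg.Agent.H23 Cfsg.Agent.H7
open scoped MatrixGroups ComplexConjugate commutatorElement

open Classical in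
theorem sum0 {G : Type*} [Group G] [Fintype G] {φ : G → ℂ} (hφ : IsCharacter G φ)
    {H K : Subgroup G} (hle : H ≤ K) (h : ∑ s with s ∈ H, φ s = 0) :
    ∑ s with s ∈ K, φ s = 0 := by
  obtain ⟨a, b, ha, hb, hab⟩ := ip_ind_one_le hle hφ
  rw [ip_ind_left _ _ (char_cf hφ)] at ha hb
  have h1 := sum_eq_card_mul_ip fun s : H => φ s
  have h2 := sum_eq_card_mul_ip fun s : K => φ s
  rw [show ip (fun s : H => φ s) 1 = a from ip_natCast_comm ha,
    ← sum_subtype (univ.filter (· ∈ H)) (by simp) φ, h] at h1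
  have h3 : a = 0 := by
    have := (mul_eq_zero.1 h1.symm).resolve_left (card_ne_zero' H)
    exact_mod_cast this
  rw [show ip (fun s : K => φ s) 1 = b from ip_natCast_comm hb,
    ← sum_subtype (univ.filter (· ∈ K)) (by simp) φ, show b = 0 by omega] at h2
  simpa using h2

open Classical in
theorem sumP {G : Type*} [Group G] [Fintype G] {P : Subgroup G} {p : ℕ} (hP : Nat.card P = p)
    (f : G → ℂ) (c : ℂ) (h : ∀ u ∈ P, u ≠ 1 → f u = c) :
    ∑ s with s ∈ P, f s = f 1 + (p - 1) * c := by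
  have h1 : (1 : G) ∈ univ.filter (· ∈ P) := by simp [one_mem]
  have hc : #(univ.filter (· ∈ P)) = p := by rw [← hP, ← H20.natCard_subtype_eq_filter]
  have hp : 1 ≤ p := hc ▸ card_pos.2 ⟨1, h1⟩
  rw [← add_sum_erase _ _ h1, sum_congr rfl (g := fun _ => c) fun u hu =>
    h u (mem_filter.1 (mem_erase.1 hu).2).2 (mem_erase.1 hu).1, sum_const, card_erase_of_mem h1, hc,
    nsmul_eq_mul, Nat.cast_sub hp, Nat.cast_one]

open Classical in
theorem sumN {G : Type*} [Group G] [Fintype G] {P N : Subgroup G} {p : ℕ} (hP : Nat.card P = p)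
    (hN : Nat.card N = 2 * p) (hle : P ≤ N)
    (f : G → ℂ) (c e : ℂ) (h : ∀ u ∈ P, u ≠ 1 → f u = c) (h' : ∀ u ∈ N, u ∉ P → f u = e) :
    ∑ s with s ∈ N, f s = f 1 + (p - 1) * c + p * e := by
  have hs : univ.filter (· ∈ P) ⊆ univ.filter (· ∈ N) := fun u hu => by
    simpa using hle (by simpa using hu)
  have hc : #(univ.filter (· ∈ P)) = p := by rw [← hP, ← H20.natCard_subtype_eq_filter]
  have hc' : #(univ.filter (· ∈ N)) = 2 * p := by rw [← hN, ← H20.natCard_subtype_eq_filter]
  rw [← sum_sdiff hs, sumP hP f c h, sum_congr rfl (g := fun _ => e) fun u hu =>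
    h' u (by simpa using (mem_sdiff.1 hu).1) (by simpa using (mem_sdiff.1 hu).2), sum_const,
    card_sdiff_of_subset hs, hc, hc', show 2 * p - p = p by omega, nsmul_eq_mul]
  ring

theorem tpG {G : Type*} [Group G] [Fintype G] [IsSimpleGroup G] (hG : ¬ IsMulCommutative G)
    {p : ℕ} [Fact p.Prime] (hp3 : 3 < p) (P : Sylow p G) (hP : Nat.card P = p)
    (hN : Nat.card (normalizer ((P : Subgroup G) : Set G)) = 2 * p) (χ : G → ℂ)
    (hχ : IsIrrCharacter G χ) (hd : charDegree χ = p - 1) : Cfsg.Agent.H6.fsInd χ ≠ -1 := by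
  classical
  intro hfs
  have hp : p.Prime := Fact.out
  have hp2 : p ≠ 2 := by omega
  obtain ⟨x, hx, hxP⟩ := exists_syl1 P hP
  rw [← hxP] at hN
  have hcomm : commutator G = ⊤ := by
    refine (IsSimpleGroup.eq_bot_or_eq_top_of_normal (commutator G) inferInstance).resolve_left
      fun e => hG ⟨⟨fun a b => ?_⟩⟩
    have : ⁅a, b⁆ ∈ commutator G := commutator_mem_commutator (mem_top a) (mem_top b)
    rw [e, mem_bot] at this
    exact commutatorElement_eq_one_iff_mul_comm.1 this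
  obtain ⟨h, he⟩ := SC_of_card hx hN (hx.relIndex_ne_one (hcomm ▸ mem_top x))
  obtain ⟨M, hM⟩ := H9.exists_pmod p
  obtain ⟨X, ψ, ε, δ, F, h1⟩ := h.syl1.exists_fam_principal hM
  obtain ⟨hX, hne, hε⟩ := e2_fam h he hp3 hM F h1 (χ := ⟨χ, hχ⟩) hd
  have hsing : ∀ g, p ∣ orderOf g → χ g = -1 := fun g hg => by
    have := F.val₀ hX hg
    rw [hε] at this
    simpa using this
  have hu : ∀ u ∈ zpowers x, u ≠ 1 → p ∣ orderOf u := fun u hu h1 =>
    (h.syl1.orderOf_eq hu h1).symm ▸ dvd_rfl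
  have hχ1 : χ 1 = p - 1 := by
    rw [char_one_eq (irr_char hχ), hd, Nat.cast_sub hp.one_le, Nat.cast_one]
  obtain ⟨j, hj, hjN⟩ := SC_exists_inv_NN h (by rw [he]; exact even_two)
  have hle : zpowers x ≤ NN x := (zp_le_CC x).trans (CC_le_NN x)
  have hout : ∀ k ∈ NN x, k ∉ zpowers x → orderOf k = 2 := fun k hk hk' => by
    refine ((SC_inv_iff h hp2 hj hjN (k := k)).2 ?_).1
    have h2 : ((CC x).subgroupOf (NN x)).index = 2 := he
    have h3 := (mul_mem_iff_of_index_two h2 (a := ⟨j⁻¹, inv_mem hjN⟩) (b := ⟨k, hk⟩)).2 (by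
      simp only [mem_subgroupOf, inv_mem_iff]
      exact ⟨fun e => absurd e (SC_inv_notMem h hp2 hj), fun e => absurd (h.cent ▸ e) hk'⟩)
    rw [← h.cent]
    exact h3
  have hcf := irr_cf hχ
  have hkj : ∀ k ∈ NN x, k ∉ zpowers x → χ k = χ j := fun k hk hk' => by
    obtain ⟨g, rfl⟩ := isConj_iff.1 (SC_inv_conj h hp2 hj hjN (hout k hk hk') hk)
    exact hcf _ _
  have hj0 : χ j = 0 := by
    have h2 := sum0 (irr_char hχ) hle (by
      rw [sumP hx.card_zp χ (-1) fun u a b => hsing u (hu u a b), hχ1]; ring)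
    rw [sumN hx.card_zp hN hle χ (-1) (χ j) (fun u a b => hsing u (hu u a b)) hkj, hχ1] at h2
    have h3 : (p : ℂ) * χ j = 0 := by linear_combination h2
    exact (mul_eq_zero.1 h3).resolve_left (Nat.cast_ne_zero.2 hp.ne_zero)
  have hreal : (fun g => conj (χ g)) = χ := by
    by_contra hc
    rw [H6.fsInd_of_not_real hχ hc] at hfs
    norm_num at hfs
  have hΛ := H6.isCharacter_altSq (irr_char hχ)
  have h2 := sum0 hΛ (le_top (a := NN x)) (by
    rw [sumN hx.card_zp hN hle _ 1 (-(p - 1) / 2) (fun u a b => by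
      simp only [hsing u (hu u a b), hsing _ (dvd_orderOf_sq hp2 (hu u a b))]; norm_num)
      (fun k a b => by
        simp only [hkj k a b, hj0, H20.mul_self_of_orderOf_two (hout k a b), hχ1]; ring)]
    simp only [mul_one, hχ1]
    ring)
  have h3 := ip_irr_self hχ
  rw [ip_def] at h3
  rw [H6.fsInd_def] at hfs
  simp only [mem_top, filter_true] at h2
  rw [← sum_div, sum_sub_distrib, div_eq_zero_iff, or_iff_left two_ne_zero, sub_eq_zero] at h2
  simp only [congrFun hreal, ← pow_two] at h3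
  rw [h2, hfs] at h3
  norm_num at h3

end Cfsg.Agent.H16.TpG
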