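import Cfsg.Agent.H8.Tr0

/-! S3105: a natural module in the centre of `Q`. -/

set_option autoImplicit false
set_option linter.unusedSectionVars false
set_option linter.unusedVariables false

namespace Cfsg.Agent.H8.Tr

open Cfsg Subgroup Cfsg.Agent.FT

universe u

variable {X : Type u} [Group X] [Finite X] {Q N D : Subgroup X} {σ ρ c z w : X}

/-- the elements of the centre of `Q` whose square is trivial -/
def omW (Q : Subgroup X) : Subgroup X where
  carrier := {a | a ∈ Q ∧ a ∈ C(Q) ∧ a * a = 1}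
  one_mem' := ⟨one_mem _, one_mem _, one_mul _⟩
  mul_mem' := by
    rintro a b ⟨h1, h2, h3⟩ ⟨h4, h5, h6⟩
    refine ⟨mul_mem h1 h4, mul_mem h2 h5, ?_⟩
    have := mem_cen.1 h2 b h4
    calc a * b * (a * b) = a * (b * a) * b := by group
      _ = a * a * (b * b) := by rw [this]; group
      _ = 1 := by rw [h3, h6, one_mul]
  inv_mem' := by
    rintro a ⟨h1, h2, h3⟩
    exact ⟨inv_mem h1, inv_mem h2, by rw [← mul_inv_rev, h3, inv_one]⟩

theorem om_normal [hQ : Q.Normal] : (omW Q).Normal := ⟨fun a ⟨h1, h2, h3⟩ g =>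
  ⟨hQ.conj_mem a h1 g, (inferInstance : (C(Q)).Normal).conj_mem a h2 g, by
    calc g * a * g⁻¹ * (g * a * g⁻¹) = g * (a * a) * g⁻¹ := by group
      _ = 1 := by rw [h3]; group⟩⟩

theorem om_cen (h : B Q σ ρ) [N.Normal] (hN : N ≤ omW Q) (hσ : σ ∉ C(N)) : C(N) = Q :=
  (h.simp _ inferInstance fun q hq => mem_cen.2 fun x hx =>
    (mem_cen.1 (hN hx).2.1 q hq).symm).resolve_right fun e => hσ (e ▸ mem_top σ)

theorem om (h : B Q σ ρ) (hQ : Q ≠ ⊥) (hZ : ∀ z ∈ Q, z ∈ center X → z = 1) :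
    ∃ N, Nm Q N ∧ N ⊓ C(⟪σ⟫) = ⊥ ∧ ∀ a ∈ Q, a ∈ C(Q) → a * a = 1 → ∀ w : X, w * w ∈ Q →
      w * a = a * w → a ∈ N ∨ w ∈ Q := by
  haveI := h.nQ
  haveI hW : (omW Q).Normal := om_normal
  have hWQ : omW Q ≤ Q := fun a ha => ha.1
  have hcm : ∀ a ∈ omW Q, ∀ b ∈ omW Q, a * b = b * a := fun a ha b hb => mem_cen.1 hb.2.1 a ha.1
  have hab : Ab (omW Q) := ⟨⟨fun a b => Subtype.ext (hcm a a.2 b b.2)⟩⟩
  have h16 : #(omW Q) ≤ 16 := by
    simpa using h.sr (omW Q) ⊥ le_top bot_le fun x hx => hx.2.2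
  have hσ : σ ∉ C(omW Q) := fun hc => by
    obtain ⟨x, hx, ho⟩ := (h.pQ.inf_left C(Q)).exists_elt (h.pQ.center_ne_bot hQ)
    have hx' : x ∈ omW Q := ⟨hx.1, hx.2, by rw [← pow_two, ← ho, pow_orderOf_eq_one]⟩
    have h1 : C(omW Q) = ⊤ := h.top (fun q hq => mem_cen.2 fun x hx =>
      (mem_cen.1 hx.2.1 q hq).symm) hc
    have := hZ x hx.1 (mem_center_iff.2 fun g => (mem_cen.1 (h1 ▸ mem_top g) x hx').symm)
    rw [this, orderOf_one] at ho
    omega
  have hn : ⟪σ⟫ ≤ N(omW Q) := nrm_of _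
  have hme := coprime_cent_prod hn (h.cop hWQ) (h.sol hWQ)
  have hti := coprime_abel_cent_TI hn (h.cop hWQ) hab
  have hσV : σ ∈ N(⁅omW Q, ⟪σ⟫⁆) := norm_comm_right _ _ (mem_zpowers σ)
  generalize ⁅omW Q, ⟪σ⟫⁆ = V at hme hti hσV
  have hVW := hme.left
  have hV1 : V ≠ ⊥ := fun e => hσ (mem_cen.2 fun x hx => by
    obtain ⟨a, ha, b, hb, rfl⟩ := hme.mul x hx
    rw [e, mem_bot] at ha
    rw [ha, one_mul]
    exact (mem_cen.1 hb.2 σ (mem_zpowers σ)).symm)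
  have hσC : σ ∉ C(V) := fun hc => hV1 (by
    rw [← hti]; exact (inf_eq_left.2 (by rw [cen_zpowers]; exact le_cen1.2 hc)).symm)
  have hV8 : #V = 8 := by
    have h1 : SemiReg V ⟪σ⟫ := semiReg_of_prime (by rw [Nat.card_zpowers, h.o7]; norm_num) hti
    have h2 := h1.dvd_pred (zpowers_le.2 hσV)
    rw [Nat.card_zpowers, h.o7] at h2
    obtain ⟨k, hk⟩ := (h.pQ.mono (hVW.trans hWQ)).card
    have h3 : #V ≠ 1 := fun e => hV1 (card_eq_one.1 e)
    have h4 := (card_le_of_le hVW).trans h16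
    rw [hk] at h2 h3 h4 ⊢
    have : k ≤ 4 := (Nat.pow_le_pow_iff_right (by norm_num)).1 (show 2 ^ k ≤ 2 ^ 4 from h4)
    interval_cases k <;> omega
  have hcard := hme.card
  rw [inf_left_comm, hti, inf_bot_eq, card_bot, mul_one, hV8] at hcard
  by_cases hC : omW Q ⊓ C(⟪σ⟫) = ⊥
  · have e : V = omW Q := eq_of_le_of_card_ge hVW (by rw [hcard, hC, card_bot, hV8])
    subst e
    exact ⟨_, ⟨hW, hV8, fun n hn => hn.2.2, hWQ, om_cen h le_rfl hσ⟩, hti,
      fun a h1 h2 h3 _ _ _ => Or.inl ⟨h1, h2, h3⟩⟩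
  obtain ⟨c, hc, hc1⟩ := exists_ne_one hC
  have c2 : c * c = 1 := hc.1.2.2
  have hcc : omW Q ⊓ C(⟪σ⟫) = ⟪c⟫ := (eq_of_le_of_card_ge (zpowers_le.2 hc) (by
    rw [Nat.card_zpowers, H20.orderOf_two_of c2 hc1]; omega)).symm
  have hW16 : #(omW Q) = 16 := by rw [hcard, hcc, Nat.card_zpowers, H20.orderOf_two_of c2 hc1]
  have hcV : c ∉ V := fun e => hc1 (mem_bot.1 (hti ▸ ⟨e, hc.2⟩))
  have hdec : ∀ x ∈ omW Q, x ∈ V ∨ ∃ v ∈ V, x = v * c := fun x hx => by
    obtain ⟨a, ha, b, hb, rfl⟩ := hme.mul x hx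
    rw [hcc, zp2 c2] at hb
    rcases hb with rfl | rfl
    · exact Or.inl (by simpa using ha)
    · exact Or.inr ⟨a, ha, rfl⟩
  have hcl : ∀ y, IsConj c y → y ∈ omW Q := fun y hy => by
    obtain ⟨g, rfl⟩ := isConj_iff.1 hy
    exact hW.conj_mem c hc.1 g
  have hne : ∀ y, IsConj c y → y ≠ 1 := fun y hy e => hc1 (isConj_one_left.1 (e ▸ hy))
  have T1 : ∀ v ∈ V, IsConj c v → ∀ u ∈ V, u ≠ 1 → IsConj c u := fun v hv e u hu h1 => by
    obtain ⟨s, -, hs⟩ := tr7 h.o7 hV8 hσV hti hv (hne v e) hu h1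
    exact e.trans (isConj_iff.2 ⟨s, hs⟩)
  have T2 : ∀ v ∈ V, v ≠ 1 → IsConj c (v * c) → ∀ u ∈ V, IsConj c (u * c) :=
    fun v hv v1 e u hu => by
      by_cases h1 : u = 1
      · rw [h1, one_mul]
      obtain ⟨s, hs', hs⟩ := tr7 h.o7 hV8 hσV hti hv v1 hu h1
      refine e.trans (isConj_iff.2 ⟨s, ?_⟩)
      have := mem_cen.1 hc.2 s hs'
      calc s * (v * c) * s⁻¹ = s * v * s⁻¹ * (s * c) * s⁻¹ := by group
        _ = _ := by rw [hs, this]; group
  have hdv : ∀ a ∈ omW Q, Q ≤ C[a] := fun a ha => le_cen1.2 ha.2.1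
  by_cases t1 : ∃ v ∈ V, IsConj c v <;> by_cases t2 : ∃ v ∈ V, v ≠ 1 ∧ IsConj c (v * c)
  · exfalso
    obtain ⟨v, hv, e⟩ := t1
    obtain ⟨u, hu, u1, e'⟩ := t2
    have h1 : {y | IsConj c y} = (omW Q : Set X) \ {1} := by
      ext y
      refine ⟨fun hy => ⟨hcl y hy, hne y hy⟩, fun hy => ?_⟩
      rcases hdec y hy.1 with k | ⟨k, hk, rfl⟩
      · exact T1 v hv e y k hy.2
      · exact T2 u hu u1 e' k hk
    have h2 := index_dvd_of_le (hdv c hc.1)
    rw [← H20.card_isConj_eq_index, h.idx, show Nat.card {g // IsConj c g} =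
      {y | IsConj c y}.ncard from rfl, h1, Set.ncard_sdiff_singleton_of_mem (one_mem _),
      show (omW Q : Set X).ncard = 16 from hW16] at h2
    norm_num at h2
  · exfalso
    obtain ⟨v, hv, e⟩ := t1
    push Not at t2
    obtain ⟨x, hx, hxv⟩ : ∃ x ∈ V, x ∉ ⟪v⟫ := by
      by_contra hc'
      push Not at hc'
      have := card_le_of_le (show V ≤ ⟪v⟫ from hc')
      rw [hV8, Nat.card_zpowers, H20.orderOf_two_of (hVW hv).2.2 (hne v e)] at this
      omega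
    obtain ⟨g, hg⟩ := isConj_iff.1 e.symm
    have key : ∀ y ∈ V, y ≠ 1 → ∃ u ∈ V, g * (y * c) * g⁻¹ = u * c := fun y hy y1 => by
      refine (hdec _ (hW.conj_mem _ (mul_mem (hVW hy) hc.1) g)).resolve_left fun k => ?_
      refine t2 y hy y1 ((T1 v hv e _ k fun e' => ?_).trans (isConj_iff.2 ⟨g⁻¹, by group⟩))
      have : y * c = 1 := by simpa using e'
      exact hcV (by rw [eq_inv_of_mul_eq_one_right this]; exact inv_mem hy)
    obtain ⟨u, hu, e1⟩ := key x hx fun k => hxv (k ▸ one_mem _)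
    obtain ⟨u', hu', e2⟩ := key (v * x) (mul_mem hv hx) fun k => hxv (by
      rw [eq_inv_of_mul_eq_one_right k]; exact inv_mem (mem_zpowers v))
    refine hcV ?_
    have : c = u' * u⁻¹ := by
      calc c = g * v * g⁻¹ := hg.symm
        _ = g * (v * x * c) * g⁻¹ * (g * (x * c) * g⁻¹)⁻¹ := by group
        _ = _ := by rw [e1, e2]; group
    rw [this]
    exact mul_mem hu' (inv_mem hu)
  · obtain ⟨u, hu, u1, e'⟩ := t2
    push Not at t1
    haveI hV : V.Normal := ⟨fun v hv g => by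
      refine (hdec _ (hW.conj_mem _ (hVW hv) g)).resolve_right ?_
      rintro ⟨k, hk, e⟩
      exact t1 v hv ((T2 u hu u1 e' k hk).trans (isConj_iff.2 ⟨g⁻¹, by rw [← e]; group⟩))⟩
    refine ⟨V, ⟨hV, hV8, fun n hn => (hVW hn).2.2, hVW.trans hWQ, om_cen h hVW hσC⟩, hti,
      fun a h1 h2 h3 w hw e => ?_⟩
    refine (hdec a ⟨h1, h2, h3⟩).imp_right ?_
    rintro ⟨k, hk, rfl⟩
    have h4 : {y | IsConj (k * c) y} = (fun v => v * c) '' V := by
      ext y
      constructor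
      · intro hy
        have hy' := (T2 u hu u1 e' k hk).trans hy
        obtain ⟨l, hl, rfl⟩ := (hdec y (hcl y hy')).resolve_left fun k => t1 y k hy'
        exact ⟨l, hl, rfl⟩
      · rintro ⟨l, hl, rfl⟩
        exact (T2 u hu u1 e' k hk).symm.trans (T2 u hu u1 e' l hl)
    have h5 := relIndex_mul_index (hdv (k * c) ⟨h1, h2, h3⟩)
    rw [← H20.card_isConj_eq_index, h.idx, show Nat.card {g // IsConj (k * c) g} =
      {y | IsConj (k * c) y}.ncard from rfl, h4,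
      Set.ncard_image_of_injective _ (mul_left_injective c),
      show (V : Set X).ncard = 8 from hV8] at h5
    have h6 := (Q.subgroupOf C[k * c]).pow_index_mem ⟨w, mem_cen1.2 e⟩
    rw [show (Q.subgroupOf C[k * c]).index = 21 by change Q.relIndex _ = 21; omega] at h6
    have h7 : w ^ 21 ∈ Q := h6
    have h8 := mul_mem h7 (inv_mem (pow_mem hw 10))
    rwa [← pow_two, ← pow_mul, pow_succ' w 20, mul_inv_cancel_right] at h8
  · exfalso
    push Not at t1 t2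
    refine hc1 (hZ c hc.1.1 (mem_center_iff.2 fun g => ?_))
    have hy : IsConj c (g * c * g⁻¹) := isConj_iff.2 ⟨g, rfl⟩
    obtain ⟨l, hl, e⟩ := (hdec _ (hcl _ hy)).resolve_left fun k => t1 _ k hy
    by_cases l1 : l = 1
    · rw [l1, one_mul] at e
      exact mul_inv_eq_iff_eq_mul.1 e
    · exact absurd (e ▸ hy) (t2 l hl l1)

end Cfsg.Agent.H8.Tr
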