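import Cfsg.Agent.H8.Tr0
import Cfsg.Agent.H10.SL

/-! S3105: the elements of order `7` and `3`. -/

set_option autoImplicit false
set_option linter.unusedSectionVars false
set_option linter.unusedVariables false

namespace Cfsg.Agent.H8.Tr

open Cfsg Subgroup Cfsg.Agent.FT

universe u

variable {X : Type u} [Group X] [Finite X] {Q N D : Subgroup X} {σ ρ c z w : X}

theorem setup_card {F : Type*} [Field F] [Fintype F] (h : Fintype.card F = 2) :
    Nat.card (Matrix.ProjectiveSpecialLinearGroup (Fin 3) F) = 168 := by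
  have h1 := H10.card_PSL_fin (F := F) 3 (by norm_num)
  have h2 := H10.card_units_mul_card_SL (ι := Fin 3) (F := F)
  rw [Matrix.card_GL_field, H10.card_units_eq, h] at h2
  simp only [Fin.prod_univ_three] at h2
  rw [h] at h1
  norm_num at h1 h2
  omega

theorem setup_nrm {Y : Type*} [Group Y] [Finite Y] [IsSimpleGroup Y] (hY : Nat.card Y = 168)
    {s : Y} (hs : orderOf s = 7) : ⟪s⟫.index = 24 ∧ N(⟪s⟫).index = 8 := by
  haveI : Fact (Nat.Prime 7) := ⟨by norm_num⟩
  have hi : ⟪s⟫.index = 24 := by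
    have := ⟪s⟫.card_mul_index
    rw [Nat.card_zpowers, hs, hY] at this
    omega
  have hp : IsPGroup 7 ⟪s⟫ := IsPGroup.of_card (n := 1) (by rw [Nat.card_zpowers, hs]; rfl)
  let P : Sylow 7 Y := hp.toSylow (by rw [hi]; norm_num)
  have h1 : Nat.card (Sylow 7 Y) = N(⟪s⟫).index := P.card_eq_index_normalizer
  have h2 := card_sylow_modEq_one 7 Y
  have h3 : Nat.card (Sylow 7 Y) ∣ 24 := hi ▸ P.card_dvd_index
  have h4 : N(⟪s⟫).index ≠ 1 := fun e => by
    rcases IsSimpleGroup.eq_bot_or_eq_top_of_normal ⟪s⟫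
      (normalizer_eq_top_iff.1 (index_eq_one.1 e)) with e | e
    · rw [e, index_bot, hY] at hi; omega
    · rw [e, index_top] at hi; omega
  rw [h1] at h2 h3
  refine ⟨hi, ?_⟩
  have h5 := Nat.le_of_dvd (by norm_num) h3
  generalize N(⟪s⟫).index = n at *
  unfold Nat.ModEq at h2
  interval_cases n <;> omega

theorem setup {F : Type*} [Field F] [Fintype F] (hF : Fintype.card F = 2)
    (e : X ⧸ pCore 2 X ≃* Matrix.ProjectiveSpecialLinearGroup (Fin 3) F)
    (h4 : SectionalPRankLE 2 4 X) : ∃ σ ρ : X, B (pCore 2 X) σ ρ := by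
  haveI : Fact (Nat.Prime 7) := ⟨by norm_num⟩
  haveI : Fact (Nat.Prime 3) := ⟨by norm_num⟩
  haveI : Fact (Nat.Prime 2) := ⟨by norm_num⟩
  haveI := H10.isSimpleGroup_PSL (ι := Fin 3) (F := F) (by simp)
  haveI := e.isSimpleGroup
  have hY : Nat.card (X ⧸ pCore 2 X) = 168 := by rw [Nat.card_congr e.toEquiv, setup_card hF]
  have pQ : PGrp 2 (pCore 2 X) := pGrp_of_isPGroup Nat.prime_two H2.pCore_isPGroup
  obtain ⟨k, hk⟩ := pQ.card
  have hX : Nat.card X = 168 * 2 ^ k := by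
    rw [card_eq_card_quotient_mul_card_subgroup (pCore 2 X), hY, hk]
  have hs := QuotientGroup.mk'_surjective (pCore 2 X)
  set f := QuotientGroup.mk' (pCore 2 X) with hf
  obtain ⟨σ, hσ⟩ := exists_prime_orderOf_dvd_card' (G := X) 7 (by
    rw [hX]; exact Dvd.dvd.mul_right (by norm_num) _)
  have hσ' : orderOf (f σ) = 7 := by
    refine orderOf_eq_prime (by rw [← map_pow, ← hσ, pow_orderOf_eq_one, map_one]) fun e => ?_
    have h1 := (pCore 2 X).orderOf_dvd_natCard ((QuotientGroup.eq_one_iff _).1 e)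
    rw [hσ, hk] at h1
    exact absurd ((by norm_num : Nat.Prime 7).dvd_of_dvd_pow h1) (by norm_num)
  obtain ⟨i1, i2⟩ := setup_nrm hY hσ'
  have c1 : #(⟪f σ⟫.comap f) = 7 * 2 ^ k := by
    have := (⟪f σ⟫.comap f).card_mul_index
    rw [index_comap_of_surjective _ hs, i1, hX] at this
    omega
  have c2 : #(N(⟪f σ⟫).comap f) = 21 * 2 ^ k := by
    have := (N(⟪f σ⟫).comap f).card_mul_index
    rw [index_comap_of_surjective _ hs, i2, hX] at this
    omega
  have hle : ⟪σ⟫ ≤ ⟪f σ⟫.comap f := zpowers_le.2 (mem_zpowers _)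
  have hS : Syl 7 ⟪σ⟫ (⟪f σ⟫.comap f) :=
    syl_of_not_dvd hle (pGrp_of_card_prime (by norm_num) (by rw [Nat.card_zpowers, hσ])) fun hd => by
      have h1 := card_inf_mul_relIndex ⟪σ⟫ (⟪f σ⟫.comap f)
      rw [inf_eq_left.2 hle, Nat.card_zpowers, hσ, c1] at h1
      rw [Nat.eq_of_mul_eq_mul_left (by norm_num) h1] at hd
      exact absurd ((by norm_num : Nat.Prime 7).dvd_of_dvd_pow hd) (by norm_num)
  have h5 := (hS.frattini (M := N(⟪f σ⟫).comap f)
    ⟨comap_mono le_normalizer, le_normalizer_comap f⟩).card_dvd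
  rw [c1, c2] at h5
  have h6 : 3 ∣ #(N(⟪f σ⟫).comap f ⊓ N(⟪σ⟫)) := by
    have h7 := (Dvd.dvd.mul_right (by norm_num : 3 ∣ 21) _).trans h5
    refine ((Nat.Prime.dvd_mul Nat.prime_three).1 h7).resolve_left fun h8 => ?_
    rcases (Nat.Prime.dvd_mul Nat.prime_three).1 h8 with h9 | h9
    · norm_num at h9
    · exact absurd (Nat.prime_three.dvd_of_dvd_pow h9) (by norm_num)
  obtain ⟨ρ, hρ⟩ := exists_prime_orderOf_dvd_card' 3 h6
  refine ⟨σ, ρ, inferInstance, pQ, hY, fun K hK hQ => ?_, hσ, by rw [orderOf_coe, hρ], ρ.2.2,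
    GO.sr_of h4⟩
  have hk' : f.ker ≤ K := by rw [hf, QuotientGroup.ker_mk']; exact hQ
  rcases IsSimpleGroup.eq_bot_or_eq_top_of_normal (K.map f) (hK.map f hs) with e | e
  · left
    rw [Subgroup.map_eq_bot_iff, hf, QuotientGroup.ker_mk'] at e
    exact le_antisymm e hQ
  · right
    rw [← comap_map_eq_self hk', e, comap_top]

end Cfsg.Agent.H8.Tr
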